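import Mathlib
import Cfsg.Agent.Lib.CoprimeAction.Aut

/-!
Two minimal planar actions of coprime order on an abelian `p`-group generate, inside a nilpotent group, either a single
group or a commuting pair. The planar actions are those of a group of order three on a four-group and of a quaternion
group on a group of order nine.
-/

set_option autoImplicit false

namespace CfsgLib.Replacement.Block

variable {U : Type*} [Group U]

/-- The subgroup generated by the elements `a u u⁻¹`. -/
def moved (A : Subgroup (MulAut U)) : Subgroup U :=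
  Subgroup.closure {x | ∃ a ∈ A, ∃ u : U, a u * u⁻¹ = x}

theorem mem_moved {A : Subgroup (MulAut U)} {a : MulAut U} (ha : a ∈ A) (u : U) :
    a u * u⁻¹ ∈ moved A :=
  Subgroup.subset_closure ⟨a, ha, u, rfl⟩

theorem apply_eq_moved_mul (a : MulAut U) (u : U) : a u = (a u * u⁻¹) * u := by group

theorem apply_mem_moved {A : Subgroup (MulAut U)} {a : MulAut U} (ha : a ∈ A) {x : U} (hx : x ∈ moved A) :
    a x ∈ moved A := by
  rw [apply_eq_moved_mul a x]
  exact mul_mem (mem_moved ha x) hx

theorem moved_conj_le (A : Subgroup (MulAut U)) (b : MulAut U) :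
    (moved A).map b.toMonoidHom ≤ moved (A.map (MulAut.conj b).toMonoidHom) := by
  rw [moved, MonoidHom.map_closure, Subgroup.closure_le]
  rintro _ ⟨_, ⟨a, ha, u, rfl⟩, rfl⟩
  refine Subgroup.subset_closure ⟨MulAut.conj b a, ⟨a, ha, rfl⟩, b u, ?_⟩
  simp [MulAut.conj_apply, map_mul, map_inv]

theorem moved_conj (A : Subgroup (MulAut U)) (b : MulAut U) :
    moved (A.map (MulAut.conj b).toMonoidHom) = (moved A).map b.toMonoidHom := by
  refine le_antisymm ?_ (moved_conj_le A b)
  rw [moved, Subgroup.closure_le]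
  rintro _ ⟨_, ⟨a, ha, rfl⟩, u, rfl⟩
  refine ⟨a (b⁻¹ u) * (b⁻¹ u)⁻¹, mem_moved ha _, ?_⟩
  simp [MulAut.conj_apply, map_mul, map_inv]

/-- A minimal planar action: `[U, A]` has order `p²`, is irreducible, and `A` is either of order three
(`p = 2`) or has the squares of a quaternion group (`p = 3`). -/
structure SmallAct (p : ℕ) (A : Subgroup (MulAut U)) : Prop where
  card_moved : Nat.card (moved A) = p ^ 2
  irred : ∀ S : Subgroup U, S ≤ moved A → (∀ a ∈ A, ∀ s ∈ S, a s ∈ S) → S = ⊥ ∨ S = moved A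
  shape : (p = 2 ∧ Nat.card A = 3) ∨ (p = 3 ∧ Nat.card A = 8 ∧
    ∀ a ∈ A, a ^ 4 = 1 ∧ (a ^ 2 = 1 → a = 1 ∨ ∀ w ∈ moved A, a w = w⁻¹))

namespace SmallAct

variable {p : ℕ} {A : Subgroup (MulAut U)}

theorem two_lt_card (h : SmallAct p A) : 2 < Nat.card A := by
  rcases h.shape with ⟨-, h⟩ | ⟨-, h, -⟩ <;> omega

theorem conj (h : SmallAct p A) (b : MulAut U) : SmallAct p (A.map (MulAut.conj b).toMonoidHom) := by
  have hc : Nat.card (A.map (MulAut.conj b).toMonoidHom) = Nat.card A :=
    Subgroup.card_map_of_injective (MulAut.conj b).injective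
  refine ⟨?_, fun S hS hinv => ?_, ?_⟩
  · rw [moved_conj, Subgroup.card_map_of_injective b.injective]; exact h.card_moved
  · rw [moved_conj] at hS ⊢
    have hmap : (S.comap b.toMonoidHom).map b.toMonoidHom = S :=
      Subgroup.map_comap_eq_self_of_surjective b.surjective S
    rcases h.irred (S.comap b.toMonoidHom) (fun x hx => by
        obtain ⟨y, hy, hyx⟩ := hS hx
        exact b.injective hyx ▸ hy)
      (fun a ha s hs => by
        have := hinv _ ⟨a, ha, rfl⟩ _ hs
        simpa [MulAut.conj_apply] using this) with h' | h'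
    · exact Or.inl (by rw [← hmap, h', Subgroup.map_bot])
    · exact Or.inr (by rw [← hmap, h'])
  · rcases h.shape with ⟨h1, h2⟩ | ⟨h1, h2, h3⟩
    · exact Or.inl ⟨h1, hc.trans h2⟩
    refine Or.inr ⟨h1, hc.trans h2, ?_⟩
    rintro _ ⟨a, ha, rfl⟩
    obtain ⟨h4, h5⟩ := h3 a ha
    refine ⟨?_, fun h6 => ?_⟩
    · show (MulAut.conj b a) ^ 4 = 1
      rw [← map_pow, h4, map_one]
    have h7 : a ^ 2 = 1 := by
      have : MulAut.conj b (a ^ 2) = 1 := by rw [map_pow]; exact h6
      exact (MulAut.conj b).map_eq_one_iff.1 this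
    rcases h5 h7 with rfl | h8
    · exact Or.inl (map_one _)
    · refine Or.inr fun w hw => ?_
      rw [moved_conj] at hw
      obtain ⟨v, hv, rfl⟩ := hw
      simp [MulAut.conj_apply, h8 v hv]

end SmallAct

/-- At most three matrices over `ZMod 2` have cube one. -/
theorem card_cube_le :
    (Finset.univ.filter fun M : Matrix (Fin 2) (Fin 2) (ZMod 2) => M ^ 3 = 1).card ≤ 3 := by decide

/-- At most eight matrices over `ZMod 3` behave like elements of a quaternion group. -/
theorem card_quaternion_le :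
    (Finset.univ.filter fun M : Matrix (Fin 2) (Fin 2) (ZMod 3) =>
      M ^ 4 = 1 ∧ (M ^ 2 = 1 → M = 1 ∨ M = -1)).card ≤ 8 := by decide

section restrict

variable {U : Type*} [Group U]

/-- An automorphism preserving `W`, restricted to it. -/
noncomputable def restrictTo {W : Subgroup U} [Finite W] (a : MulAut U) (h : ∀ w ∈ W, a w ∈ W) :
    MulAut W :=
  MulEquiv.ofBijective
    ({ toFun := fun w => ⟨a w, h w w.2⟩
       map_one' := Subtype.ext (map_one a)
       map_mul' := fun x y => Subtype.ext (map_mul a (x : U) y) } : W →* W)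
    (Finite.injective_iff_bijective.1 fun x y hxy =>
      Subtype.ext (a.injective (congrArg Subtype.val hxy)))

theorem restrictTo_apply {W : Subgroup U} [Finite W] (a : MulAut U) (h : ∀ w ∈ W, a w ∈ W) (w : W) :
    (restrictTo a h w : U) = a w := rfl

end restrict

/-- Endomorphisms of a plane over `ZMod p` as matrices. -/
theorem exists_matrix_rep_module {V : Type*} [AddCommGroup V] [Finite V] {p : ℕ} [Fact p.Prime]
    [Module (ZMod p) V] (hcard : Nat.card V = p ^ 2) :
    ∃ M : AddMonoid.End V →* Matrix (Fin 2) (Fin 2) (ZMod p),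
      Function.Injective M ∧ ∀ f : AddMonoid.End V, (∀ v, f v = -v) → M f = -1 := by
  haveI : Module.Finite (ZMod p) V := Module.Finite.of_finite
  have hfr : Module.finrank (ZMod p) V = 2 := by
    have h1 := Nat.card_congr (Module.finBasis (ZMod p) V).equivFun.toEquiv
    rw [hcard, Nat.card_fun, Nat.card_fin, Nat.card_zmod] at h1
    exact (Nat.pow_right_injective (Fact.out : p.Prime).two_le h1).symm
  let bas := Module.finBasisOfFinrankEq (ZMod p) V hfr
  let L : AddMonoid.End V →* Module.End (ZMod p) V :=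
    { toFun := fun f => AddMonoidHom.toZModLinearMap p f
      map_one' := by ext; rfl
      map_mul' := fun f g => by ext v; rfl }
  refine ⟨(LinearMap.toMatrixAlgEquiv bas).toMonoidHom.comp L, fun f g hfg => ?_, fun f hf => ?_⟩
  · have h1 : L f = L g := (LinearMap.toMatrixAlgEquiv bas).injective hfg
    exact AddMonoidHom.ext fun v => LinearMap.congr_fun h1 v
  · have h1 : L f = -1 := LinearMap.ext fun v => hf v
    show LinearMap.toMatrixAlgEquiv bas (L f) = -1
    rw [h1, map_neg, map_one]

/-- Automorphisms of a group of exponent `p` and order `p²` as matrices. -/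
theorem exists_matrix_rep {W : Type*} [CommGroup W] [Finite W] {p : ℕ} [Fact p.Prime]
    (hexp : ∀ w : W, w ^ p = 1) (hcard : Nat.card W = p ^ 2) :
    ∃ M : MulAut W →* Matrix (Fin 2) (Fin 2) (ZMod p),
      Function.Injective M ∧ ∀ f : MulAut W, (∀ w, f w = w⁻¹) → M f = -1 := by
  letI : Module (ZMod p) (Additive W) := AddCommGroup.zmodModule (G := Additive W) (fun v => hexp v.toMul)
  obtain ⟨M, hM, hneg⟩ := exists_matrix_rep_module (V := Additive W) (p := p) hcard
  let A : MulAut W →* AddMonoid.End (Additive W) :=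
    { toFun := fun f => MonoidHom.toAdditive f.toMonoidHom
      map_one' := rfl
      map_mul' := fun f g => rfl }
  refine ⟨M.comp A, hM.comp fun f g hfg => ?_, fun f hf => hneg _ fun v => hf v.toMul⟩
  exact MulEquiv.ext fun w => DFunLike.congr_fun hfg (Additive.ofMul w)

section main

variable [Finite U] {p : ℕ} [Fact p.Prime]

theorem pow_prime_eq_one {A : Subgroup (MulAut U)} (hU : IsPGroup p U)
    (hcomm : ∀ x y : U, x * y = y * x) (hA : SmallAct p A) {w : U} (hw : w ∈ moved A) : w ^ p = 1 := by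
  let S : Subgroup U :=
    { carrier := {x | x ∈ moved A ∧ x ^ p = 1}
      one_mem' := ⟨one_mem _, one_pow _⟩
      mul_mem' := fun {x y} hx hy => ⟨mul_mem hx.1 hy.1, by
        rw [(show Commute x y from hcomm x y).mul_pow, hx.2, hy.2, mul_one]⟩
      inv_mem' := fun {x} hx => ⟨inv_mem hx.1, by rw [inv_pow, hx.2, inv_one]⟩ }
  rcases hA.irred S (fun x hx => hx.1)
    (fun a ha s hs => ⟨apply_mem_moved ha hs.1, by rw [← map_pow, hs.2, map_one]⟩) with h | h
  · exfalso
    have hdvd : p ∣ Nat.card (moved A) := by rw [hA.card_moved]; exact dvd_pow_self p two_ne_zero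
    obtain ⟨x, hx⟩ := exists_prime_orderOf_dvd_card' p hdvd
    have hxS : (x : U) ∈ S := ⟨x.2, by rw [← hx]; exact_mod_cast congrArg Subtype.val (pow_orderOf_eq_one x)⟩
    rw [h, Subgroup.mem_bot] at hxS
    have : x = 1 := Subtype.ext hxS
    rw [this, orderOf_one] at hx
    exact (Fact.out : p.Prime).ne_one hx.symm
  · have : w ∈ S := h.symm ▸ hw
    exact this.2

theorem eq_one_of_fixes {X : Subgroup (MulAut U)} (hU : IsPGroup p U)
    (hcop : (Nat.card X).Coprime p) {x : MulAut U} (hx : x ∈ X) {N : Subgroup U}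
    (hfix : ∀ n ∈ N, x n = n) (h : ∀ u : U, u⁻¹ * x u ∈ N) : x = 1 := by
  refine CfsgLib.CoprimeAction.aut_eq_one_of_series ?_ hfix h
  obtain ⟨k, hk⟩ := IsPGroup.iff_card.1 (hU.to_subgroup N)
  rw [hk]
  exact Nat.Coprime.coprime_dvd_left (Subgroup.orderOf_dvd_natCard X hx) (hcop.pow_right k)

theorem inv_apply_mem {W : Subgroup U} {a : MulAut U} (h : ∀ w ∈ W, a w ∈ W) {w : U} (hw : w ∈ W) :
    a⁻¹ w ∈ W := by
  obtain ⟨v, hv⟩ := (restrictTo a h).surjective ⟨w, hw⟩
  have : a v = w := congrArg Subtype.val hv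
  rw [← this, MulAut.inv_apply_self]
  exact v.2

theorem inv_apply_fix {W : Subgroup U} {a : MulAut U} (h : ∀ w ∈ W, a w = w) {w : U} (hw : w ∈ W) :
    a⁻¹ w = w := by
  conv_lhs => rw [← h w hw]
  exact MulAut.inv_apply_self _ _ _

/-- The action on the plane determines the group. -/
theorem eq_of_moved_eq {A B : Subgroup (MulAut U)} (hU : IsPGroup p U)
    (hcomm : ∀ x y : U, x * y = y * x) (hcop : (Nat.card (A ⊔ B : Subgroup (MulAut U))).Coprime p)
    (hA : SmallAct p A) (hB : SmallAct p B) (h : moved A = moved B) : A = B := by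
  classical
  set W := moved A with hW
  have hexp : ∀ w : W, w ^ p = 1 := fun w => Subtype.ext (by simpa using pow_prime_eq_one hU hcomm hA w.2)
  letI : CommGroup W := { (inferInstance : Group W) with
    mul_comm := fun x y => Subtype.ext (hcomm x y) }
  obtain ⟨M, hMinj, hMneg⟩ := exists_matrix_rep (W := W) hexp hA.card_moved
  -- the subgroup preserving the plane and trivial modulo it
  let Y : Subgroup (MulAut U) :=
    { carrier := {x | (∀ w ∈ W, x w ∈ W) ∧ ∀ u, u⁻¹ * x u ∈ W}
      one_mem' := ⟨fun w hw => hw, fun u => by simp⟩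
      mul_mem' := fun {x y} hx hy => ⟨fun w hw => hx.1 _ (hy.1 w hw), fun u => by
        rw [show u⁻¹ * (x * y) u = (u⁻¹ * x u) * x (u⁻¹ * y u) by
          simp [map_mul, map_inv, mul_assoc]]
        exact mul_mem (hx.2 u) (hx.1 _ (hy.2 u))⟩
      inv_mem' := fun {x} hx => ⟨fun w hw => inv_apply_mem hx.1 hw, fun u => by
        have h1 := inv_mem (hx.2 (x⁻¹ u))
        rw [MulAut.apply_inv_self, mul_inv_rev, inv_inv] at h1
        exact h1⟩ }
  have hY : ∀ {C : Subgroup (MulAut U)}, moved C = W → C ≤ Y := fun {C} hC x hx =>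
    ⟨fun w hw => hC ▸ apply_mem_moved hx (hC.symm ▸ hw), fun u => by
      rw [hcomm]; exact hC ▸ mem_moved hx u⟩
  have hXY : A ⊔ B ≤ Y := sup_le (hY rfl) (hY h.symm)
  let res : (A ⊔ B : Subgroup (MulAut U)) →* MulAut W :=
    { toFun := fun x => restrictTo (x : MulAut U) (hXY x.2).1
      map_one' := MulEquiv.ext fun _ => Subtype.ext rfl
      map_mul' := fun x y => MulEquiv.ext fun _ => Subtype.ext rfl }
  have hres : Function.Injective res := by
    rw [injective_iff_map_eq_one]
    intro x hx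
    exact Subtype.ext (eq_one_of_fixes hU hcop x.2
      (fun n hn => congrArg Subtype.val (MulEquiv.congr_fun hx ⟨n, hn⟩)) (hXY x.2).2)
  set f := M.comp res with hf
  have hfinj : Function.Injective f := hMinj.comp hres
  suffices h' : ∀ x : (A ⊔ B : Subgroup (MulAut U)), ((x : MulAut U) ∈ A ↔ (x : MulAut U) ∈ B) by
    ext x
    exact ⟨fun hx => (h' ⟨x, Subgroup.mem_sup_left hx⟩).1 hx,
      fun hx => (h' ⟨x, Subgroup.mem_sup_right hx⟩).2 hx⟩
  -- the images of `A` and of `B` fill the good matrices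
  suffices himg : (A.subgroupOf (A ⊔ B) : Set (A ⊔ B : Subgroup (MulAut U))).image f =
      (B.subgroupOf (A ⊔ B) : Set (A ⊔ B : Subgroup (MulAut U))).image f by
    intro x
    exact Set.ext_iff.1 (hfinj.image_injective himg) x
  have key : ∀ (T : Finset (Matrix (Fin 2) (Fin 2) (ZMod p))) (C : Subgroup (MulAut U)),
      C ≤ A ⊔ B → T.card ≤ Nat.card C → (∀ x : (A ⊔ B : Subgroup (MulAut U)), (x : MulAut U) ∈ C → f x ∈ T) →
      (C.subgroupOf (A ⊔ B) : Set (A ⊔ B : Subgroup (MulAut U))).image f = ↑T := by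
    intro T C hC hT hmem
    refine Set.eq_of_subset_of_ncard_le (by rintro _ ⟨x, hx, rfl⟩; exact hmem x hx) ?_ (Set.toFinite _)
    rw [Set.ncard_image_of_injective _ hfinj, Set.ncard_coe_finset, ← Nat.card_coe_set_eq]
    exact hT.trans_eq (Nat.card_congr (Subgroup.subgroupOfEquivOfLe hC).toEquiv).symm
  have hpow : ∀ (x : (A ⊔ B : Subgroup (MulAut U))) (k : ℕ), (x : MulAut U) ^ k = 1 → f x ^ k = 1 := by
    intro x k hx
    rw [← map_pow, show x ^ k = 1 from Subtype.ext hx, map_one]
  rcases hA.shape with ⟨hp, hcA⟩ | ⟨hp, hcA, hqA⟩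
  · obtain ⟨-, hcB⟩ := hB.shape.resolve_right fun h => by omega
    subst hp
    have hmem : ∀ C : Subgroup (MulAut U), Nat.card C = 3 → ∀ x : (A ⊔ B : Subgroup (MulAut U)),
        (x : MulAut U) ∈ C → f x ∈ Finset.univ.filter
          (fun M : Matrix (Fin 2) (Fin 2) (ZMod 2) => M ^ 3 = 1) := by
      intro C hC x hx
      refine Finset.mem_filter.2 ⟨Finset.mem_univ _, hpow x 3 ?_⟩
      rw [← hC]
      exact congrArg Subtype.val (pow_card_eq_one' (x := (⟨_, hx⟩ : C)))
    rw [key _ A le_sup_left (hcA ▸ card_cube_le) (hmem A hcA),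
      key _ B le_sup_right (hcB ▸ card_cube_le) (hmem B hcB)]
  · obtain ⟨-, hcB, hqB⟩ := hB.shape.resolve_left fun h => by omega
    subst hp
    have hneg : ∀ x : (A ⊔ B : Subgroup (MulAut U)), (∀ w ∈ W, (x : MulAut U) w = w⁻¹) → f x = -1 :=
      fun x hx => hMneg (res x) fun w => Subtype.ext (hx _ w.2)
    have hmem : ∀ C : Subgroup (MulAut U), moved C = W →
        (∀ a ∈ C, a ^ 4 = 1 ∧ (a ^ 2 = 1 → a = 1 ∨ ∀ w ∈ moved C, a w = w⁻¹)) →
        ∀ x : (A ⊔ B : Subgroup (MulAut U)), (x : MulAut U) ∈ C → f x ∈ Finset.univ.filter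
          (fun M : Matrix (Fin 2) (Fin 2) (ZMod 3) => M ^ 4 = 1 ∧ (M ^ 2 = 1 → M = 1 ∨ M = -1)) := by
      intro C hCW hq x hx
      obtain ⟨h4, h2⟩ := hq _ hx
      refine Finset.mem_filter.2 ⟨Finset.mem_univ _, hpow x 4 h4, fun hf2 => ?_⟩
      have hx2 : x ^ 2 = 1 := hfinj (by rw [map_pow, hf2, map_one])
      rcases h2 (congrArg Subtype.val hx2) with h1 | h1
      · exact Or.inl (by rw [show x = 1 from Subtype.ext h1, map_one])
      · exact Or.inr (hneg x fun w hw => h1 w (hCW.symm ▸ hw))
    rw [key _ A le_sup_left (hcA ▸ card_quaternion_le) (hmem A rfl hqA),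
      key _ B le_sup_right (hcB ▸ card_quaternion_le) (hmem B h.symm hqB)]

/-- Two minimal planar actions inside a nilpotent group of order prime to `p` are equal, or commute
and the second fixes the plane of the first. -/
theorem eq_or_commute (hU : IsPGroup p U) (hcomm : ∀ x y : U, x * y = y * x) :
    ∀ A B : Subgroup (MulAut U), Group.IsNilpotent (A ⊔ B : Subgroup (MulAut U)) →
      (Nat.card (A ⊔ B : Subgroup (MulAut U))).Coprime p → SmallAct p A → SmallAct p B →
      A = B ∨ ((∀ a ∈ A, ∀ b ∈ B, a * b = b * a) ∧ ∀ w ∈ moved A, ∀ b ∈ B, b w = w) := by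
  suffices h : ∀ n : ℕ, ∀ A B : Subgroup (MulAut U), Nat.card (A ⊔ B : Subgroup (MulAut U)) < n →
      Group.IsNilpotent (A ⊔ B : Subgroup (MulAut U)) →
      (Nat.card (A ⊔ B : Subgroup (MulAut U))).Coprime p → SmallAct p A → SmallAct p B →
      A = B ∨ ((∀ a ∈ A, ∀ b ∈ B, a * b = b * a) ∧ ∀ w ∈ moved A, ∀ b ∈ B, b w = w) from
    fun A B => h _ A B (Nat.lt_succ_self _)
  intro n
  induction n with
  | zero => intro A B h; omega
  | succ n ih =>
    intro A B hn hnil hcop hA hB
    set X := A ⊔ B with hX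
    set W := moved A with hW
    set WB := moved B with hWB
    have one : ∀ {x : MulAut U}, x ∈ X → ∀ N : Subgroup U, (∀ n ∈ N, x n = n) →
        (∀ u, u⁻¹ * x u ∈ N) → x = 1 := fun hx N h1 h2 => eq_one_of_fixes hU hcop hx h1 h2
    by_cases hinv : ∀ b ∈ B, ∀ w ∈ W, b w ∈ W
    · -- `B` preserves the plane of `A`
      let D : Subgroup U := Subgroup.closure {x | ∃ b ∈ B, ∃ w ∈ W, b w * w⁻¹ = x}
      have hDWB : D ≤ WB := (Subgroup.closure_le _).2 (by
        rintro _ ⟨b, hb, w, -, rfl⟩; exact mem_moved hb w)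
      have hDinv : ∀ b ∈ B, ∀ s ∈ D, b s ∈ D := by
        intro b hb
        have : D ≤ D.comap b.toMonoidHom := (Subgroup.closure_le _).2 (by
          rintro _ ⟨c, hc, w, hw, rfl⟩
          refine Subgroup.subset_closure ⟨b * c * b⁻¹, mul_mem (mul_mem hb hc) (inv_mem hb), b w,
            hinv b hb w hw, ?_⟩
          simp [map_mul, map_inv])
        exact fun s hs => this hs
      rcases hB.irred D hDWB hDinv with hD | hD
      · have hfix : ∀ w ∈ W, ∀ b ∈ B, b w = w := fun w hw b hb => by
          have : b w * w⁻¹ ∈ D := Subgroup.subset_closure ⟨b, hb, w, hw, rfl⟩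
          rw [hD, Subgroup.mem_bot, mul_inv_eq_one] at this
          exact this
        refine Or.inr ⟨fun a ha b hb => ?_, hfix⟩
        have haW : ∀ w ∈ W, a w ∈ W := fun w hw => apply_mem_moved ha hw
        have hc : a * b * a⁻¹ * b⁻¹ = 1 := by
          refine one ?_ W (fun w hw => ?_) (fun u => ?_)
          · have h1 : a ∈ X := Subgroup.mem_sup_left ha
            have h2 : b ∈ X := Subgroup.mem_sup_right hb
            exact mul_mem (mul_mem (mul_mem h1 h2) (inv_mem h1)) (inv_mem h2)
          · show a (b (a⁻¹ (b⁻¹ w))) = w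
            rw [hfix _ hw b⁻¹ (inv_mem hb), hfix _ (inv_apply_mem haW hw) b hb, MulAut.apply_inv_self]
          · show u⁻¹ * a (b (a⁻¹ (b⁻¹ u))) ∈ W
            set v := b⁻¹ u with hv
            set w₀ := a⁻¹ v * v⁻¹ with hw₀
            have hw₀m : w₀ ∈ W := mem_moved (inv_mem ha) v
            have h1 : b (a⁻¹ v) = w₀ * u := by
              rw [apply_eq_moved_mul a⁻¹ v, map_mul, hfix _ hw₀m b hb, hv, MulAut.apply_inv_self]
            rw [h1, map_mul, ← mul_assoc, hcomm u⁻¹, mul_assoc, hcomm u⁻¹]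
            exact mul_mem (haW _ hw₀m) (mem_moved ha u)
        exact mul_inv_eq_iff_eq_mul.1 (mul_inv_eq_one.1 hc)
      · refine Or.inl (eq_of_moved_eq hU hcomm hcop hA hB ?_)
        have hle : WB ≤ W := by
          rw [hWB, ← hD]
          refine (Subgroup.closure_le _).2 ?_
          rintro _ ⟨b, hb, w, hw, rfl⟩
          exact mul_mem (hinv b hb w hw) (inv_mem hw)
        exact (Subgroup.eq_of_le_of_card_ge hle (by rw [hA.card_moved, hB.card_moved])).symm
    · exfalso
      push Not at hinv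
      obtain ⟨b₀, hb₀, w₁, hw₁, hne⟩ := hinv
      have hAX : A.subgroupOf X ≠ ⊤ := fun h => hne (apply_mem_moved
        (Subgroup.subgroupOf_eq_top.1 h (Subgroup.mem_sup_right hb₀)) hw₁)
      obtain ⟨M, hM, hAM⟩ := (eq_top_or_exists_le_coatom _).resolve_left hAX
      haveI : M.Normal := ((Group.isNilpotent_of_finite_tfae (G := X)).out 0 2 rfl rfl).1 hnil M hM
      set MG := M.map X.subtype with hMG
      have hMGX : MG ≤ X := Subgroup.map_subtype_le _
      have hlt : Nat.card MG < Nat.card X := by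
        rw [hMG, Subgroup.card_map_of_injective X.subtype_injective]
        exact lt_of_le_of_ne (Subgroup.card_le_card_group M)
          fun h => hM.1 (Subgroup.eq_top_of_card_eq M h)
      set Ac : MulAut U → Subgroup (MulAut U) := fun b => A.map (MulAut.conj b).toMonoidHom with hAc
      have hAcM : ∀ b ∈ X, Ac b ≤ MG := by
        rintro b hb _ ⟨a, ha, rfl⟩
        exact ⟨⟨b, hb⟩ * ⟨a, Subgroup.mem_sup_left ha⟩ * ⟨b, hb⟩⁻¹,
          Subgroup.Normal.conj_mem inferInstance _ (hAM (show (⟨a, _⟩ : X) ∈ A.subgroupOf X from ha)) _, rfl⟩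
      have hAc1 : A = Ac 1 := by
        show A = A.map (MulAut.conj 1).toMonoidHom
        rw [map_one]; exact (Subgroup.map_id A).symm
      have hmv : ∀ b, moved (Ac b) = W.map b.toMonoidHom := fun b => moved_conj A b
      have pair : ∀ b ∈ X, ∀ c ∈ X, Ac b = Ac c ∨
          ((∀ a ∈ Ac b, ∀ a' ∈ Ac c, a * a' = a' * a) ∧ ∀ w ∈ moved (Ac b), ∀ a' ∈ Ac c, a' w = w) := by
        intro b hb c hc
        have hsub : Ac b ⊔ Ac c ≤ MG := sup_le (hAcM b hb) (hAcM c hc)
        haveI := hnil
        exact ih _ _ (by have := Subgroup.card_le_of_le hsub; omega)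
          (Group.nilpotent_of_mulEquiv (Subgroup.subgroupOfEquivOfLe (hsub.trans hMGX)))
          (hcop.coprime_dvd_left (Subgroup.card_dvd_of_le (hsub.trans hMGX))) (hA.conj b) (hA.conj c)
      have hb₀X : b₀ ∈ X := Subgroup.mem_sup_right hb₀
      set A' := Ac b₀ with hA'def
      set W' := moved A' with hW'
      have hW'map : W' = W.map b₀.toMonoidHom := hmv b₀
      have hneW : W' ≠ W := fun h => hne (h ▸ hW'map ▸ ⟨w₁, hw₁, rfl⟩)
      have hAA' : A ≠ A' := fun h => hneW (by rw [hW', ← h])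
      have h₀₁ : ∀ w ∈ W, ∀ a' ∈ A', a' w = w := by
        rcases pair 1 (one_mem _) b₀ hb₀X with h | ⟨-, h⟩
        · exact absurd (hAc1.trans h) hAA'
        · rw [← hAc1] at h; exact h
      have h₁₀ : ∀ w ∈ W', ∀ a ∈ A, a w = w := by
        rcases pair b₀ hb₀X 1 (one_mem _) with h | ⟨-, h⟩
        · exact absurd (hAc1.trans h.symm) hAA'
        · rw [← hAc1] at h; exact h
      have hWW' : W ⊓ W' = ⊥ := by
        refine (hA.irred _ inf_le_left fun a ha s hs => ⟨apply_mem_moved ha hs.1, by
          rw [h₁₀ s hs.2 a ha]; exact hs.2⟩).resolve_right fun h => hneW ?_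
        exact (Subgroup.eq_of_le_of_card_ge (inf_eq_left.1 h)
          (by rw [hA.card_moved, (hA.conj b₀).card_moved])).symm
      -- the plane of `B` is the diagonal
      have hinj : ∀ w ∈ W, b₀ w * w⁻¹ ∈ W → w = 1 := by
        intro w hw hd
        have h1 : b₀ w ∈ W ⊓ W' :=
          ⟨by simpa using mul_mem hd hw, hW'map.symm ▸ ⟨w, hw, rfl⟩⟩
        rw [hWW', Subgroup.mem_bot, map_eq_one_iff b₀ b₀.injective] at h1
        exact h1
      let φ : W → WB := fun w => ⟨b₀ w * (w : U)⁻¹, mem_moved hb₀ _⟩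
      have hφ : Function.Bijective φ := by
        refine (Nat.bijective_iff_injective_and_card φ).2 ⟨fun w w' hww => ?_,
          by rw [hA.card_moved, hB.card_moved]⟩
        have h1 : b₀ (w : U) * (w : U)⁻¹ = b₀ (w' : U) * (w' : U)⁻¹ := congrArg Subtype.val hww
        refine Subtype.ext (mul_inv_eq_one.1 ?_)
        refine hinj _ (mul_mem w.2 (inv_mem w'.2)) ?_
        rw [show b₀ ((w : U) * (w' : U)⁻¹) * ((w : U) * (w' : U)⁻¹)⁻¹ =
          b₀ (w : U) * ((b₀ (w' : U))⁻¹ * (w' : U)) * (w : U)⁻¹ by simp [map_mul, map_inv, mul_assoc],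
          hcomm (b₀ (w' : U))⁻¹, ← mul_assoc, mul_assoc, hcomm (b₀ (w' : U))⁻¹, ← mul_assoc,
          hcomm (b₀ (w : U)), mul_assoc, mul_assoc]
        have : b₀ (w : U) * ((w : U)⁻¹ * (b₀ (w' : U))⁻¹) = (w' : U)⁻¹ := by
          rw [← mul_assoc, h1]; simp [mul_assoc]; rw [hcomm]; simp
        rw [this]; simp
      have hWBle : WB ≤ W ⊔ W' := by
        intro x hx
        obtain ⟨w, hw⟩ := hφ.2 ⟨x, hx⟩
        rw [← show b₀ (w : U) * (w : U)⁻¹ = x from congrArg Subtype.val hw]
        exact mul_mem (Subgroup.mem_sup_right (hW'map.symm ▸ ⟨(w : U), w.2, rfl⟩))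
          (Subgroup.mem_sup_left (inv_mem w.2))
      have hWBW : ∀ x ∈ WB, x ∈ W → x = 1 := by
        intro x hx hxW
        obtain ⟨w, hw⟩ := hφ.2 ⟨x, hx⟩
        have h1 : b₀ (w : U) * (w : U)⁻¹ = x := congrArg Subtype.val hw
        rw [← h1, hinj _ w.2 (h1 ▸ hxW)]; simp
      have hWBW' : ∀ x ∈ WB, x ∈ W' → x = 1 := by
        intro x hx hxW
        obtain ⟨w, hw⟩ := hφ.2 ⟨x, hx⟩
        have h1 : b₀ (w : U) * (w : U)⁻¹ = x := congrArg Subtype.val hw
        have h2 : (w : U) ∈ W ⊓ W' := by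
          refine ⟨w.2, show (w : U) ∈ W' from ?_⟩
          rw [show (w : U) = x⁻¹ * b₀ (w : U) by rw [← h1]; group]
          exact mul_mem (inv_mem hxW) (hW'map.symm ▸ ⟨(w : U), w.2, rfl⟩)
        rw [hWW', Subgroup.mem_bot] at h2
        rw [← h1, h2]; simp
      -- `B` permutes the two conjugates
      have htwo : ∀ b ∈ X, b ∈ B ∨ b * b₀⁻¹ ∈ B → Ac b = A ∨ Ac b = A' := by
        intro b hb hbB
        by_contra hcon
        push Not at hcon
        have f1 : ∀ w ∈ W, ∀ a ∈ Ac b, a w = w := by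
          rcases pair 1 (one_mem _) b hb with h | ⟨-, h⟩
          · exact absurd (hAc1.trans h).symm hcon.1
          · rw [← hAc1] at h; exact h
        have f2 : ∀ w ∈ W', ∀ a ∈ Ac b, a w = w := by
          rcases pair b₀ hb₀X b hb with h | ⟨-, h⟩
          · exact absurd h.symm hcon.2
          · exact h
        have hfix : ∀ a ∈ Ac b, ∀ u ∈ W ⊔ W', a u = u := fun a ha u hu => by
          have : W ⊔ W' ≤ MonoidHom.eqLocus a.toMonoidHom (MonoidHom.id U) :=
            sup_le (fun v hv => f1 v hv a ha) (fun v hv => f2 v hv a ha)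
          exact this hu
        have hle : moved (Ac b) ≤ W ⊔ W' := by
          rw [hmv]
          rintro _ ⟨w, hw, rfl⟩
          rcases hbB with hbB | hbB
          · show b w ∈ _
            rw [apply_eq_moved_mul b w]
            exact mul_mem (hWBle (mem_moved hbB w)) (Subgroup.mem_sup_left hw)
          · show b w ∈ _
            rw [show b w = (b * b₀⁻¹) (b₀ w) by simp, apply_eq_moved_mul (b * b₀⁻¹) (b₀ w)]
            exact mul_mem (hWBle (mem_moved hbB _))
              (Subgroup.mem_sup_right (hW'map.symm ▸ ⟨w, hw, rfl⟩))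
        have hbot : Ac b = ⊥ := (Subgroup.eq_bot_iff_forall _).2 fun a ha =>
          one (hMGX (hAcM b hb ha)) _ (hfix a ha) fun u => by rw [hcomm]; exact hle (mem_moved ha u)
        have := (hA.conj b).two_lt_card
        change 2 < Nat.card (Ac b) at this
        rw [hbot, Subgroup.card_bot] at this
        omega
      -- the stabilizer is trivial
      have hstab : ∀ b ∈ B, Ac b = A → b = 1 := by
        intro b hb hbA
        have hbW : W.map b.toMonoidHom = W := by rw [← hmv, hbA]
        have hbW' : W'.map b.toMonoidHom = W' := by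
          have hbb : W'.map b.toMonoidHom = W.map (b * b₀).toMonoidHom := by
            rw [hW'map, Subgroup.map_map]; rfl
          rcases htwo (b * b₀) (mul_mem (Subgroup.mem_sup_right hb) hb₀X)
            (Or.inr (by rw [mul_inv_cancel_right]; exact hb)) with h | h
          · exfalso
            rw [← hmv (b * b₀), h] at hbb
            exact hneW (Subgroup.map_injective b.injective (hbb.trans hbW.symm))
          · rw [hbb, ← hmv, h]
        have hfix : ∀ u ∈ W ⊔ W', b u = u := by
          have : W ⊔ W' ≤ MonoidHom.eqLocus b.toMonoidHom (MonoidHom.id U) := by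
            refine sup_le (fun v hv => ?_) (fun v hv => ?_)
            · exact mul_inv_eq_one.1 (hWBW _ (mem_moved hb v)
                (mul_mem (show b v ∈ W from hbW ▸ ⟨v, hv, rfl⟩) (inv_mem hv)))
            · exact mul_inv_eq_one.1 (hWBW' _ (mem_moved hb v)
                (mul_mem (show b v ∈ W' from hbW' ▸ ⟨v, hv, rfl⟩) (inv_mem hv)))
          exact fun u hu => this hu
        exact one (Subgroup.mem_sup_right hb) _ hfix
          fun u => by rw [hcomm]; exact hWBle (mem_moved hb u)
      have hle2 : ∀ b ∈ B, b = 1 ∨ b = b₀ := by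
        intro b hb
        rcases htwo b (Subgroup.mem_sup_right hb) (Or.inl hb) with h | h
        · exact Or.inl (hstab b hb h)
        · refine Or.inr (inv_mul_eq_one.1 (hstab _ (mul_mem (inv_mem hb₀) hb) ?_)).symm
          have h1 : Ac (b₀⁻¹ * b) = (Ac b).map (MulAut.conj b₀⁻¹).toMonoidHom := by
            show A.map _ = (A.map _).map _
            rw [Subgroup.map_map, map_mul]; rfl
          rw [h1, h]
          show (A.map _).map _ = A
          rw [Subgroup.map_map]
          convert Subgroup.map_id A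
          ext x
          simp [MulAut.conj_apply, mul_assoc]
      have hcard : Nat.card B ≤ Nat.card ({1, b₀} : Set (MulAut U)) :=
        Nat.card_mono (Set.toFinite _) (show (B : Set (MulAut U)) ⊆ _ from fun b hb => by
          simpa using hle2 b hb)
      have h2 : Nat.card ({1, b₀} : Set (MulAut U)) ≤ 2 := by
        rw [Nat.card_coe_set_eq]
        exact (Set.ncard_insert_le _ _).trans (by simp)
      have := hB.two_lt_card
      omega

end main

end CfsgLib.Replacement.Block
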