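import Cfsg.Agent.Lib.TwoGroupTricks.BlockFacts
import Cfsg.Agent.Lib.Replacement.Block.SmallAct

/-!
General lemmas for the pair argument: nilpotent descent modulo a subgroup, commutativity of the centralizer of an
irreducible action, and the structure of a minimal planar action.
-/

set_option autoImplicit false
set_option linter.style.haveILetI false

namespace CfsgLib.Replacement.Block

open scoped commutatorElement

variable {G : Type*} [Group G]

/-- Descent: a `p`-group inside `[V, P] V₀`, for a `p`-group `P`, lies in `V₀`. -/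
theorem le_of_le_commutator_sup [Finite G] {p : ℕ} [Fact p.Prime] {V V₀ P : Subgroup G}
    (hV : IsPGroup p V) (hP : IsPGroup p P) (hPV : P ≤ Subgroup.normalizer (V : Set G))
    (hPV₀ : P ≤ Subgroup.normalizer (V₀ : Set G)) (hVV₀ : V ≤ Subgroup.normalizer (V₀ : Set G))
    (hle : V₀ ≤ V) (h : V ≤ ⁅V, P⁆ ⊔ V₀) : V ≤ V₀ := by
  set K := V ⊔ P with hK
  have hVK : V ≤ K := le_sup_left
  have hPK : P ≤ K := le_sup_right
  haveI : (V₀.subgroupOf K).Normal :=
    (Subgroup.normal_subgroupOf_iff_le_normalizer (hle.trans hVK)).2 (sup_le hVV₀ hPV₀)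
  set π := QuotientGroup.mk' (V₀.subgroupOf K)
  have hπ₀ : (V₀.subgroupOf K).map π = ⊥ := by
    rw [Subgroup.map_eq_bot_iff, QuotientGroup.ker_mk']
  have hcomm : ((⁅V, P⁆ ⊔ V₀).subgroupOf K).map π ≤
      ⁅(V.subgroupOf K).map π, (P.subgroupOf K).map π⁆ := by
    rw [← Subgroup.map_commutator]
    have h1 : (⁅V, P⁆ ⊔ V₀).subgroupOf K ≤ ⁅V.subgroupOf K, P.subgroupOf K⁆ ⊔ V₀.subgroupOf K := by
      rw [← Subgroup.map_le_map_iff_of_injective K.subtype_injective, Subgroup.map_sup,
        Subgroup.map_commutator, Subgroup.map_subgroupOf_eq_of_le hVK,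
        Subgroup.map_subgroupOf_eq_of_le hPK, Subgroup.map_subgroupOf_eq_of_le (hle.trans hVK)]
      exact Subgroup.map_comap_le _ _
    refine (Subgroup.map_mono h1).trans ?_
    rw [Subgroup.map_sup, hπ₀, sup_bot_eq]
  have hbot : (V.subgroupOf K).map π = ⊥ := by
    refine CfsgLib.TwoGroupTricks.eq_bot_of_le_commutator
      ((hV.of_equiv (Subgroup.subgroupOfEquivOfLe hVK).symm).map π)
      ((hP.of_equiv (Subgroup.subgroupOfEquivOfLe hPK).symm).map π) ?_
      ((Subgroup.map_mono (Subgroup.comap_mono h)).trans hcomm)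
    refine le_trans (Subgroup.map_mono ?_) (Subgroup.le_normalizer_map π)
    intro x hx
    rw [Subgroup.mem_normalizer_iff]
    intro y
    simp only [Subgroup.mem_subgroupOf, Subgroup.coe_mul, InvMemClass.coe_inv]
    exact Subgroup.mem_normalizer_iff.1 (hPV hx) y
  intro v hv
  have h2 : π ⟨v, hVK hv⟩ ∈ (V.subgroupOf K).map π := ⟨_, hv, rfl⟩
  rw [hbot, Subgroup.mem_bot] at h2
  exact (QuotientGroup.eq_one_iff (⟨v, hVK hv⟩ : K)).1 h2

/-- Whoever normalizes both normalizes the join. -/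
theorem inf_normalizer_le_sup [Finite G] (A B : Subgroup G) :
    Subgroup.normalizer (A : Set G) ⊓ Subgroup.normalizer (B : Set G) ≤
      Subgroup.normalizer ((A ⊔ B : Subgroup G) : Set G) := fun g hg =>
  Subgroup.mem_normalizer_fintype fun z hz => by
    have h : A ⊔ B ≤ (A ⊔ B).comap (MulAut.conj g).toMonoidHom :=
      sup_le (fun y hy => Subgroup.mem_sup_left ((Subgroup.mem_normalizer_iff.1 hg.1 y).1 hy))
        (fun y hy => Subgroup.mem_sup_right ((Subgroup.mem_normalizer_iff.1 hg.2 y).1 hy))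
    exact h hz

/-- A `p`-group normalizing a section of order at most `p²` acts quadratically on it. -/
theorem quad_le [Finite G] {p : ℕ} [Fact p.Prime] {V V₀ P : Subgroup G}
    (hV : IsPGroup p V) (hP : IsPGroup p P) (hPV : P ≤ Subgroup.normalizer (V : Set G))
    (hPV₀ : P ≤ Subgroup.normalizer (V₀ : Set G)) (hVV₀ : V ≤ Subgroup.normalizer (V₀ : Set G))
    (hle : V₀ ≤ V) (hcard : Nat.card V ≤ p ^ 2 * Nat.card V₀) : ⁅⁅V, P⁆, P⁆ ≤ V₀ := by
  classical
  set V₁ := ⁅V, P⁆ ⊔ V₀ with hV₁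
  have hV₁V : V₁ ≤ V := sup_le (CfsgLib.CoprimeAction.commutator_le_left hPV) hle
  have hP₁ : P ≤ Subgroup.normalizer (V₁ : Set G) :=
    le_trans (le_inf (le_sup_right.trans (CfsgLib.CoprimeAction.sup_le_normalizer_commutator P V)) hPV₀)
      (inf_normalizer_le_sup _ _)
  by_cases h1 : V ≤ V₁
  · exact (Subgroup.commutator_mono ((CfsgLib.CoprimeAction.commutator_le_left hPV).trans
      (le_of_le_commutator_sup hV hP hPV hPV₀ hVV₀ hle h1)) le_rfl).trans
      (CfsgLib.CoprimeAction.commutator_le_left hPV₀)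
  set V₂ := ⁅V₁, P⁆ ⊔ V₀ with hV₂
  have hV₂V₁ : V₂ ≤ V₁ := sup_le (CfsgLib.CoprimeAction.commutator_le_left hP₁) le_sup_right
  by_cases h2 : V₁ ≤ V₂
  · exact (Subgroup.commutator_mono (le_sup_left.trans
      (le_of_le_commutator_sup (hV.to_le hV₁V) hP hP₁ hPV₀ (hV₁V.trans hVV₀) le_sup_right h2)) le_rfl).trans
      (CfsgLib.CoprimeAction.commutator_le_left hPV₀)
  suffices h0 : V₂ = V₀ from
    (Subgroup.commutator_mono (le_sup_left : ⁅V, P⁆ ≤ V₁) le_rfl).trans ((le_sup_left : ⁅V₁, P⁆ ≤ V₂).trans h0.le)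
  obtain ⟨a, ha⟩ := IsPGroup.iff_card.1 hV
  obtain ⟨b, hb⟩ := IsPGroup.iff_card.1 (hV.to_le hV₁V)
  obtain ⟨c, hc⟩ := IsPGroup.iff_card.1 (hV.to_le (hV₂V₁.trans hV₁V))
  obtain ⟨d, hd⟩ := IsPGroup.iff_card.1 (hV.to_le hle)
  have hlt1 : Nat.card V₁ < Nat.card V := lt_of_le_of_ne (Subgroup.card_le_of_le hV₁V)
    fun h => h1 (Subgroup.eq_of_le_of_card_ge hV₁V h.ge).ge
  have hlt2 : Nat.card V₂ < Nat.card V₁ := lt_of_le_of_ne (Subgroup.card_le_of_le hV₂V₁)
    fun h => h2 (Subgroup.eq_of_le_of_card_ge hV₂V₁ h.ge).ge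
  have hp1 := (Fact.out : p.Prime).one_lt
  rw [ha, hd, ← pow_add, Nat.pow_le_pow_iff_right hp1] at hcard
  rw [ha, hb, Nat.pow_lt_pow_iff_right hp1] at hlt1
  rw [hb, hc, Nat.pow_lt_pow_iff_right hp1] at hlt2
  refine (Subgroup.eq_of_le_of_card_ge le_sup_right ?_).symm
  rw [hc, hd]
  exact Nat.pow_le_pow_right hp1.le (by omega)

/-- The centralizer of an irreducible action on a finite abelian group is commutative. -/
theorem commute_of_irreducible {V : Type*} [AddCommGroup V] [Finite V] [Nontrivial V]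
    (S : Set (AddMonoid.End V))
    (hirr : ∀ U : AddSubgroup V, (∀ f ∈ S, ∀ v ∈ U, f v ∈ U) → U = ⊥ ∨ U = ⊤)
    {x y : AddMonoid.End V} (hx : ∀ f ∈ S, f * x = x * f) (hy : ∀ f ∈ S, f * y = y * f) : x * y = y * x := by
  haveI : Finite (AddMonoid.End V) := Finite.of_injective (fun f => (f : V → V)) DFunLike.coe_injective
  let R := Subring.centralizer S
  haveI : NoZeroDivisors R := ⟨by
    intro a b hab
    by_cases hb : b = 0
    · exact Or.inr hb
    refine Or.inl ?_
    have hrange : ((b : AddMonoid.End V) : V →+ V).range = ⊤ := by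
      refine (hirr _ fun f hf v hv => ?_).resolve_left fun h => hb (Subtype.ext (AddMonoidHom.ext fun v => ?_))
      · obtain ⟨u, rfl⟩ := hv
        exact ⟨f u, (DFunLike.congr_fun (Subring.mem_centralizer_iff.1 b.2 f hf) u).symm⟩
      · have : (b : AddMonoid.End V) v ∈ (⊥ : AddSubgroup V) := h ▸ ⟨v, rfl⟩
        show (b : AddMonoid.End V) v = (0 : V)
        simpa using this
    refine Subtype.ext (AddMonoidHom.ext fun v => ?_)
    obtain ⟨u, rfl⟩ : v ∈ ((b : AddMonoid.End V) : V →+ V).range := hrange ▸ AddSubgroup.mem_top v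
    exact DFunLike.congr_fun (congrArg Subtype.val hab) u⟩
  haveI : Nontrivial R := ⟨⟨0, 1, fun h => by
    obtain ⟨v, hv⟩ := exists_ne (0 : V)
    exact hv (DFunLike.congr_fun (congrArg Subtype.val h) v).symm⟩⟩
  haveI : IsDomain R := NoZeroDivisors.to_isDomain R
  exact congrArg Subtype.val ((Finite.isDomain_to_isField R).mul_comm
    ⟨x, Subring.mem_centralizer_iff.2 hx⟩ ⟨y, Subring.mem_centralizer_iff.2 hy⟩)

section act

variable {U : Type*} [Group U] [Finite U] {p : ℕ} [Fact p.Prime] {A : Subgroup (MulAut U)}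

/-- For coprime action on an abelian group, a moved element fixed by all of `A` is trivial. -/
theorem eq_one_of_fixed_moved (hU : IsPGroup p U) (hcomm : ∀ x y : U, x * y = y * x)
    (hcop : (Nat.card A).Coprime p) {u : U} (hm : u ∈ moved A) (hfix : ∀ a ∈ A, a u = u) : u = 1 := by
  classical
  letI : CommGroup U := { (inferInstance : Group U) with mul_comm := hcomm }
  haveI : Finite A := Finite.of_injective (fun a : A => ((a : MulAut U) : U → U))
    fun a b h => Subtype.ext (MulEquiv.ext (congrFun h))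
  letI : Fintype A := Fintype.ofFinite A
  let N : U →* U :=
    { toFun := fun x => ∏ a : A, (a : MulAut U) x
      map_one' := by simp
      map_mul' := fun x y => by simp [Finset.prod_mul_distrib] }
  have hker : moved A ≤ N.ker := by
    refine (Subgroup.closure_le _).2 ?_
    rintro _ ⟨a, ha, x, rfl⟩
    show N (a x * x⁻¹) = 1
    rw [map_mul, map_inv, mul_inv_eq_one]
    exact Equiv.prod_comp (Equiv.mulRight (⟨a, ha⟩ : A)) (fun b : A => (b : MulAut U) x)
  have h1 : ∏ a : A, (a : MulAut U) u = 1 := hker hm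
  rw [Finset.prod_congr rfl (fun (a : A) _ => hfix (a : MulAut U) a.2), Finset.prod_const, Finset.card_univ] at h1
  obtain ⟨k, hk⟩ := hU u
  have h2 := pow_gcd_eq_one.mpr ⟨h1, hk⟩
  rw [← Nat.card_eq_fintype_card, (hcop.pow_right k).gcd_eq_one, pow_one] at h2
  exact h2

/-- The quaternion action is not commutative. -/
theorem SmallAct.exists_not_commute (hU : IsPGroup p U) (hcomm : ∀ x y : U, x * y = y * x)
    (hA : SmallAct p A) (hp : p = 3) (hcop : (Nat.card A).Coprime p) :
    ∃ a ∈ A, ∃ b ∈ A, a * b ≠ b * a := by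
  classical
  by_contra! hall
  obtain ⟨-, hc, hq⟩ := hA.shape.resolve_left fun h => by omega
  letI : CommGroup A := { (inferInstance : Group A) with
    mul_comm := fun x y => Subtype.ext (hall x x.2 y y.2) }
  have hone : ∀ b : MulAut U, b ∈ A → (∀ w ∈ moved A, b w = w) → b = 1 := fun b hb hf =>
    eq_one_of_fixes hU hcop hb hf fun u => by rw [hcomm]; exact mem_moved hb u
  have hinv : ∀ s t : A, s ^ 2 = 1 → s ≠ 1 → t ^ 2 = 1 → t ≠ 1 → s = t := by
    intro s t hs hs1 ht ht1
    have h1 := ((hq _ s.2).2 (congrArg Subtype.val hs)).resolve_left fun h => hs1 (Subtype.ext h)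
    have h2 := ((hq _ t.2).2 (congrArg Subtype.val ht)).resolve_left fun h => ht1 (Subtype.ext h)
    refine Subtype.ext (inv_mul_eq_one.1 (hone _ (mul_mem (inv_mem s.2) t.2) fun w hw => ?_))
    show (s : MulAut U)⁻¹ ((t : MulAut U) w) = w
    rw [h2 w hw, ← h1 w hw, MulAut.inv_apply_self]
  haveI : Fintype A := Fintype.ofFinite A
  set K := Finset.univ.filter fun a : A => a ^ 2 = 1
  have hK : K.card ≤ 2 := by
    by_contra h
    push Not at h
    obtain ⟨a, b, c, ha, hb, hc, hab, hac, hbc⟩ := Finset.two_lt_card_iff.1 h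
    simp only [K, Finset.mem_filter, Finset.mem_univ, true_and] at ha hb hc
    rcases eq_or_ne a 1 with rfl | ha1
    · exact hbc (hinv b c hb hab.symm hc hac.symm)
    rcases eq_or_ne b 1 with rfl | hb1
    · exact hac (hinv a c ha ha1 hc hbc.symm)
    · exact hab (hinv a b ha ha1 hb hb1)
  have hsq : ∀ a : A, a ^ 2 ∈ K := fun a => Finset.mem_filter.2 ⟨Finset.mem_univ _, by
    rw [← pow_mul]; exact Subtype.ext (hq _ a.2).1⟩
  have hfib : ∀ b ∈ K, (Finset.univ.filter fun a : A => a ^ 2 = b).card ≤ K.card := by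
    intro b _
    rcases (Finset.univ.filter fun a : A => a ^ 2 = b).eq_empty_or_nonempty with h | ⟨a₀, ha₀⟩
    · rw [h]; simp
    refine Finset.card_le_card_of_injOn (fun a => a * a₀⁻¹) (fun a ha => ?_)
      (fun a _ a' _ h => mul_right_cancel h)
    simp only [Finset.coe_filter, Finset.mem_univ, true_and, Set.mem_setOf_eq] at ha
    simp only [Finset.mem_filter, Finset.mem_univ, true_and] at ha₀
    simp [K, mul_pow, inv_pow, ha, ha₀]
  have h8 := Finset.card_le_mul_card_image_of_maps_to (s := (Finset.univ : Finset A)) (t := K)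
    (fun a _ => hsq a) K.card hfib
  rw [Finset.card_univ, ← Nat.card_eq_fintype_card, hc] at h8
  have : K.card * K.card ≤ 2 * 2 := Nat.mul_le_mul hK hK
  omega

end act

end CfsgLib.Replacement.Block
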