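import Cfsg.Agent.Lib.Replacement.Block.Sections

/-!
The involution of an exceptional quaternion block cannot act on `U` alone: an element of the small core trivial on
`Q/Φ(Q)U` and acting on `U` like a member of the block is trivial. This is where the non-quadratic clause is used.
-/

set_option autoImplicit false
set_option linter.style.haveILetI false

namespace CfsgLib.Replacement.Block

open Cfsg
open scoped commutatorElement

variable {G : Type*} [Group G] [Finite G] {p : ℕ} [Fact p.Prime]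

omit [Finite G] in
theorem commutatorElement_mul_central {q r u v : G} (h1 : u * r = r * u) (h2 : u * v = v * u)
    (h3 : v * q = q * v) : ⁅q * u, r * v⁆ = ⁅q, r⁆ := by
  have h4 : ⁅u, r * v⁆ = 1 :=
    commutatorElement_eq_one_iff_mul_comm.2 (by rw [← mul_assoc, h1, mul_assoc, h2, ← mul_assoc])
  have h5 : ⁅q, v⁆ = 1 := commutatorElement_eq_one_iff_mul_comm.2 h3.symm
  rw [show ⁅q * u, r * v⁆ = q * ⁅u, r * v⁆ * q⁻¹ * (⁅q, r⁆ * (r * ⁅q, v⁆ * r⁻¹)) by
    simp [commutatorElement_def, mul_assoc], h4, h5]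
  simp

theorem Facts.eq_one_of_actU_mem (hG : Subgroup.centralizer (pCore p G : Set G) ≤ pCore p G)
    {E : Subgroup G} (hF : Facts p E) (hs : IsSmall p E) (hne : pCoreOf p E ≠ blockW p E)
    {x : G ⧸ pCore p G} (hx : x ∈ smallCore p G) (hM : actM p G x = 1)
    (hU : actU p G x ∈ (quot p E).map (actU p G)) : x = 1 := by
  obtain ⟨hp, hQQ, hV, b, hbN, ⟨j, hj⟩, hquad⟩ := hF.dich.resolve_left hne
  subst hp
  by_contra hx1
  obtain ⟨hA, -⟩ := hF.smallAct_U hs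
  obtain ⟨-, -, hq⟩ := hA.shape.resolve_left fun h => by omega
  have ker : ∀ z ∈ smallCore 3 G, actU 3 G z = 1 → actM 3 G z = 1 → z = 1 := fun z hz h1 h2 =>
    eq_one_of_act hG (Or.inr rfl) hz h1 h2
  have three : ∀ {u : G}, u ^ 3 = 1 → u ^ 2 = 1 → u = 1 := fun h3 h2 => by
    simpa using pow_gcd_eq_one.mpr ⟨h3, h2⟩
  -- an involution
  obtain ⟨x₁, hx₁, hM₁, hU₁, hne₁, hsq₁⟩ : ∃ x₁ ∈ smallCore 3 G, actM 3 G x₁ = 1 ∧
      actU 3 G x₁ ∈ (quot 3 E).map (actU 3 G) ∧ x₁ ≠ 1 ∧ x₁ ^ 2 = 1 := by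
    by_cases h2 : x ^ 2 = 1
    · exact ⟨x, hx, hM, hU, hx1, h2⟩
    · refine ⟨x ^ 2, pow_mem hx 2, by rw [map_pow, hM, one_pow], by rw [map_pow]; exact pow_mem hU 2,
        h2, ker _ (pow_mem (pow_mem hx 2) 2) ?_ (by rw [map_pow, map_pow, hM, one_pow, one_pow])⟩
      rw [← pow_mul, map_pow]
      exact (hq _ hU).1
  set a := actU 3 G x₁ with ha
  have ha1 : a ≠ 1 := fun h => hne₁ (ker _ hx₁ h hM₁)
  have hainv := ((hq a hU₁).2 (by rw [ha, ← map_pow, hsq₁, map_one])).resolve_left ha1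
  obtain ⟨g₀, hg₀⟩ := QuotientGroup.mk'_surjective (pCore 3 G) x₁
  obtain ⟨e, hcop, hye⟩ := CfsgLib.ConjFunctor.exists_coprime_lift (p := 3) (QuotientGroup.mk' (pCore 3 G)) g₀
    ((smallCore_spec (Or.inr rfl)).2.coprime_dvd_left (Subgroup.orderOf_dvd_natCard _ (hg₀ ▸ hx₁)))
  set y := g₀ ^ e
  rw [hg₀] at hye
  have hy2 : y ^ 2 = 1 := by
    have hyQ : y ^ 2 ∈ pCore 3 G := by
      rw [← QuotientGroup.eq_one_iff]
      show QuotientGroup.mk' (pCore 3 G) (y ^ 2) = 1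
      rw [map_pow, hye, hsq₁]
    obtain ⟨k, hk⟩ := CfsgLib.Cores.isPGroup_pCore 3 G ⟨_, hyQ⟩
    have h1 : (y ^ 2) ^ 3 ^ k = 1 := congrArg Subtype.val hk
    have h2 : (y ^ 2) ^ orderOf y = 1 := by rw [← pow_mul, mul_comm, pow_mul, pow_orderOf_eq_one, one_pow]
    have h3 := pow_gcd_eq_one.mpr ⟨h1, h2⟩
    rwa [(hcop.symm.pow_left k).gcd_eq_one, pow_one] at h3
  have hyy : y * y = 1 := by rw [← pow_two, hy2]
  have hyinv : y⁻¹ = y := inv_eq_of_mul_eq_one_right hyy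
  have hmU := hF.moved_actU
  -- `y` inverts `W_E`
  have hyWE : ∀ w ∈ blockWE 3 E, y * w * y⁻¹ = w⁻¹ := by
    intro w hw
    rw [← hmU] at hw
    obtain ⟨v, hv, rfl⟩ := hw
    have h1 := congrArg Subtype.val (hainv v hv)
    rw [ha, ← hye, act_apply] at h1
    exact h1
  have hyu : ∀ q ∈ pCore 3 G, ∃ u ∈ blockWE 3 E, u ∈ coreU 3 G ∧ y * q * y⁻¹ = q * u := by
    intro q hq
    have hu : q⁻¹ * (y * q * y⁻¹) ∈ coreU 3 G := commutator_mem_coreU hcop (hye ▸ hM₁) hq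
    refine ⟨_, ?_, hu, by group⟩
    set u := q⁻¹ * (y * q * y⁻¹) with hudef
    have hui : y * u * y⁻¹ = u⁻¹ := by
      rw [hudef, hyinv]
      simp only [mul_inv_rev, inv_inv, hyinv]
      calc y * (q⁻¹ * (y * q * y)) * y = y * q⁻¹ * y * q * (y * y) := by group
        _ = y * (q⁻¹ * (y * q)) := by rw [hyy]; group
        _ = _ := by simp [mul_assoc]
    have hmem := Subgroup.mem_map_of_mem (coreU 3 G).subtype (mem_moved hU₁ (⟨u, hu⟩ : coreU 3 G))
    rw [hmU, Subgroup.coe_subtype, Subgroup.coe_mul, Subgroup.coe_inv, ha, ← hye, act_apply,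
      MonoidHom.id_apply, hui] at hmem
    have h3 : u ^ 3 = 1 := omegaOneCenter_pow _ hu
    have : u⁻¹ * u⁻¹ = u := by
      rw [← mul_inv_rev, inv_eq_iff_mul_eq_one, ← h3, pow_succ, pow_two]
    rwa [show ((⟨u, hu⟩ : coreU 3 G) : G) = u from rfl, this] at hmem
  have hycomm : ∀ q ∈ pCore 3 G, ∀ r ∈ pCore 3 G, y * ⁅q, r⁆ * y⁻¹ = ⁅q, r⁆ := by
    intro q hq r hr
    obtain ⟨u, -, hu, hqu⟩ := hyu q hq
    obtain ⟨v, -, hv, hrv⟩ := hyu r hr
    have h1 : MulAut.conj y ⁅q, r⁆ = ⁅MulAut.conj y q, MulAut.conj y r⁆ := map_commutatorElement _ _ _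
    simp only [MulAut.conj_apply] at h1
    rw [h1, hqu, hrv]
    exact commutatorElement_mul_central (coreU_comm hr hu).symm (coreU_comm (coreU_le hv) hu).symm
      (coreU_comm hq hv).symm
  set qE := pCoreOf 3 E
  set Z := blockZ 3 E
  have hqQ : qE ≤ pCore 3 G := hF.pCoreOf_le
  let Cy : Subgroup G := Subgroup.centralizer {y}
  have hCy : ∀ {c : G}, c ∈ Cy ↔ y * c * y⁻¹ = c := fun {c} => by
    rw [mul_inv_eq_iff_eq_mul, Subgroup.mem_centralizer_singleton_iff]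
    exact eq_comm
  have hZy : Z ≤ Cy := by
    refine hQQ.symm.le.trans ?_
    exact Subgroup.commutator_le.2 fun q hq r hr => hCy.2 (hycomm q (hqQ hq) r (hqQ hr))
  have hZW : Z ≤ blockW 3 E := inf_le_left
  have hWfix : ∀ w ∈ blockW 3 E, w ∈ Cy → w ∈ Z := by
    intro w hw hwy
    have hw' : w ∈ ((blockWE 3 E ⊔ Z : Subgroup G) : Set G) := by rw [hF.moduleFacts.2.2.2]; exact hw
    rw [Subgroup.coe_mul_of_left_le_normalizer_right _ _ (hF.moduleFacts.2.1.trans hF.W_le_normalizer_Z)] at hw'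
    obtain ⟨v, hv, z, hz, rfl⟩ := hw'
    have hvy : v ∈ Cy := by simpa using Cy.mul_mem hwy (Cy.inv_mem (hZy hz))
    have h1 : v⁻¹ = v := (hyWE v hv).symm.trans (hCy.1 hvy)
    have h2 : v = 1 := three (omegaOneCenter_pow _ (hF.moduleFacts.2.1 hv)) (by
      rw [pow_two]; exact inv_eq_iff_mul_eq_one.1 h1)
    show v * z ∈ Z
    rw [h2, one_mul]; exact hz
  have hcQ : ∀ q ∈ qE, ∀ r ∈ pCore 3 G, ⁅q, r⁆ ∈ Z := fun q hq r hr =>
    hWfix _ (hF.commutator_core_le_W hV (Subgroup.commutator_mem_commutator hq hr))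
      (hCy.2 (hycomm q (hqQ hq) r hr))
  set C := qE ⊓ Cy with hC
  have hsup : C ⊔ blockW 3 E = qE := by
    refine le_antisymm (sup_le inf_le_left blockW_le) fun q hq => ?_
    obtain ⟨u, hu, huU, hqu⟩ := hyu q (hqQ hq)
    have huW := hF.moduleFacts.2.1 hu
    have hu3 : u ^ 3 = 1 := omegaOneCenter_pow _ huW
    refine (inv_mul_cancel_right q u) ▸ Subgroup.mul_mem_sup (?_ : q * u⁻¹ ∈ C) huW
    refine ⟨qE.mul_mem hq (qE.inv_mem (blockW_le huW)), hCy.2 ?_⟩
    rw [show y * (q * u⁻¹) * y⁻¹ = (y * q * y⁻¹) * (y * u * y⁻¹)⁻¹ by group, hqu, hyWE u hu, inv_inv,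
      mul_assoc]
    congr 1
    exact eq_inv_of_mul_eq_one_left (by rw [← pow_two, ← pow_succ]; exact hu3)
  have hinfW : C ⊓ blockW 3 E = Z :=
    le_antisymm (fun w hw => hWfix w hw.2 hw.1.2) fun z hz => ⟨⟨blockW_le (hZW hz), hZy hz⟩, hZW hz⟩
  have hqW : qE ≤ Subgroup.normalizer (blockW 3 E : Set G) :=
    le_normalizer_of_comm le_rfl fun _ hc _ hb => blockW_comm hc hb
  have hqZ : qE ≤ Subgroup.normalizer (Z : Set G) :=
    le_normalizer_of_comm le_rfl fun _ hc _ hb => blockW_comm hc (hZW hb)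
  have hcardC : Nat.card C = 3 ^ 2 * Nat.card Z := by
    have h1 := CfsgLib.NormalPComplement.card_sup_mul_card_inf (A := C) (B := blockW 3 E) (inf_le_left.trans hqW)
    rw [hsup, hinfW, hV.card_small hs] at h1
    refine Nat.eq_of_mul_eq_mul_right (Nat.card_pos (α := blockW 3 E)) ?_
    rw [← h1]; ring
  -- `b` normalizes `C`
  set P := Subgroup.zpowers b
  have hbE : ∀ e' ∈ E, b * e' * b⁻¹ ∈ E := fun e' he => (Subgroup.mem_normalizer_iff.1 hbN e').1 he
  set bb := QuotientGroup.mk' (pCore 3 G) b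
  have hbx : bb * x₁ * bb⁻¹ = x₁ := by
    have hmem : bb * x₁ * bb⁻¹ ∈ smallCore 3 G := Subgroup.Normal.conj_mem inferInstance _ hx₁ _
    refine inv_mul_eq_one.1 (ker _ (mul_mem (inv_mem hx₁) hmem) ?_ ?_) |>.symm
    · have ha' : actU 3 G (bb * x₁ * bb⁻¹) ∈ (quot 3 E).map (actU 3 G) := by
        obtain ⟨_, ⟨e', he, rfl⟩, he'⟩ := hU₁
        refine ⟨_, ⟨b * e' * b⁻¹, hbE e' he, rfl⟩, ?_⟩
        rw [map_mul, map_mul, map_mul, map_mul, map_inv, map_inv, he', ha, map_mul, map_mul, map_inv]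
      have hne' : actU 3 G (bb * x₁ * bb⁻¹) ≠ 1 := fun h => ha1 (by
        rw [map_mul, map_mul, map_inv, mul_inv_eq_one, mul_eq_left] at h; exact h)
      have hinv' := ((hq _ ha').2 (by
        rw [← map_pow, conj_pow, hsq₁, mul_one, mul_inv_cancel, map_one])).resolve_left hne'
      rw [map_mul, map_inv]
      refine eq_one_of_fixes isPGroup_coreU (quot_cop hF hs _) (mul_mem (inv_mem hU₁) ha') (N := moved ((quot 3 E).map (actU 3 G))) (fun w hw => ?_)
        fun u => ?_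
      · show a⁻¹ (actU 3 G (bb * x₁ * bb⁻¹) w) = w
        rw [hinv' w hw, ← hainv w hw, MulAut.inv_apply_self]
      · rw [coreU_comm']; exact mem_moved (mul_mem (inv_mem hU₁) ha') u
    · rw [map_mul, map_inv, map_mul, map_mul, map_inv, hM₁]; group
  have hbC : P ≤ Subgroup.normalizer (C : Set G) := by
    refine Subgroup.zpowers_le.2 (Subgroup.mem_normalizer_fintype fun c hc => ?_)
    obtain ⟨q, hq, hbq⟩ : ∃ q ∈ pCore 3 G, b * y * b⁻¹ = y * q := by
      refine ⟨y⁻¹ * (b * y * b⁻¹), ?_, by group⟩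
      rw [← QuotientGroup.eq_one_iff]
      show QuotientGroup.mk' (pCore 3 G) _ = 1
      rw [map_mul, map_mul, map_mul, map_inv, map_inv, hye, hbx, inv_mul_cancel]
    set c' := b * c * b⁻¹
    have hc' : c' ∈ qE :=
      (Subgroup.mem_normalizer_iff.1 (Cores.normalizer_le_normalizer_map_subtype E (pCore 3 E) hbN) c).1 hc.1
    have hcq : y * q * c' = c' * (y * q) := by
      rw [← hbq]
      have h1 : y * c = c * y := mul_inv_eq_iff_eq_mul.1 (hCy.1 hc.2)
      calc b * y * b⁻¹ * (b * c * b⁻¹) = b * (y * c) * b⁻¹ := by group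
        _ = b * (c * y) * b⁻¹ := by rw [h1]
        _ = _ := by simp only [c']; group
    set z := ⁅q, c'⁆ with hz
    have hzZ : z ∈ Z := by rw [hz, ← commutatorElement_inv]; exact Z.inv_mem (hcQ c' hc' q hq)
    have hzc : y * (z * c') * y⁻¹ = c' := by
      rw [hz, commutatorElement_def]
      calc y * (q * c' * q⁻¹ * c'⁻¹ * c') * y⁻¹ = y * q * c' * (q⁻¹ * y⁻¹) := by group
        _ = c' := by rw [hcq]; group
    have hyc' : y * c' * y⁻¹ = z⁻¹ * c' := by
      have h2 : y * z * y⁻¹ = z := hCy.1 (hZy hzZ)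
      rw [show y * (z * c') * y⁻¹ = (y * z * y⁻¹) * (y * c' * y⁻¹) by group, h2] at hzc
      exact eq_inv_mul_of_mul_eq hzc
    have hz2 : z ^ 2 = 1 := by
      have h3 : y * (y * c' * y⁻¹) * y⁻¹ = c' := by
        rw [show y * (y * c' * y⁻¹) * y⁻¹ = (y * y) * c' * (y * y)⁻¹ by group, hyy]; group
      rw [hyc', show y * (z⁻¹ * c') * y⁻¹ = (y * z * y⁻¹)⁻¹ * (y * c' * y⁻¹) by group,
        hCy.1 (hZy hzZ), hyc', ← mul_assoc, mul_eq_right, ← mul_inv_rev, inv_eq_one] at h3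
      rw [pow_two]; exact h3
    rw [three (omegaOneCenter_pow _ (hZW hzZ)) hz2, inv_one, one_mul] at hyc'
    exact ⟨hc', hCy.2 hyc'⟩
  have hP : IsPGroup 3 P := by
    obtain ⟨k, -, hk⟩ := (Nat.dvd_prime_pow (Fact.out : Nat.Prime 3)).1 (orderOf_dvd_of_pow_eq_one hj)
    exact IsPGroup.of_card (n := k) (by rw [Nat.card_zpowers, hk])
  have hPW : P ≤ Subgroup.normalizer (blockW 3 E : Set G) := Subgroup.zpowers_le.2 (hF.le_normalizer_W hbN)
  have hPZ : P ≤ Subgroup.normalizer (Z : Set G) := Subgroup.zpowers_le.2 (hF.le_normalizer_Z hbN)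
  have hqp : IsPGroup 3 qE := (CfsgLib.Cores.isPGroup_pCore 3 E).map E.subtype
  have hquadW := quad_le (hqp.to_le blockW_le) hP hPW hPZ (blockW_le.trans hqZ) hZW (hF.sectW.card_small hs).le
  have hquadC := quad_le (hqp.to_le inf_le_left) hP hbC hPZ (inf_le_left.trans hqZ)
    (fun z hz => ⟨blockW_le (hZW hz), hZy hz⟩) hcardC.le
  refine hquad ?_
  show ⁅⁅qE, P⁆, P⁆ ≤ Z
  have hzc : ∀ x ∈ qE, ∀ z ∈ Z, x * z = z * x := fun x hx z hz => blockW_comm hx (hZW hz)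
  let S : Subgroup G :=
    { carrier := {x | x ∈ qE ∧ ∀ t ∈ P, ⁅x, t⁆ ∈ Z}
      one_mem' := ⟨one_mem _, fun t _ => by rw [commutatorElement_one_left]; exact one_mem _⟩
      mul_mem' := fun {x y} hx hy => ⟨mul_mem hx.1 hy.1, fun t ht => by
        rw [show ⁅x * y, t⁆ = x * ⁅y, t⁆ * x⁻¹ * ⁅x, t⁆ by simp [commutatorElement_def, mul_assoc],
          hzc x hx.1 _ (hy.2 t ht), mul_inv_cancel_right]
        exact mul_mem (hy.2 t ht) (hx.2 t ht)⟩
      inv_mem' := fun {x} hx => ⟨inv_mem hx.1, fun t ht => by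
        rw [show ⁅x⁻¹, t⁆ = x⁻¹ * ⁅x, t⁆⁻¹ * x by simp [commutatorElement_def, mul_assoc],
          hzc x⁻¹ (inv_mem hx.1) _ (inv_mem (hx.2 t ht)), inv_mul_cancel_right]
        exact inv_mem (hx.2 t ht)⟩ }
  have hSle : ⁅qE, P⁆ ≤ S := by
    refine Subgroup.commutator_le.2 fun q hq t ht => ?_
    rw [← hsup, ← SetLike.mem_coe,
      Subgroup.coe_mul_of_left_le_normalizer_right _ _ (inf_le_left.trans hqW)] at hq
    obtain ⟨c, hc, w, hw, rfl⟩ := hq
    have h1 : ⁅w, t⁆ ∈ blockW 3 E :=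
      CoprimeAction.commutator_le_left hPW (Subgroup.commutator_mem_commutator hw ht)
    have h2 : ⁅c, t⁆ ∈ C := CoprimeAction.commutator_le_left hbC (Subgroup.commutator_mem_commutator hc ht)
    rw [show ⁅c * w, t⁆ = c * ⁅w, t⁆ * c⁻¹ * ⁅c, t⁆ by simp [commutatorElement_def, mul_assoc],
      blockW_comm hc.1 h1, mul_inv_cancel_right]
    exact S.mul_mem
      ⟨blockW_le h1, fun s hs' => hquadW (Subgroup.commutator_mem_commutator (Subgroup.commutator_mem_commutator hw ht) hs')⟩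
      ⟨h2.1, fun s hs' => hquadC (Subgroup.commutator_mem_commutator (Subgroup.commutator_mem_commutator hc ht) hs')⟩
  exact Subgroup.commutator_le.2 fun x hx t ht => (hSle hx).2 t ht

end CfsgLib.Replacement.Block
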