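import Cfsg.Agent.Lib.Replacement.Block.Act
import Cfsg.Agent.Lib.PGroups.Frattini
import Cfsg.Agent.Lib.ConjFunctor.IndexP

/-!
The two sections attached to `G`: `U = Ω₁(Z(Q))` and `Q/Φ(Q)U` for `Q = O_p(G)`, and how a block acts on them.
-/

set_option autoImplicit false
set_option linter.style.haveILetI false

namespace CfsgLib.Replacement.Block

open Cfsg
open scoped commutatorElement

variable {G : Type*} [Group G] [Finite G] {p : ℕ} [Fact p.Prime]

/-- `W`, that is `Ω₁(Z(O_p(E)))`. -/
abbrev blockW (p : ℕ) (E : Subgroup G) : Subgroup G := omegaOneCenter p (pCoreOf p E)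

/-- `W_E = [W, E]`. -/
abbrev blockWE (p : ℕ) (E : Subgroup G) : Subgroup G := ⁅blockW p E, E⁆

/-- `Z = C_W(E)`. -/
abbrev blockZ (p : ℕ) (E : Subgroup G) : Subgroup G := blockW p E ⊓ Subgroup.centralizer (E : Set G)

/-- `U = Ω₁(Z(O_p(G)))`. -/
abbrev coreU (p : ℕ) (G : Type*) [Group G] : Subgroup G := omegaOneCenter p (pCore p G)

/-- `Φ(O_p(G)) U`. -/
abbrev coreD (p : ℕ) (G : Type*) [Group G] : Subgroup G :=
  (frattini ↥(pCore p G)).map (pCore p G).subtype ⊔ coreU p G

instance coreU_normal : (coreU p G).Normal := Subgroup.normalizer_eq_top_iff.1 <| top_le_iff.1 <| by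
  refine le_trans ?_ (TwoGroupTricks.normalizer_le_normalizer_omegaOneCenter (pCore p G))
  rw [Subgroup.normalizer_eq_top]

omit [Fact p.Prime] in
theorem coreU_le : coreU p G ≤ pCore p G := (TwoGroupTricks.omegaOneCenter_le _).trans inf_le_left

omit [Fact p.Prime] in
theorem coreU_comm {q u : G} (hq : q ∈ pCore p G) (hu : u ∈ coreU p G) : q * u = u * q :=
  (TwoGroupTricks.omegaOneCenter_le _ hu).2 q hq

omit [Finite G] [Fact p.Prime] in
theorem omegaOneCenter_pow (X : Subgroup G) {u : G} (hu : u ∈ omegaOneCenter p X) : u ^ p = 1 := by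
  induction hu using Subgroup.closure_induction with
  | mem x hx => exact hx.2
  | one => exact one_pow p
  | mul x y hx hy ihx ihy =>
    have hx' := (Subgroup.closure_le (X ⊓ Subgroup.centralizer (X : Set G))).2 (fun _ h => h.1) hx
    have hy' := (Subgroup.closure_le (X ⊓ Subgroup.centralizer (X : Set G))).2 (fun _ h => h.1) hy
    rw [(show Commute x y from hy'.2 x hx'.1).mul_pow, ihx, ihy, one_mul]
  | inv x _ ihx => rw [inv_pow, ihx, inv_one]

instance coreD_normal : (coreD p G).Normal := Subgroup.sup_normal _ _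

omit [Fact p.Prime] in
theorem coreD_le : coreD p G ≤ pCore p G := sup_le (Subgroup.map_subtype_le _) coreU_le

theorem commutator_pCore_le_coreD : ⁅pCore p G, pCore p G⁆ ≤ coreD p G := by
  refine le_trans ?_ le_sup_left
  rw [Subgroup.commutator_le]
  intro a ha b hb
  exact ⟨⁅⟨a, ha⟩, ⟨b, hb⟩⁆, PGroups.commutatorElement_mem_frattini (CfsgLib.Cores.isPGroup_pCore p G) _ _, rfl⟩

theorem actU_hc : ∀ q ∈ pCore p G, ∀ v ∈ coreU p G, MonoidHom.id G q * v = v * MonoidHom.id G q :=
  fun _ hq _ hv => coreU_comm hq hv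

/-- The action on `U`. -/
noncomputable abbrev actU (p : ℕ) [Fact p.Prime] (G : Type*) [Group G] [Finite G] :
    (G ⧸ pCore p G) →* MulAut (coreU p G) :=
  act (MonoidHom.id G) (coreU p G) actU_hc

/-- The section `Q/Φ(Q)U` inside `G/Φ(Q)U`. -/
abbrev coreM (p : ℕ) [Fact p.Prime] (G : Type*) [Group G] [Finite G] : Subgroup (G ⧸ coreD p G) :=
  (pCore p G).map (QuotientGroup.mk' (coreD p G))

instance coreM_normal : (coreM p G).Normal :=
  Subgroup.Normal.map inferInstance _ (QuotientGroup.mk'_surjective _)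

theorem coreM_comm {a b : G ⧸ coreD p G} (ha : a ∈ coreM p G) (hb : b ∈ coreM p G) : a * b = b * a := by
  obtain ⟨x, hx, rfl⟩ := ha
  obtain ⟨y, hy, rfl⟩ := hb
  rw [← commutatorElement_eq_one_iff_mul_comm, ← map_commutatorElement]
  exact (QuotientGroup.eq_one_iff _).2 (commutator_pCore_le_coreD (Subgroup.commutator_mem_commutator hx hy))

theorem actM_hc : ∀ q ∈ pCore p G, ∀ v ∈ coreM p G,
    QuotientGroup.mk' (coreD p G) q * v = v * QuotientGroup.mk' (coreD p G) q :=
  fun _ hq _ hv => coreM_comm (Subgroup.mem_map_of_mem _ hq) hv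

/-- The action on `Q/Φ(Q)U`. -/
noncomputable abbrev actM (p : ℕ) [Fact p.Prime] (G : Type*) [Group G] [Finite G] :
    (G ⧸ pCore p G) →* MulAut (coreM p G) :=
  act (QuotientGroup.mk' (coreD p G)) (coreM p G) actM_hc

theorem coreU_comm' (x y : coreU p G) : x * y = y * x :=
  Subtype.ext (coreU_comm (coreU_le x.2) y.2)

theorem coreM_comm' (x y : coreM p G) : x * y = y * x := Subtype.ext (coreM_comm x.2 y.2)

theorem isPGroup_coreU : IsPGroup p (coreU p G) := (CfsgLib.Cores.isPGroup_pCore p G).to_le coreU_le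

theorem isPGroup_coreM : IsPGroup p (coreM p G) := (CfsgLib.Cores.isPGroup_pCore p G).map _

omit [Finite G] [Fact p.Prime] in
/-- A group generated by elements of order prime to `p`, all of whose commutators with `V` lie in `X`. -/
theorem commutator_le_of_residual {E V X : Subgroup G} (hres : pResidualOf p E = E)
    (hEV : E ≤ Subgroup.normalizer (V : Set G)) (hEX : E ≤ Subgroup.normalizer (X : Set G))
    (h : ∀ e ∈ E, (orderOf e).Coprime p → ∀ v ∈ V, ⁅v, e⁆ ∈ X) : ⁅V, E⁆ ≤ X := by
  let S : Subgroup E :=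
    { carrier := {e | ∀ v ∈ V, ⁅v, (e : G)⁆ ∈ X}
      one_mem' := fun v _ => by rw [OneMemClass.coe_one, commutatorElement_one_right]; exact one_mem X
      mul_mem' := fun {a b} ha hb v hv => by
        rw [Subgroup.coe_mul, show ⁅v, (a : G) * b⁆ = ⁅v, (a : G)⁆ * ((a : G) * ⁅v, (b : G)⁆ * (a : G)⁻¹) by
          simp [commutatorElement_def, mul_assoc]]
        exact mul_mem (ha v hv) ((Subgroup.mem_normalizer_iff.1 (hEX a.2) _).1 (hb v hv))
      inv_mem' := fun {a} ha v hv => by
        rw [Subgroup.coe_inv, show ⁅v, (a : G)⁻¹⁆ = (a : G)⁻¹ * ⁅v, (a : G)⁆⁻¹ * (a : G) by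
          simp [commutatorElement_def, mul_assoc]]
        exact (Subgroup.mem_normalizer_iff''.1 (hEX a.2) _).1 (inv_mem (ha v hv)) }
  have hS : pResidual p E ≤ S := (Subgroup.closure_le _).2 fun e (he : (orderOf e).Coprime p) =>
    h e e.2 (by rwa [Subgroup.orderOf_coe])
  refine Subgroup.commutator_le.2 fun v hv e he => ?_
  have he' : e ∈ pResidualOf p E := hres.symm ▸ he
  obtain ⟨e', he1, rfl⟩ := he'
  exact hS he1 v hv

/-- `[V, E] ≤ X` as soon as `[V, E, E] ≤ X`, for a `p`-group `V` and `E` generated by `p'`-elements. -/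
theorem commutator_le_of_commutator_commutator {E V X : Subgroup G} (hres : pResidualOf p E = E)
    (hV : IsPGroup p V) (hEV : E ≤ Subgroup.normalizer (V : Set G))
    (hEX : E ≤ Subgroup.normalizer (X : Set G)) (h : ⁅⁅V, E⁆, E⁆ ≤ X) : ⁅V, E⁆ ≤ X := by
  refine commutator_le_of_residual hres hEV hEX fun e he hcop v hv => ?_
  obtain ⟨k, hk⟩ := IsPGroup.iff_card.1 hV
  have hle : Subgroup.zpowers e ≤ E := Subgroup.zpowers_le.2 he
  have heq := CoprimeAction.commutator_commutator_eq (hle.trans hEV)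
    (by rw [Nat.card_zpowers, hk]; exact hcop.pow_right k) (Or.inl (CoprimeAction.isSolvable_zpowers e))
  have h1 : ⁅v, e⁆ ∈ ⁅V, Subgroup.zpowers e⁆ :=
    Subgroup.commutator_mem_commutator hv (Subgroup.mem_zpowers e)
  rw [← heq] at h1
  exact h (Subgroup.commutator_mono (Subgroup.commutator_mono le_rfl hle) hle h1)

variable {E : Subgroup G}

theorem Facts.le_normalizer_W (hF : Facts p E) : Subgroup.normalizer (E : Set G) ≤
    Subgroup.normalizer (blockW p E : Set G) :=
  (Cores.normalizer_le_normalizer_map_subtype E (pCore p E)).trans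
    (TwoGroupTricks.normalizer_le_normalizer_omegaOneCenter _)

theorem Facts.le_normalizer_Z (hF : Facts p E) : Subgroup.normalizer (E : Set G) ≤
    Subgroup.normalizer (blockZ p E : Set G) := fun g hg =>
  TwoGroupTricks.normalizer_inf_le ⟨hF.le_normalizer_W hg,
    TwoGroupTricks.normalizer_le_normalizer_centralizer' _ hg⟩

theorem Facts.le_normalizer_WE (hF : Facts p E) : Subgroup.normalizer (E : Set G) ≤
    Subgroup.normalizer (blockWE p E : Set G) := fun g hg =>
  TwoGroupTricks.normalizer_le_normalizer_commutator_left hg (hF.le_normalizer_W hg)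

omit [Fact p.Prime] in
theorem pCoreOf_le_self : pCoreOf p E ≤ E := Subgroup.map_subtype_le _

theorem Facts.pCoreOf_le (hF : Facts p E) : pCoreOf p E ≤ pCore p G :=
  (inf_pCore_eq hF.subnormal) ▸ inf_le_right

omit [Fact p.Prime] in
theorem blockW_le : blockW p E ≤ pCoreOf p E := (TwoGroupTricks.omegaOneCenter_le _).trans inf_le_left

omit [Fact p.Prime] in
theorem blockW_comm {q w : G} (hq : q ∈ pCoreOf p E) (hw : w ∈ blockW p E) : q * w = w * q :=
  (TwoGroupTricks.omegaOneCenter_le _ hw).2 q hq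

omit [Finite G] [Fact p.Prime] in
theorem le_normalizer_of_comm {A B C : Subgroup G} (hA : A ≤ C) (h : ∀ c ∈ C, ∀ b ∈ B, c * b = b * c) :
    A ≤ Subgroup.normalizer (B : Set G) :=
  fun a ha => Subgroup.centralizer_le_normalizer _ (Subgroup.mem_centralizer_iff.2 fun b hb => (h a (hA ha) b hb).symm)

theorem Facts.W_le_normalizer_Z (hF : Facts p E) : blockW p E ≤ Subgroup.normalizer (blockZ p E : Set G) :=
  le_normalizer_of_comm blockW_le fun _ hc _ hb => blockW_comm hc hb.1

/-- `[U, E] = W_E`. -/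
theorem Facts.commutator_coreU (hF : Facts p E) : ⁅coreU p G, E⁆ = blockWE p E := by
  have hN : E ≤ Subgroup.normalizer (coreU p G : Set G) := by
    rw [Subgroup.normalizer_eq_top]; exact le_top
  refine le_antisymm ?_ ?_
  · have h1 : ⁅coreU p G, E⁆ ≤ blockW p E := by
      intro x hx
      have hxU : x ∈ coreU p G := Subgroup.commutator_le_left (coreU p G) E hx
      have hxE : x ∈ pCoreOf p E := hF.comm_le (Subgroup.commutator_mono coreU_le le_rfl hx)
      exact Subgroup.subset_closure ⟨⟨hxE, fun q hq => coreU_comm (hF.pCoreOf_le hq) hxU⟩,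
        omegaOneCenter_pow _ hxU⟩
    refine commutator_le_of_commutator_commutator hF.residual isPGroup_coreU hN ?_
      (Subgroup.commutator_mono h1 le_rfl)
    exact fun e he => hF.le_normalizer_WE (Subgroup.le_normalizer he)
  · conv_lhs => rw [blockWE, ← hF.moduleFacts.1]
    exact Subgroup.commutator_mono hF.omega_le le_rfl

theorem quot_cop (hF : Facts p E) (hs : IsSmall p E) {X : Type*} [Group X] (θ : (G ⧸ pCore p G) →* X) :
    (Nat.card ((quot p E).map θ)).Coprime p :=
  ((smallCore_spec hs.two_or_three).2.coprime_dvd_left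
    (Subgroup.card_dvd_of_le (quot_le_smallCore hF.subnormal hs))).coprime_dvd_left
    (Dvd.intro _ (card_map_mul_card_inf_ker θ (quot p E)))

theorem Facts.moved_actU (hF : Facts p E) :
    (moved ((quot p E).map (actU p G))).map (coreU p G).subtype = blockWE p E := by
  rw [map_moved_act, Subgroup.map_id, Subgroup.commutator_comm, hF.commutator_coreU]

theorem Facts.WE_inf_Z (hF : Facts p E) (hs : IsSmall p E) : blockWE p E ⊓ blockZ p E = ⊥ := by
  refine (Subgroup.eq_bot_iff_forall _).2 fun x hx => ?_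
  obtain ⟨u, hu, rfl⟩ := (show x ∈ (moved ((quot p E).map (actU p G))).map (coreU p G).subtype by
    rw [hF.moved_actU]; exact hx.1)
  refine (congrArg Subtype.val (eq_one_of_fixed_moved isPGroup_coreU coreU_comm' (quot_cop hF hs _) hu ?_) :)
  rintro _ ⟨_, ⟨e, he, rfl⟩, rfl⟩
  refine Subtype.ext ?_
  rw [act_apply]
  show e * (u : G) * e⁻¹ = u
  rw [show e * (u : G) = u * e from hx.2.2 e he, mul_inv_cancel_right]

theorem Facts.smallAct_U (hF : Facts p E) (hs : IsSmall p E) :
    SmallAct p ((quot p E).map (actU p G)) ∧ ∀ x ∈ quot p E, actU p G x = 1 → x = 1 := by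
  refine smallAct_act (N := blockWE p E) (MonoidHom.id G) (coreU p G) actU_hc hF hs hF.sectW
    (fun e he => hF.le_normalizer_WE (Subgroup.le_normalizer he))
    (fun e he => hF.le_normalizer_Z (Subgroup.le_normalizer he))
    (hF.moduleFacts.2.1.trans hF.W_le_normalizer_Z) hF.moduleFacts.2.1 hF.moduleFacts.2.2.2.ge
    ?_ ?_ isPGroup_coreU
  · rw [MonoidHom.ker_id, inf_bot_eq]; exact hF.WE_inf_Z hs
  · rw [Subgroup.map_id, Subgroup.map_id, Subgroup.commutator_comm, hF.commutator_coreU]

theorem Facts.commutator_core (hF : Facts p E) : ⁅pCore p G, E⁆ = pCoreOf p E := by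
  refine le_antisymm hF.comm_le ?_
  conv_lhs => rw [← hF.comm_eq]
  exact Subgroup.commutator_mono hF.pCoreOf_le le_rfl

theorem Facts.eq_WE (hF : Facts p E) (h : pCoreOf p E = blockW p E) : pCoreOf p E = blockWE p E := by
  conv_lhs => rw [← hF.comm_eq, h]

/-- A block whose core is `W` acts trivially on `Q/Φ(Q)U`. -/
theorem Facts.actM_eq_one (hF : Facts p E) (h : pCoreOf p E = blockW p E) :
    ∀ x ∈ quot p E, actM p G x = 1 := by
  rintro _ ⟨e, he, rfl⟩
  rw [act_eq_one_iff]
  rintro _ ⟨q, hq, rfl⟩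
  rw [← commutatorElement_eq_one_iff_mul_comm, ← map_commutatorElement]
  refine (QuotientGroup.eq_one_iff _).2 (le_sup_right (a := (frattini ↥(pCore p G)).map _) ?_)
  have h1 : ⁅e, q⁆ ∈ pCoreOf p E := hF.comm_le (by
    rw [Subgroup.commutator_comm]; exact Subgroup.commutator_mem_commutator he hq)
  rw [hF.eq_WE h] at h1
  exact hF.omega_le h1

/-- An element of order prime to `p` trivial on `Q/Φ(Q)U` centralizes `Q/U`. -/
theorem commutator_mem_coreU {g : G} (hg : (orderOf g).Coprime p)
    (h : actM p G (QuotientGroup.mk' (pCore p G) g) = 1) {q : G} (hq : q ∈ pCore p G) :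
    q⁻¹ * (g * q * g⁻¹) ∈ coreU p G := by
  set π := QuotientGroup.mk' (coreU p G) with hπ
  set K := (pCore p G).map π with hK
  haveI : K.Normal := Subgroup.Normal.map inferInstance _ (QuotientGroup.mk'_surjective _)
  have hA : Subgroup.zpowers (π g) ≤ Subgroup.centralizer (K : Set (G ⧸ coreU p G)) := by
    refine CoprimeAction.le_centralizer_of_frattini (by rw [Subgroup.normalizer_eq_top]; exact le_top) ?_ ?_
    · obtain ⟨k, hk⟩ := IsPGroup.iff_card.1
        ((((CfsgLib.Cores.isPGroup_pCore p G).map π).to_subgroup (frattini K)))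
      rw [Nat.card_zpowers, hk]
      exact (Nat.Coprime.coprime_dvd_left (orderOf_map_dvd π g) hg).pow_right k
    rintro a ⟨i, rfl⟩ _ ⟨x, hx, rfl⟩
    have h1 : ∀ v ∈ coreM p G, QuotientGroup.mk' (coreD p G) (g ^ i) * v =
        v * QuotientGroup.mk' (coreD p G) (g ^ i) :=
      (act_eq_one_iff _ _ actM_hc (g ^ i)).1 (by rw [map_zpow, map_zpow, h, one_zpow])
    have h2 : x⁻¹ * (g ^ i * x * (g ^ i)⁻¹) ∈ coreD p G := by
      rw [← QuotientGroup.eq_one_iff]
      show QuotientGroup.mk' (coreD p G) _ = 1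
      rw [map_mul, map_mul, map_mul, map_inv, map_inv, h1 _ (Subgroup.mem_map_of_mem _ hx)]
      group
    show (π x)⁻¹ * ((π g) ^ i * π x * ((π g) ^ i)⁻¹) ∈ _
    rw [← map_zpow, ← map_inv, ← map_inv, ← map_mul, ← map_mul, ← map_mul]
    obtain ⟨a, ⟨a', ha', rfl⟩, b, hb, hab⟩ := Subgroup.mem_sup_of_normal_right.1 h2
    rw [← hab, map_mul, show π b = 1 from (QuotientGroup.eq_one_iff b).2 hb, mul_one]
    refine ⟨⟨π a', Subgroup.mem_map_of_mem _ a'.2⟩, ?_, rfl⟩
    have := PGroups.map_frattini_eq (CfsgLib.Cores.isPGroup_pCore p G) (π.subgroupMap (pCore p G))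
      (π.subgroupMap_surjective _)
    exact this.le ⟨a', ha', rfl⟩
  have h3 := Subgroup.mem_centralizer_iff.1 (hA (Subgroup.mem_zpowers _)) (π q) (Subgroup.mem_map_of_mem _ hq)
  rw [← QuotientGroup.eq_one_iff]
  show π _ = 1
  rw [map_mul, map_mul, map_mul, map_inv, map_inv, ← h3]
  group

/-- Elements of the small core trivial on both sections are trivial. -/
theorem eq_one_of_act (hG : Subgroup.centralizer (pCore p G : Set G) ≤ pCore p G) (hp : p = 2 ∨ p = 3)
    {x : G ⧸ pCore p G} (hx : x ∈ smallCore p G) (hU : actU p G x = 1) (hM : actM p G x = 1) : x = 1 := by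
  obtain ⟨g₀, rfl⟩ := QuotientGroup.mk'_surjective (pCore p G) x
  obtain ⟨e, he, hge⟩ := CfsgLib.ConjFunctor.exists_coprime_lift (p := p) (QuotientGroup.mk' (pCore p G)) g₀
    ((smallCore_spec hp).2.coprime_dvd_left (Subgroup.orderOf_dvd_natCard _ hx))
  rw [← hge] at hU hM ⊢
  set g := g₀ ^ e
  refine (QuotientGroup.eq_one_iff g).2 (hG ?_)
  obtain ⟨k, hk⟩ := IsPGroup.iff_card.1 (isPGroup_coreU (p := p) (G := G))
  refine CoprimeAction.le_centralizer_of_series (A := Subgroup.zpowers g) (K := pCore p G) (N := coreU p G)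
    coreU_le (by rw [Nat.card_zpowers, hk]; exact he.pow_right k) ?_ ?_ (Subgroup.mem_zpowers g)
  · refine Subgroup.zpowers_le.2 (Subgroup.mem_centralizer_iff.2 fun u hu => ?_)
    exact ((act_eq_one_iff (MonoidHom.id G) (coreU p G) actU_hc g).1 hU u hu).symm
  · rintro a ⟨i, rfl⟩ q hq
    refine commutator_mem_coreU ?_ (by rw [map_zpow, map_zpow, hM, one_zpow]) hq
    exact he.coprime_dvd_left (Subgroup.orderOf_dvd_natCard _ (Subgroup.zpow_mem_zpowers g i) |>.trans (Nat.card_zpowers g).dvd)

theorem Facts.commutator_core_le_W (hF : Facts p E) (hV : Sect p E (pCoreOf p E) (blockW p E)) :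
    ⁅pCoreOf p E, pCore p G⁆ ≤ blockW p E := by
  have hQN : pCore p G ≤ Subgroup.normalizer (pCoreOf p E : Set G) :=
    hF.normal_core.trans (Cores.normalizer_le_normalizer_map_subtype E (pCore p E))
  have hQW := hF.normal_core.trans hF.le_normalizer_W
  set X := ⁅pCoreOf p E, pCore p G⁆ ⊔ blockW p E with hX
  have hXle : X ≤ pCoreOf p E := sup_le (CoprimeAction.commutator_le_left hQN) blockW_le
  have hEX : E ≤ Subgroup.normalizer (X : Set G) := fun e he => inf_normalizer_le_sup _ _
    ⟨TwoGroupTricks.normalizer_le_normalizer_commutator_left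
      ((Subgroup.normalizer_eq_top (pCore p G)).symm ▸ Subgroup.mem_top e)
      (hV.section_irred.normalizes he), hF.le_normalizer_W (Subgroup.le_normalizer he)⟩
  rcases hV.section_irred.irred X le_sup_right hXle hEX with h | h
  · exact le_sup_left.trans h.le
  · exfalso
    have hle := le_of_le_commutator_sup ((CfsgLib.Cores.isPGroup_pCore p E).map E.subtype)
      (CfsgLib.Cores.isPGroup_pCore p G) hQN hQW (le_normalizer_of_comm le_rfl fun _ hc _ hb => blockW_comm hc hb)
      blockW_le h.ge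
    exact hV.section_irred.nontriv ((CoprimeAction.commutator_le_left hV.section_irred.normalizes).trans hle)

/-- For an exceptional small block, `O_p(E) ∩ Φ(Q)U = W`. -/
theorem Facts.inf_coreD (hF : Facts p E) (hV : Sect p E (pCoreOf p E) (blockW p E))
    (hQQ : ⁅pCoreOf p E, pCoreOf p E⁆ = blockZ p E) : pCoreOf p E ⊓ coreD p G = blockW p E := by
  have hWD : blockW p E ≤ coreD p G := by
    refine hF.moduleFacts.2.2.2.ge.trans (sup_le (le_sup_of_le_right hF.omega_le) ?_)
    show blockZ p E ≤ _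
    rw [← hQQ]
    exact (Subgroup.commutator_mono hF.pCoreOf_le hF.pCoreOf_le).trans commutator_pCore_le_coreD
  have hEX : E ≤ Subgroup.normalizer ((pCoreOf p E ⊓ coreD p G : Subgroup G) : Set G) := fun e he =>
    TwoGroupTricks.normalizer_inf_le ⟨hV.section_irred.normalizes he,
      (Subgroup.normalizer_eq_top (coreD p G)).symm ▸ Subgroup.mem_top e⟩
  refine (hV.section_irred.irred _ (le_inf blockW_le hWD) inf_le_left hEX).resolve_right fun h => ?_
  refine hV.section_irred.nontriv ?_
  have hU : ⁅pCore p G, E⁆ ≤ coreU p G := by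
    refine commutator_le_of_residual hF.residual (by rw [Subgroup.normalizer_eq_top]; exact le_top)
      (by rw [Subgroup.normalizer_eq_top]; exact le_top) fun e he hcop v hv => ?_
    have h1 : actM p G (QuotientGroup.mk' (pCore p G) e) = 1 := by
      rw [act_eq_one_iff]
      rintro _ ⟨q, hq, rfl⟩
      rw [← commutatorElement_eq_one_iff_mul_comm, ← map_commutatorElement]
      refine (QuotientGroup.eq_one_iff _).2 ((h.ge.trans inf_le_right) (hF.comm_le ?_))
      rw [Subgroup.commutator_comm]; exact Subgroup.commutator_mem_commutator he hq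
    have h2 := commutator_mem_coreU hcop h1 (inv_mem hv)
    simpa [commutatorElement_def, mul_assoc] using h2
  intro x hx
  have hx' : x ∈ pCoreOf p E := CoprimeAction.commutator_le_left hV.section_irred.normalizes hx
  have hxU : x ∈ coreU p G := hU (Subgroup.commutator_mono hF.pCoreOf_le le_rfl hx)
  exact Subgroup.subset_closure ⟨⟨hx', fun q hq => coreU_comm (hF.pCoreOf_le hq) hxU⟩,
    omegaOneCenter_pow _ hxU⟩

theorem Facts.smallAct_M (hF : Facts p E) (hs : IsSmall p E) (hV : Sect p E (pCoreOf p E) (blockW p E))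
    (hQQ : ⁅pCoreOf p E, pCoreOf p E⁆ = blockZ p E) : SmallAct p ((quot p E).map (actM p G)) := by
  have hWD := hF.inf_coreD hV hQQ
  refine (smallAct_act (N := pCoreOf p E) (QuotientGroup.mk' (coreD p G)) (coreM p G) actM_hc hF hs hV
    hV.section_irred.normalizes (fun e he => hF.le_normalizer_W (Subgroup.le_normalizer he))
    (le_normalizer_of_comm le_rfl fun _ hc _ hb => blockW_comm hc hb) le_rfl le_sup_left ?_ ?_
    isPGroup_coreM).1
  · rw [QuotientGroup.ker_mk', hWD, inf_eq_right.2 blockW_le]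
  · rw [← Subgroup.map_commutator, Subgroup.commutator_comm, hF.commutator_core]

end CfsgLib.Replacement.Block
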