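import Cfsg.Agent.Lib.Replacement.Block.Exceptional

/-!
Two subnormal blocks are equal or commute elementwise.
-/

set_option autoImplicit false
set_option linter.style.haveILetI false

namespace CfsgLib.Replacement.Block

open Cfsg
open scoped commutatorElement

variable {G : Type*} [Group G] [Finite G] {p : ℕ} [Fact p.Prime]

theorem sup_map_spec (hp : p = 2 ∨ p = 3) {X : Type*} [Group X] (θ : (G ⧸ pCore p G) →* X)
    {A B : Subgroup (G ⧸ pCore p G)} (hA : A ≤ smallCore p G) (hB : B ≤ smallCore p G) :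
    Group.IsNilpotent (A.map θ ⊔ B.map θ : Subgroup X) ∧
      (Nat.card (A.map θ ⊔ B.map θ : Subgroup X)).Coprime p := by
  rw [← Subgroup.map_sup]
  obtain ⟨hnil, hcop⟩ := smallCore_spec (G := G) hp
  have hle : A ⊔ B ≤ smallCore p G := sup_le hA hB
  refine ⟨?_, (hcop.coprime_dvd_left (Subgroup.card_dvd_of_le hle)).coprime_dvd_left
    (Dvd.intro _ (card_map_mul_card_inf_ker θ (A ⊔ B)))⟩
  haveI := hnil
  haveI : Group.IsNilpotent ((A ⊔ B).subgroupOf (smallCore p G)) := Subgroup.isNilpotent _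
  haveI : Group.IsNilpotent (A ⊔ B : Subgroup (G ⧸ pCore p G)) :=
    Group.nilpotent_of_surjective (Subgroup.subgroupOfEquivOfLe hle).toMonoidHom
      (Subgroup.subgroupOfEquivOfLe hle).surjective
  exact Group.nilpotent_of_surjective (θ.subgroupMap (A ⊔ B)) (θ.subgroupMap_surjective _)

theorem IsSmall.card_eq {E F : Subgroup G} (hE : IsSmall p E) (hF : IsSmall p F) :
    Nat.card (quot p E) = Nat.card (quot p F) ∧ 1 < Nat.card (quot p E) := by
  rcases hE with ⟨h, h'⟩ | ⟨h, h'⟩ <;> rcases hF with ⟨k, k'⟩ | ⟨k, k'⟩ <;> omega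

/-- Two small blocks. -/
theorem small_small (hG : Subgroup.centralizer (pCore p G : Set G) ≤ pCore p G) {E F : Subgroup G}
    (hE : Facts p E) (hF : Facts p F) (hsE : IsSmall p E) (hsF : IsSmall p F) :
    quot p E = quot p F ∨ (⁅quot p E, quot p F⁆ = ⊥ ∧ ⁅blockWE p E, F⁆ = ⊥) := by
  have hp := hsE.two_or_three
  have hER := quot_le_smallCore hE.subnormal hsE
  have hFR := quot_le_smallCore hF.subnormal hsF
  obtain ⟨hA, hinjA⟩ := hE.smallAct_U hsE
  obtain ⟨hB, hinjB⟩ := hF.smallAct_U hsF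
  obtain ⟨hnilU, hcopU⟩ := sup_map_spec hp (actU p G) hER hFR
  have key := fun {K : Subgroup G} (hK : Facts p K) (hs : IsSmall p K) (h : pCoreOf p K ≠ blockW p K)
    {x : G ⧸ pCore p G} => hK.eq_one_of_actU_mem hG hs h (x := x)
  have hMsplit : pCoreOf p E ≠ blockW p E → pCoreOf p F ≠ blockW p F →
      (quot p E).map (actM p G) = (quot p F).map (actM p G) ∨
        ∀ a ∈ (quot p E).map (actM p G), ∀ b ∈ (quot p F).map (actM p G), a * b = b * a := by
    intro hne hne'
    obtain ⟨-, hQQ, hV, -⟩ := hE.dich.resolve_left hne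
    obtain ⟨-, hQQ', hV', -⟩ := hF.dich.resolve_left hne'
    obtain ⟨hnilM, hcopM⟩ := sup_map_spec hp (actM p G) hER hFR
    exact (eq_or_commute isPGroup_coreM coreM_comm' _ _ hnilM hcopM (hE.smallAct_M hsE hV hQQ)
      (hF.smallAct_M hsF hV' hQQ')).imp_right And.left
  rcases eq_or_commute isPGroup_coreU coreU_comm' _ _ hnilU hcopU hA hB with hAB | ⟨hcomm, hfix⟩
  · refine Or.inl (Subgroup.eq_of_le_of_card_ge ?_ (hsE.card_eq hsF).1.symm.le)
    intro e he
    obtain ⟨f, hf, hfe⟩ : actU p G e ∈ (quot p F).map (actU p G) := hAB ▸ Subgroup.mem_map_of_mem _ he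
    by_cases hexE : pCoreOf p E = blockW p E <;> by_cases hexF : pCoreOf p F = blockW p F
    · have := eq_one_of_act hG hp (mul_mem (inv_mem (hFR hf)) (hER he))
        (by rw [map_mul, map_inv, hfe, inv_mul_cancel])
        (by rw [map_mul, map_inv, hE.actM_eq_one hexE e he, hF.actM_eq_one hexF f hf, inv_one, one_mul])
      exact inv_mul_eq_one.1 this ▸ hf
    · rw [key hF hsF hexF (hER he) (hE.actM_eq_one hexE e he) ⟨f, hf, hfe⟩]
      exact one_mem _
    · exfalso
      have hbot : quot p F = ⊥ := (Subgroup.eq_bot_iff_forall _).2 fun x hx =>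
        key hE hsE hexE (hFR hx) (hF.actM_eq_one hexF x hx) (hAB.symm ▸ Subgroup.mem_map_of_mem _ hx)
      have := (hsF.card_eq hsE).2
      rw [hbot, Subgroup.card_bot] at this
      exact lt_irrefl 1 this
    · rcases hMsplit hexE hexF with hM | hM
      · obtain ⟨f', hf', hfe'⟩ : actM p G e ∈ (quot p F).map (actM p G) := hM ▸ Subgroup.mem_map_of_mem _ he
        have := key hF hsF hexF (mul_mem (inv_mem (hFR hf')) (hER he))
          (by rw [map_mul, map_inv, hfe', inv_mul_cancel])
          (by rw [map_mul, map_inv]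
              exact mul_mem (inv_mem (Subgroup.mem_map_of_mem _ hf')) ⟨f, hf, hfe⟩)
        exact inv_mul_eq_one.1 this ▸ hf'
      · exfalso
        have hp3 : p = 3 := (hE.dich.resolve_left hexE).1
        obtain ⟨_, ⟨a, ha, rfl⟩, _, hb', hne⟩ := hA.exists_not_commute isPGroup_coreU coreU_comm' hp3
          (quot_cop hE hsE _)
        obtain ⟨b, hb, rfl⟩ := hAB ▸ hb'
        refine hne ?_
        have h1 : ⁅a, b⁆ = 1 := by
          refine key hE hsE hexE ?_ ?_ ?_
          · rw [commutatorElement_def]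
            exact mul_mem (mul_mem (mul_mem (hER ha) (hFR hb)) (inv_mem (hER ha))) (inv_mem (hFR hb))
          · rw [map_commutatorElement, commutatorElement_eq_one_iff_mul_comm]
            exact hM _ (Subgroup.mem_map_of_mem _ ha) _ (Subgroup.mem_map_of_mem _ hb)
          · rw [map_commutatorElement, commutatorElement_def]
            have hb'' : actU p G b ∈ (quot p E).map (actU p G) := hAB.symm ▸ Subgroup.mem_map_of_mem _ hb
            exact mul_mem (mul_mem (mul_mem (Subgroup.mem_map_of_mem _ ha) hb'')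
              (inv_mem (Subgroup.mem_map_of_mem _ ha))) (inv_mem hb'')
        rw [← commutatorElement_eq_one_iff_mul_comm, ← map_commutatorElement, h1, map_one]
  · refine Or.inr ⟨?_, ?_⟩
    · rw [← le_bot_iff, Subgroup.commutator_le]
      intro e he f hf
      rw [Subgroup.mem_bot]
      set c := ⁅e, f⁆ with hc
      have hcR : c ∈ smallCore p G := by
        rw [hc, commutatorElement_def]
        exact mul_mem (mul_mem (mul_mem (hER he) (hFR hf)) (inv_mem (hER he))) (inv_mem (hFR hf))
      have hcU : actU p G c = 1 := by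
        rw [hc, map_commutatorElement, commutatorElement_eq_one_iff_mul_comm]
        exact hcomm _ (Subgroup.mem_map_of_mem _ he) _ (Subgroup.mem_map_of_mem _ hf)
      by_cases hexE : pCoreOf p E = blockW p E
      · exact eq_one_of_act hG hp hcR hcU (by
          rw [hc, map_commutatorElement, hE.actM_eq_one hexE e he, commutatorElement_one_left])
      by_cases hexF : pCoreOf p F = blockW p F
      · exact eq_one_of_act hG hp hcR hcU (by
          rw [hc, map_commutatorElement, hF.actM_eq_one hexF f hf, commutatorElement_one_right])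
      rcases hMsplit hexE hexF with hM | hM
      · obtain ⟨e', he', hec⟩ : actM p G c ∈ (quot p E).map (actM p G) := by
          rw [hc, map_commutatorElement, commutatorElement_def]
          have hf' : actM p G f ∈ (quot p E).map (actM p G) := hM.symm ▸ Subgroup.mem_map_of_mem _ hf
          exact mul_mem (mul_mem (mul_mem (Subgroup.mem_map_of_mem _ he) hf')
            (inv_mem (Subgroup.mem_map_of_mem _ he))) (inv_mem hf')
        have h1 : e'⁻¹ * c = 1 := key hE hsE hexE (mul_mem (inv_mem (hER he')) hcR)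
          (by rw [map_mul, map_inv, hec, inv_mul_cancel])
          (by rw [map_mul, map_inv, hcU, mul_one]; exact inv_mem (Subgroup.mem_map_of_mem _ he'))
        have h2 : e' = c := inv_mul_eq_one.1 h1
        rw [← h2]
        exact hinjA e' he' (h2.symm ▸ hcU)
      · exact eq_one_of_act hG hp hcR hcU (by
          rw [hc, map_commutatorElement, commutatorElement_eq_one_iff_mul_comm]
          exact hM _ (Subgroup.mem_map_of_mem _ he) _ (Subgroup.mem_map_of_mem _ hf))
    · rw [← le_bot_iff, Subgroup.commutator_le]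
      intro w hw f hf
      rw [← hE.moved_actU] at hw
      obtain ⟨u, hu, rfl⟩ := hw
      have h1 := congrArg Subtype.val (hfix u hu _ (Subgroup.mem_map_of_mem _ ⟨f, hf, rfl⟩))
      rw [act_apply, MonoidHom.id_apply, mul_inv_eq_iff_eq_mul] at h1
      rw [Subgroup.mem_bot, commutatorElement_eq_one_iff_mul_comm]
      exact h1.symm

theorem isComponent_quot {E : Subgroup G} (hE : Facts p E) (hs : ¬ IsSmall p E) :
    IsComponent (quot p E) :=
  ⟨quot_isSubnormal hE.subnormal, hE.shape.resolve_left hs⟩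

theorem quot_dichotomy (hG : Subgroup.centralizer (pCore p G : Set G) ≤ pCore p G) {E F : Subgroup G}
    (hE : Facts p E) (hF : Facts p F) :
    quot p E = quot p F ∨ (⁅quot p E, quot p F⁆ = ⊥ ∧ (IsSmall p E → IsSmall p F → ⁅blockWE p E, F⁆ = ⊥)) := by
  have hsolv : ∀ {K : Subgroup G}, Facts p K → IsSmall p K → Group.IsSolvable (quot p K) := fun {K} hK hs => by
    haveI := (smallCore_spec (G := G) hs.two_or_three).1
    exact CoprimeAction.isSolvable_of_le (quot_le_smallCore hK.subnormal hs)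
  by_cases hsE : IsSmall p E <;> by_cases hsF : IsSmall p F
  · exact (small_small hG hE hF hsE hsF).imp_right fun h => ⟨h.1, fun _ _ => h.2⟩
  · haveI := hsolv hE hsE
    refine Or.inr ⟨?_, fun _ h => absurd h hsF⟩
    rw [Subgroup.commutator_comm]
    exact (Cores.le_or_commutator_eq_bot (isComponent_quot hF hsF) (quot_isSubnormal hE.subnormal)).resolve_left
      (Cores.not_le_of_isSolvable (isComponent_quot hF hsF))
  · haveI := hsolv hF hsF
    refine Or.inr ⟨?_, fun h _ => absurd h hsE⟩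
    exact (Cores.le_or_commutator_eq_bot (isComponent_quot hE hsE) (quot_isSubnormal hF.subnormal)).resolve_left
      (Cores.not_le_of_isSolvable (isComponent_quot hE hsE))
  · by_cases h : quot p E = quot p F
    · exact Or.inl h
    · exact Or.inr ⟨Cores.commutator_components_eq_bot (isComponent_quot hE hsE) (isComponent_quot hF hsF) h,
        fun h' => absurd h' hsE⟩

omit [Fact p.Prime] in
theorem commutatorElement_act_trivial {E F V V₀ : Subgroup G} (hsec : TwoGroupTricks.IrreducibleSection E V V₀)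
    (hEV₀ : E ≤ Subgroup.normalizer (V₀ : Set G)) (hVV₀ : V ≤ Subgroup.normalizer (V₀ : Set G))
    (hab : ∀ a ∈ V, ∀ b ∈ V, ⁅a, b⁆ ∈ V₀)
    (hFV : F ≤ Subgroup.normalizer (V : Set G)) (hFV₀ : F ≤ Subgroup.normalizer (V₀ : Set G))
    (hEF : ∀ c ∈ ⁅E, F⁆, ∀ v ∈ V, ⁅c, v⁆ ∈ V₀) {f f' v : G} (hf : f ∈ F) (hf' : f' ∈ F) (hv : v ∈ V) :
    ⁅v, ⁅f, f'⁆⁆ ∈ V₀ := by
  set M := V₀.subgroupOf V with hM
  haveI : M.Normal := (Subgroup.normal_subgroupOf_iff_le_normalizer hsec.le).2 hVV₀
  letI : CommGroup (V ⧸ M) := { (inferInstance : Group (V ⧸ M)) with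
    mul_comm := fun a b => by
      induction a using QuotientGroup.induction_on
      induction b using QuotientGroup.induction_on
      rename_i a b
      rw [← commutatorElement_eq_one_iff_mul_comm]
      show ⁅(QuotientGroup.mk' M) a, (QuotientGroup.mk' M) b⁆ = 1
      rw [← map_commutatorElement]
      exact (QuotientGroup.eq_one_iff _).2 (hab a a.2 b b.2) }
  let N : Subgroup G := Subgroup.normalizer (V : Set G) ⊓ Subgroup.normalizer (V₀ : Set G)
  let c : N → (V →* V) := fun g =>
    { toFun := fun x => ⟨g * x * (g : G)⁻¹, (Subgroup.mem_normalizer_iff.1 g.2.1 _).1 x.2⟩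
      map_one' := Subtype.ext (by simp)
      map_mul' := fun x y => Subtype.ext (by simp [mul_assoc]) }
  let d : N → ((V ⧸ M) →* (V ⧸ M)) := fun g =>
    QuotientGroup.map M M (c g) fun x hx => (Subgroup.mem_normalizer_iff.1 g.2.2 _).1 hx
  have hd : ∀ (g : N) (x : V), d g (QuotientGroup.mk x) = QuotientGroup.mk (c g x) := fun g x => rfl
  let Φ : N →* AddMonoid.End (Additive (V ⧸ M)) :=
    { toFun := fun g => MonoidHom.toAdditive (d g)
      map_one' := AddMonoidHom.ext fun x => by
        obtain ⟨x, rfl⟩ := Additive.ofMul.surjective x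
        obtain ⟨x, rfl⟩ := QuotientGroup.mk_surjective x
        show Additive.ofMul (d 1 (QuotientGroup.mk x)) = Additive.ofMul (QuotientGroup.mk x)
        rw [hd]
        exact congrArg (fun z => Additive.ofMul (QuotientGroup.mk z)) (Subtype.ext (by simp [c]))
      map_mul' := fun g h => AddMonoidHom.ext fun x => by
        obtain ⟨x, rfl⟩ := Additive.ofMul.surjective x
        obtain ⟨x, rfl⟩ := QuotientGroup.mk_surjective x
        show Additive.ofMul (d (g * h) (QuotientGroup.mk x)) = Additive.ofMul (d g (d h (QuotientGroup.mk x)))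
        rw [hd, hd, hd]
        exact congrArg (fun z => Additive.ofMul (QuotientGroup.mk z)) (Subtype.ext (by simp [c, mul_assoc])) }
  have hEN : E ≤ N := le_inf hsec.normalizes hEV₀
  have hFN : F ≤ N := le_inf hFV hFV₀
  haveI : Nontrivial (Additive (V ⧸ M)) := by
    obtain ⟨x, hx, hx0⟩ : ∃ x ∈ V, x ∉ V₀ := by
      by_contra! h
      exact hsec.nontriv ((CoprimeAction.commutator_le_left hsec.normalizes).trans h)
    exact ⟨⟨0, Additive.ofMul (QuotientGroup.mk (⟨x, hx⟩ : V)), fun h =>
      hx0 ((QuotientGroup.eq_one_iff (⟨x, hx⟩ : V)).1 (Additive.ofMul.injective h).symm)⟩⟩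
  let Sset : Set (AddMonoid.End (Additive (V ⧸ M))) := {φ | ∃ e : G, ∃ he : e ∈ E, Φ ⟨e, hEN he⟩ = φ}
  have hirr : ∀ U : AddSubgroup (Additive (V ⧸ M)), (∀ φ ∈ Sset, ∀ x ∈ U, φ x ∈ U) → U = ⊥ ∨ U = ⊤ := by
    intro U hU
    let T : Subgroup G :=
      { carrier := {x | ∃ hx : x ∈ V, Additive.ofMul (QuotientGroup.mk (⟨x, hx⟩ : V) : V ⧸ M) ∈ U}
        one_mem' := ⟨one_mem V, U.zero_mem⟩
        mul_mem' := fun {x y} ⟨hx, h1⟩ ⟨hy, h2⟩ => ⟨mul_mem hx hy, U.add_mem h1 h2⟩
        inv_mem' := fun {x} ⟨hx, h1⟩ => ⟨inv_mem hx, U.neg_mem h1⟩ }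
    have hT0 : V₀ ≤ T := fun x hx => ⟨hsec.le hx, by
      rw [show (QuotientGroup.mk (⟨x, hsec.le hx⟩ : V) : V ⧸ M) = 1 from (QuotientGroup.eq_one_iff _).2 hx]
      exact U.zero_mem⟩
    have hTE : E ≤ Subgroup.normalizer (T : Set G) := fun e he =>
      Subgroup.mem_normalizer_fintype fun x ⟨hx, h1⟩ =>
        ⟨(Subgroup.mem_normalizer_iff.1 (hsec.normalizes he) x).1 hx, hU _ ⟨e, he, rfl⟩ _ h1⟩
    rcases hsec.irred T hT0 (fun x hx => hx.1) hTE with h | h
    · refine Or.inl (eq_bot_iff.2 fun x hx => ?_)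
      obtain ⟨x, rfl⟩ := Additive.ofMul.surjective x
      obtain ⟨x, rfl⟩ := QuotientGroup.mk_surjective x
      have : (x : G) ∈ V₀ := h ▸ (⟨x.2, hx⟩ : (x : G) ∈ T)
      rw [AddSubgroup.mem_bot, (QuotientGroup.eq_one_iff x).2 this]
      rfl
    · refine Or.inr (eq_top_iff.2 fun x _ => ?_)
      obtain ⟨x, rfl⟩ := Additive.ofMul.surjective x
      obtain ⟨x, rfl⟩ := QuotientGroup.mk_surjective x
      obtain ⟨_, hx⟩ : (x : G) ∈ T := h.symm ▸ x.2
      exact hx
  have hcentral : ∀ (g : G) (hg : g ∈ F), ∀ φ ∈ Sset, φ * Φ ⟨g, hFN hg⟩ = Φ ⟨g, hFN hg⟩ * φ := by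
    rintro g hg _ ⟨e, he, rfl⟩
    rw [← map_mul, ← map_mul]
    refine AddMonoidHom.ext fun x => ?_
    obtain ⟨x, rfl⟩ := Additive.ofMul.surjective x
    obtain ⟨x, rfl⟩ := QuotientGroup.mk_surjective x
    show Additive.ofMul (d _ (QuotientGroup.mk x)) = Additive.ofMul (d _ (QuotientGroup.mk x))
    rw [hd, hd]
    refine congrArg Additive.ofMul (QuotientGroup.eq.2 ?_)
    rw [hM, Subgroup.mem_subgroupOf, Subgroup.coe_mul, InvMemClass.coe_inv]
    show (e * g * x * (e * g)⁻¹)⁻¹ * (g * e * x * (g * e)⁻¹) ∈ V₀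
    have hw : g * e * (x : G) * (g * e)⁻¹ ∈ V := (Subgroup.mem_normalizer_iff.1
      ((Subgroup.normalizer (V : Set G)).mul_mem (hFV hg) (hsec.normalizes he)) _).1 x.2
    have h1 := hEF _ (Subgroup.commutator_mem_commutator he hg) _ (inv_mem hw)
    rw [commutatorElement_def, commutatorElement_def] at h1
    convert h1 using 1
    group
  have h := commute_of_irreducible Sset hirr (hcentral f hf) (hcentral f' hf')
  rw [← map_mul, ← map_mul] at h
  have h2 : Φ ⟨⁅f, f'⁆, N.mul_mem (N.mul_mem (N.mul_mem (hFN hf) (hFN hf')) (N.inv_mem (hFN hf)))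
      (N.inv_mem (hFN hf'))⟩ = 1 := by
    calc _ = Φ ((⟨f, hFN hf⟩ : N) * ⟨f', hFN hf'⟩ * ((⟨f', hFN hf'⟩ : N) * ⟨f, hFN hf⟩)⁻¹) :=
          congrArg Φ (Subtype.ext (by simp [commutatorElement_def, mul_assoc]))
      _ = _ := by rw [map_mul, h, ← map_mul, mul_inv_cancel, map_one]
  have h3 : Additive.ofMul (d _ (QuotientGroup.mk (⟨v, hv⟩ : V))) = Additive.ofMul (QuotientGroup.mk (⟨v, hv⟩ : V)) :=
    DFunLike.congr_fun h2 (Additive.ofMul (QuotientGroup.mk (⟨v, hv⟩ : V)))
  rw [hd] at h3
  have h4 := (Subgroup.mem_subgroupOf).1 (QuotientGroup.eq.1 (Additive.ofMul.injective h3).symm)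
  rw [Subgroup.coe_mul, InvMemClass.coe_inv] at h4
  change v⁻¹ * (⁅f, f'⁆ * v * ⁅f, f'⁆⁻¹) ∈ V₀ at h4
  have h5 := V₀.inv_mem ((Subgroup.mem_normalizer_iff.1 (hVV₀ hv) _).1 h4)
  convert h5 using 1
  simp [commutatorElement_def, mul_assoc]

theorem commutator_self_eq_of_not_small {F : Subgroup G} (hF : Facts p F) (hs : ¬ IsSmall p F) :
    ⁅F, F⁆ = F := by
  have hq : ⁅quot p F, quot p F⁆ = quot p F := Cores.commutator_self_eq_of_isComponent (isComponent_quot hF hs)
  have h1 : ⊤ ≤ _root_.commutator F ⊔ pCore p F := by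
    rintro ⟨x, hx⟩ -
    have h2 : F ≤ ⁅F, F⁆ ⊔ pCore p G := by
      have h3 : quot p F ≤ ⁅F, F⁆.map (QuotientGroup.mk' (pCore p G)) := by
        rw [Subgroup.map_commutator]; exact hq.ge
      rw [quot, Subgroup.map_le_map_iff, QuotientGroup.ker_mk'] at h3
      exact h3
    obtain ⟨a, ha, b, hb, hab⟩ := Subgroup.mem_sup_of_normal_right.1 (h2 hx)
    have haF : a ∈ F := Subgroup.commutator_le_self F ha
    have hbF : b ∈ F := by simpa [← hab] using F.mul_mem (F.inv_mem haF) hx
    obtain ⟨b', hb', rfl⟩ : b ∈ pCoreOf p F := inf_pCore_eq hF.subnormal ▸ ⟨hbF, hb⟩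
    have ha' : (⟨a, haF⟩ : F) ∈ _root_.commutator F := by
      rw [← Subgroup.map_subtype_commutator] at ha
      obtain ⟨a', ha', rfl⟩ := ha
      exact ha'
    rw [show (⟨x, hx⟩ : F) = ⟨a, haF⟩ * b' from Subtype.ext hab.symm]
    exact Subgroup.mul_mem_sup ha' hb'
  have hp : IsPGroup p (F ⧸ _root_.commutator F) := by
    intro z
    obtain ⟨z, rfl⟩ := QuotientGroup.mk'_surjective (_root_.commutator F) z
    obtain ⟨a, ha, b, hb, rfl⟩ := Subgroup.mem_sup_of_normal_left.1 (h1 (Subgroup.mem_top z))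
    obtain ⟨k, hk⟩ := Cores.isPGroup_pCore p F ⟨b, hb⟩
    exact ⟨k, by
      rw [map_mul, show QuotientGroup.mk' (_root_.commutator F) a = 1 from (QuotientGroup.eq_one_iff a).2 ha,
        one_mul, ← map_pow, show b ^ p ^ k = 1 from congrArg Subtype.val hk, map_one]⟩
  refine le_antisymm (Subgroup.commutator_le_self F) fun x hx => ?_
  rw [← Subgroup.map_subtype_commutator]
  refine ⟨⟨x, hx⟩, Transfer.pResidual_le_of_isPGroup hp ?_, rfl⟩
  rw [TwoGroupTricks.pResidual_eq_top hF.residual]
  exact Subgroup.mem_top _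

/-- A block with perfect image centralizes an irreducible section on which it commutes with `E`. -/
theorem commutator_le_of_not_small {E F V V₀ : Subgroup G} (hF : Facts p F) (hs : ¬ IsSmall p F)
    (hsec : TwoGroupTricks.IrreducibleSection E V V₀)
    (hEV₀ : E ≤ Subgroup.normalizer (V₀ : Set G)) (hVV₀ : V ≤ Subgroup.normalizer (V₀ : Set G))
    (hab : ∀ a ∈ V, ∀ b ∈ V, ⁅a, b⁆ ∈ V₀)
    (hFV : F ≤ Subgroup.normalizer (V : Set G)) (hFV₀ : F ≤ Subgroup.normalizer (V₀ : Set G))
    (hEF : ∀ c ∈ ⁅E, F⁆, ∀ v ∈ V, ⁅c, v⁆ ∈ V₀) : ⁅V, F⁆ ≤ V₀ := by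
  let S : Subgroup G :=
    { carrier := {g | g ∈ F ∧ ∀ v ∈ V, ⁅v, g⁆ ∈ V₀}
      one_mem' := ⟨one_mem F, fun v _ => by rw [commutatorElement_one_right]; exact one_mem _⟩
      mul_mem' := fun {a b} ha hb => ⟨mul_mem ha.1 hb.1, fun v hv => by
        rw [show ⁅v, a * b⁆ = ⁅v, a⁆ * (a * ⁅v, b⁆ * a⁻¹) by simp [commutatorElement_def, mul_assoc]]
        exact mul_mem (ha.2 v hv) ((Subgroup.mem_normalizer_iff.1 (hFV₀ ha.1) _).1 (hb.2 v hv))⟩
      inv_mem' := fun {a} ha => ⟨inv_mem ha.1, fun v hv => by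
        rw [show ⁅v, a⁻¹⁆ = a⁻¹ * ⁅v, a⁆⁻¹ * a by simp [commutatorElement_def, mul_assoc]]
        exact (Subgroup.mem_normalizer_iff''.1 (hFV₀ ha.1) _).1 (inv_mem (ha.2 v hv))⟩ }
  have hle : F ≤ S := (commutator_self_eq_of_not_small hF hs).ge.trans (Subgroup.commutator_le.2 fun f hf f' hf' =>
    ⟨Subgroup.commutator_le_self F (Subgroup.commutator_mem_commutator hf hf'),
      fun v hv => commutatorElement_act_trivial hsec hEV₀ hVV₀ hab hFV hFV₀ hEF hf hf' hv⟩)
  exact Subgroup.commutator_le.2 fun v hv f hf => (hle hf).2 v hv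

theorem Facts.card_WE {F : Subgroup G} (hF : Facts p F) (hs : IsSmall p F) : Nat.card (blockWE p F) = p ^ 2 := by
  rw [← hF.moved_actU, Subgroup.card_map_of_injective (Subgroup.subtype_injective _)]
  exact (hF.smallAct_U hs).1.card_moved

/-- The core of a block is centralized by a block normalizing it and centralizing its image. -/
theorem commutator_pCoreOf_eq_bot {E F : Subgroup G} (hE : Facts p E)
    (hF : Facts p F) (hFE : F ≤ Subgroup.normalizer (E : Set G)) (hEF : E ≤ Subgroup.normalizer (F : Set G))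
    (hcomm : ⁅E, F⁆ ≤ pCoreOf p E) (hsm : IsSmall p E → IsSmall p F → ⁅blockWE p E, F⁆ = ⊥) :
    ⁅pCoreOf p E, F⁆ = ⊥ := by
  have hFW := hFE.trans hE.le_normalizer_W
  have hFZ := hFE.trans hE.le_normalizer_Z
  have hFq : F ≤ Subgroup.normalizer (pCoreOf p E : Set G) :=
    hFE.trans (Cores.normalizer_le_normalizer_map_subtype E (pCore p E))
  have hEW : E ≤ Subgroup.normalizer (blockW p E : Set G) := hE.sectW.section_irred.normalizes
  have hEZ : E ≤ Subgroup.normalizer (blockZ p E : Set G) := fun e he => hE.le_normalizer_Z (Subgroup.le_normalizer he)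
  have hqW : pCoreOf p E ≤ Subgroup.normalizer (blockW p E : Set G) :=
    le_normalizer_of_comm le_rfl fun _ hc _ hb => blockW_comm hc hb
  have hcW : ∀ c ∈ pCoreOf p E, ∀ v ∈ blockW p E, ⁅c, v⁆ = 1 := fun c hc v hv =>
    commutatorElement_eq_one_iff_mul_comm.2 (blockW_comm hc hv)
  -- the first section
  have h1 : ⁅blockW p E, F⁆ ≤ blockZ p E := by
    by_cases hsF : IsSmall p F
    · have hWdecomp : ∀ X : Subgroup G, blockZ p E ≤ X → ⁅blockWE p E, F⁆ ≤ X →
          blockW p E ≤ Subgroup.normalizer (X : Set G) → ⁅blockW p E, F⁆ ≤ X := by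
        intro X hZX hWX hWN
        refine Subgroup.commutator_le.2 fun w hw f hf => ?_
        have hw' : w ∈ ((blockWE p E ⊔ blockZ p E : Subgroup G) : Set G) := by rw [hE.moduleFacts.2.2.2]; exact hw
        rw [Subgroup.coe_mul_of_left_le_normalizer_right _ _ (hE.moduleFacts.2.1.trans hE.W_le_normalizer_Z)] at hw'
        obtain ⟨v, hv, z, hz, rfl⟩ := hw'
        rw [show ⁅v * z, f⁆ = v * ⁅z, f⁆ * v⁻¹ * ⁅v, f⁆ by simp [commutatorElement_def, mul_assoc]]
        refine mul_mem ((Subgroup.mem_normalizer_iff.1 (hWN (hE.moduleFacts.2.1 hv)) _).1 (hZX ?_))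
          (hWX (Subgroup.commutator_mem_commutator hv hf))
        exact CoprimeAction.commutator_le_left hFZ (Subgroup.commutator_mem_commutator hz hf)
      by_cases hsE : IsSmall p E
      · exact hWdecomp _ le_rfl (by rw [hsm hsE hsF]; exact bot_le) hE.W_le_normalizer_Z
      · set X := ⁅blockW p E, F⁆ ⊔ blockZ p E with hX
        have hXW : X ≤ blockW p E := sup_le (CoprimeAction.commutator_le_left hFW) inf_le_left
        have hEX : E ≤ Subgroup.normalizer (X : Set G) := fun e he => inf_normalizer_le_sup _ _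
          ⟨TwoGroupTricks.normalizer_le_normalizer_commutator_left (hEF he) (hEW he), hEZ he⟩
        rcases hE.sectW.section_irred.irred X le_sup_right hXW hEX with h | h
        · exact le_sup_left.trans h.le
        · exfalso
          have hY : blockWE p F ≤ Subgroup.normalizer (blockZ p E : Set G) :=
            ((hF.moduleFacts.2.1.trans blockW_le).trans pCoreOf_le_self).trans hFZ
          have hle : blockW p E ≤ blockWE p F ⊔ blockZ p E := by
            refine h.ge.trans (sup_le ?_ le_sup_right)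
            have h2 : ⁅blockWE p E, F⁆ ≤ blockWE p F := by
              rw [← hF.commutator_coreU]; exact Subgroup.commutator_mono hE.omega_le le_rfl
            refine Subgroup.commutator_le.2 fun w hw f hf => ?_
            have hw' : w ∈ ((blockWE p E ⊔ blockZ p E : Subgroup G) : Set G) := by
              rw [hE.moduleFacts.2.2.2]; exact hw
            rw [Subgroup.coe_mul_of_left_le_normalizer_right _ _ (hE.moduleFacts.2.1.trans hE.W_le_normalizer_Z)] at hw'
            obtain ⟨v, hv, z, hz, rfl⟩ := hw'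
            rw [show ⁅v * z, f⁆ = v * ⁅z, f⁆ * v⁻¹ * ⁅v, f⁆ by simp [commutatorElement_def, mul_assoc],
              ← blockW_comm (blockW_le (hE.moduleFacts.2.1 hv))
                ((CoprimeAction.commutator_le_left hFZ (Subgroup.commutator_mem_commutator hz hf)).1) |>.symm,
              mul_inv_cancel_right]
            exact mul_mem (Subgroup.mem_sup_right
                (CoprimeAction.commutator_le_left hFZ (Subgroup.commutator_mem_commutator hz hf)))
              (Subgroup.mem_sup_left (h2 (Subgroup.commutator_mem_commutator hv hf)))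
          have hlt := hE.sectW.card_big hsE hsF.two_or_three
          have hc := CfsgLib.NormalPComplement.card_sup_mul_card_inf hY
          rw [hF.card_WE hsF] at hc
          have hle' := Subgroup.card_le_of_le hle
          have hpos : 0 < Nat.card ↥(blockWE p F ⊓ blockZ p E) := Nat.card_pos
          nlinarith [hlt, hc, hle', hpos]
    · refine commutator_le_of_not_small hF hsF hE.sectW.section_irred hEZ hE.W_le_normalizer_Z
        (fun a ha b hb => by rw [hcW a (blockW_le ha) b hb]; exact one_mem _) hFW hFZ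
        (fun c hc v hv => by rw [hcW c (hcomm hc) v hv]; exact one_mem _)
  have hWE : ⁅blockWE p E, F⁆ = ⊥ := by
    have h2 : ⁅⁅blockW p E, F⁆, E⁆ = ⊥ :=
      Subgroup.commutator_eq_bot_iff_le_centralizer.2 (h1.trans inf_le_right)
    have h3 : ⁅⁅F, E⁆, blockW p E⁆ = ⊥ := by
      rw [← le_bot_iff, Subgroup.commutator_le]
      intro c hc v hv
      rw [Subgroup.commutator_comm] at hc
      exact Subgroup.mem_bot.2 (hcW c (hcomm hc) v hv)
    have := Subgroup.commutator_commutator_eq_bot_of_rotate h2 h3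
    rwa [Subgroup.commutator_comm E] at this
  by_cases hne : pCoreOf p E = blockW p E
  · rw [hE.eq_WE hne]; exact hWE
  obtain ⟨hp3, hQQ, hV, -⟩ := hE.dich.resolve_left hne
  have hqE : IsPGroup p (pCoreOf p E) := (Cores.isPGroup_pCore p E).map E.subtype
  -- the second section
  have h2 : ⁅pCoreOf p E, F⁆ ≤ blockW p E := by
    have hab : ∀ a ∈ pCoreOf p E, ∀ b ∈ pCoreOf p E, ⁅a, b⁆ ∈ blockW p E := fun a ha b hb => by
      have : ⁅a, b⁆ ∈ blockZ p E := hQQ.le (Subgroup.commutator_mem_commutator ha hb)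
      exact this.1
    have hEF' : ∀ c ∈ ⁅E, F⁆, ∀ v ∈ pCoreOf p E, ⁅c, v⁆ ∈ blockW p E := fun c hc v hv => hab c (hcomm hc) v hv
    by_cases hsF : IsSmall p F
    swap
    · exact commutator_le_of_not_small hF hsF hV.section_irred hEW hqW hab hFq hFW hEF'
    set X := ⁅pCoreOf p E, F⁆ with hX
    have hXq : X ≤ pCoreOf p E := CoprimeAction.commutator_le_left hFq
    have hXF : X ≤ pCoreOf p F := by
      intro x hx
      rw [← inf_pCore_eq hF.subnormal]
      refine ⟨?_, hE.pCoreOf_le (hXq hx)⟩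
      have : ⁅E, F⁆ ≤ F := by rw [Subgroup.commutator_comm]; exact CoprimeAction.commutator_le_left hEF
      exact this (Subgroup.commutator_mono pCoreOf_le_self le_rfl hx)
    have hEX : E ≤ Subgroup.normalizer ((X ⊔ blockW p E : Subgroup G) : Set G) := fun e he =>
      inf_normalizer_le_sup _ _
        ⟨TwoGroupTricks.normalizer_le_normalizer_commutator_left (hEF he) (hV.section_irred.normalizes he), hEW he⟩
    rcases hV.section_irred.irred _ le_sup_right (sup_le hXq blockW_le) hEX with h | h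
    · exact le_sup_left.trans h.le
    exfalso
    have hWne : ¬ pCoreOf p E ≤ blockW p E := fun h' => hne (le_antisymm h' blockW_le)
    have hinf : ∀ x ∈ X, x ∈ blockW p F → x ∈ blockW p E := by
      intro x hx hxW
      refine Subgroup.subset_closure ⟨⟨hXq hx, Subgroup.mem_centralizer_iff.2 fun q hq => ?_⟩,
        omegaOneCenter_pow _ hxW⟩
      have hq' : q ∈ ((X ⊔ blockW p E : Subgroup G) : Set G) := by rw [h]; exact hq
      rw [Subgroup.coe_mul_of_left_le_normalizer_right _ _ (hXq.trans hqW)] at hq'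
      obtain ⟨a, ha, w, hw, rfl⟩ := hq'
      rw [mul_assoc, ← blockW_comm (hXq hx) hw, ← mul_assoc, blockW_comm (hXF ha) hxW, mul_assoc]
    have hFqN : pCoreOf p F ≤ Subgroup.normalizer (blockW p F : Set G) :=
      le_normalizer_of_comm le_rfl fun _ hc _ hb => blockW_comm hc hb
    have hineq : Nat.card (pCoreOf p E) * Nat.card (blockW p F) ≤ Nat.card (pCoreOf p F) * Nat.card (blockW p E) := by
      have c1 := CfsgLib.NormalPComplement.card_sup_mul_card_inf (B := blockW p E) (hXq.trans hqW)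
      have c2 := CfsgLib.NormalPComplement.card_sup_mul_card_inf (B := blockW p F) (hXF.trans hFqN)
      rw [h] at c1
      have c3 : Nat.card ↥(X ⊔ blockW p F) ≤ Nat.card (pCoreOf p F) :=
        Subgroup.card_le_of_le (sup_le hXF blockW_le)
      have c4 : Nat.card ↥(X ⊓ blockW p F) ≤ Nat.card ↥(X ⊓ blockW p E) :=
        Subgroup.card_le_of_le fun x hx => ⟨hx.1, hinf x hx.1 hx.2⟩
      have hpos : 0 < Nat.card ↥(X ⊓ blockW p F) := Nat.card_pos
      refine Nat.le_of_mul_le_mul_right ?_ hpos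
      calc Nat.card (pCoreOf p E) * Nat.card (blockW p F) * Nat.card ↥(X ⊓ blockW p F)
          ≤ Nat.card (pCoreOf p E) * Nat.card ↥(X ⊓ blockW p E) * Nat.card (blockW p F) := by
            rw [mul_right_comm]; exact Nat.mul_le_mul_right _ (Nat.mul_le_mul_left _ c4)
        _ = Nat.card X * Nat.card (blockW p F) * Nat.card (blockW p E) := by rw [c1]; ring
        _ ≤ Nat.card (pCoreOf p F) * Nat.card ↥(X ⊓ blockW p F) * Nat.card (blockW p E) := by
            rw [← c2]; exact Nat.mul_le_mul_right _ (Nat.mul_le_mul_right _ c3)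
        _ = _ := by ring
    by_cases hneF : pCoreOf p F = blockW p F
    · rw [hneF, mul_comm] at hineq
      refine hWne (Subgroup.eq_of_le_of_card_ge blockW_le ?_).ge
      exact Nat.le_of_mul_le_mul_left hineq Nat.card_pos
    obtain ⟨-, hQQF, hVF, -⟩ := hF.dich.resolve_left hneF
    by_cases hsE : IsSmall p E
    swap
    · have hlt := hV.card_big hsE (Or.inr hp3)
      rw [hVF.card_small hsF] at hineq
      have : Nat.card (pCoreOf p E) ≤ p ^ 2 * Nat.card (blockW p E) := by
        refine Nat.le_of_mul_le_mul_right (c := Nat.card (blockW p F)) ?_ Nat.card_pos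
        calc _ ≤ _ := hineq
          _ = _ := by ring
      exact absurd this (not_le.2 hlt)
    -- both exceptional and small
    have hFF : ∀ f ∈ F, ∀ f' ∈ F, ∀ v ∈ pCoreOf p F, ⁅v, ⁅f, f'⁆⁆ ∈ blockW p F := by
      have hFqF : F ≤ Subgroup.normalizer (pCoreOf p F : Set G) := hVF.section_irred.normalizes
      have hFWF : F ≤ Subgroup.normalizer (blockW p F : Set G) := fun f hf =>
        hF.le_normalizer_W (Subgroup.le_normalizer hf)
      have hFX : F ≤ Subgroup.normalizer (X : Set G) :=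
        le_sup_right.trans (CoprimeAction.sup_le_normalizer_commutator F (pCoreOf p E))
      have hXF' : pCoreOf p F ≤ X ⊔ blockW p F := by
        refine ((hVF.section_irred.irred _ le_sup_right (sup_le hXF blockW_le)
          (le_trans (le_inf hFX hFWF) (inf_normalizer_le_sup _ _))).resolve_left fun h' => ?_).ge
        refine hWne (h.ge.trans (sup_le (fun x hx => hinf x hx (h'.le (Subgroup.mem_sup_left hx))) le_rfl))
      intro f hf f' hf' v hv
      have hcm : ⁅f, f'⁆ ∈ F := Subgroup.commutator_le_self F (Subgroup.commutator_mem_commutator hf hf')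
      have hv' := hXF' hv
      rw [← SetLike.mem_coe, Subgroup.coe_mul_of_left_le_normalizer_right _ _ (hXF.trans hFqN)] at hv'
      obtain ⟨a, ha, w, hw, rfl⟩ := hv'
      rw [show ⁅a * w, ⁅f, f'⁆⁆ = a * ⁅w, ⁅f, f'⁆⁆ * a⁻¹ * ⁅a, ⁅f, f'⁆⁆ by simp [commutatorElement_def, mul_assoc]]
      refine mul_mem ((Subgroup.mem_normalizer_iff.1 (hFqN (hXF ha)) _).1
        (CoprimeAction.commutator_le_left hFWF (Subgroup.commutator_mem_commutator hw hcm))) ?_
      set x := ⁅a, ⁅f, f'⁆⁆
      have hxW : x ∈ blockW p E := commutatorElement_act_trivial hV.section_irred hEW hqW hab hFq hFW hEF' hf hf' (hXq ha)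
      have hxX : x ∈ X := CoprimeAction.commutator_le_left hFX (Subgroup.commutator_mem_commutator ha hcm)
      refine Subgroup.subset_closure ⟨⟨hXF hxX, Subgroup.mem_centralizer_iff.2 fun q hq => ?_⟩,
        omegaOneCenter_pow _ hxW⟩
      have hq' : q ∈ ((X ⊔ blockW p F : Subgroup G) : Set G) := hXF' hq
      rw [Subgroup.coe_mul_of_left_le_normalizer_right _ _ (hXF.trans hFqN)] at hq'
      obtain ⟨b, hb, w', hw', rfl⟩ := hq'
      rw [mul_assoc, ← blockW_comm (hXF hxX) hw', ← mul_assoc, blockW_comm (hXq hb) hxW, mul_assoc]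
    obtain ⟨hB, -⟩ := hF.smallAct_U hsF
    obtain ⟨_, ⟨_, ⟨f, hf, rfl⟩, rfl⟩, _, ⟨_, ⟨f', hf', rfl⟩, rfl⟩, hab'⟩ :=
      hB.exists_not_commute isPGroup_coreU coreU_comm' hp3 (quot_cop hF hsF _)
    set g := ⁅f, f'⁆ with hg
    have hgF : g ∈ F := Subgroup.commutator_le_self F (Subgroup.commutator_mem_commutator hf hf')
    have hgQ : g ∉ pCore p G := fun hgQ => hab' (by
      rw [← commutatorElement_eq_one_iff_mul_comm, ← map_commutatorElement, ← map_commutatorElement,
        show QuotientGroup.mk' (pCore p G) ⁅f, f'⁆ = 1 from (QuotientGroup.eq_one_iff _).2 hgQ, map_one])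
    have hgtriv : ∀ v ∈ pCoreOf p F, ⁅v, g⁆ ∈ blockW p F := fun v hv => hFF f hf f' hf' v hv
    obtain ⟨g₁, hg₁F, hg₁2, hg₁Q, hg₁t⟩ : ∃ g₁ ∈ F, g₁ ^ 2 ∈ pCore p G ∧ g₁ ∉ pCore p G ∧
        ∀ v ∈ pCoreOf p F, ⁅v, g₁⁆ ∈ blockW p F := by
      by_cases h2 : g ^ 2 ∈ pCore p G
      · exact ⟨g, hgF, h2, hgQ, hgtriv⟩
      refine ⟨g ^ 2, pow_mem hgF 2, by rw [← pow_mul]; exact hF.pow_four hsF hp3 g hgF, h2, fun v hv => ?_⟩
      rw [pow_two, show ⁅v, g * g⁆ = ⁅v, g⁆ * (g * ⁅v, g⁆ * g⁻¹) by simp [commutatorElement_def, mul_assoc]]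
      exact mul_mem (hgtriv v hv)
        ((Subgroup.mem_normalizer_iff.1 (hF.le_normalizer_W (Subgroup.le_normalizer hgF)) _).1 (hgtriv v hv))
    refine hneF (le_antisymm (fun v hv => ?_) blockW_le)
    have h3 := ((hVF.invol hsF hp3 g₁ hg₁F hg₁2).resolve_left hg₁Q) v hv
    have h4 : v ^ 2 ∈ blockW p F := by
      have := mul_mem (hg₁t v hv) h3
      rwa [show ⁅v, g₁⁆ * (g₁ * v * g₁⁻¹ * v) = v * (g₁ * v⁻¹ * g₁⁻¹) * (g₁ * v * g₁⁻¹) * v by
        simp [commutatorElement_def, mul_assoc], show v * (g₁ * v⁻¹ * g₁⁻¹) * (g₁ * v * g₁⁻¹) * v = v ^ 2 by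
        rw [pow_two]; group] at this
    obtain ⟨k, hk⟩ := (Cores.isPGroup_pCore p F).map F.subtype ⟨v, hv⟩
    have h5 : v ^ p ^ k = 1 := congrArg Subtype.val hk
    have hcop : Nat.Coprime 2 (orderOf v) := by
      refine Nat.Coprime.coprime_dvd_right (orderOf_dvd_of_pow_eq_one h5) ?_
      subst hp3; exact Nat.Coprime.pow_right k (by decide)
    obtain ⟨m, hm⟩ := exists_pow_eq_self_of_coprime hcop
    rw [← hm]; exact pow_mem h4 m
  have hZ : ⁅blockZ p E, F⁆ = ⊥ := by
    have e1 : ⁅⁅pCoreOf p E, F⁆, pCoreOf p E⁆ = ⊥ := by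
      rw [← le_bot_iff, Subgroup.commutator_le]
      intro c hc v hv
      rw [Subgroup.mem_bot, ← commutatorElement_inv, hcW v hv c (h2 hc), inv_one]
    have e2 : ⁅⁅F, pCoreOf p E⁆, pCoreOf p E⁆ = ⊥ := by rw [Subgroup.commutator_comm F]; exact e1
    have := Subgroup.commutator_commutator_eq_bot_of_rotate e1 e2
    rwa [hQQ] at this
  have hW : F ≤ Subgroup.centralizer (blockW p E : Set G) := by
    intro f hf
    refine Subgroup.mem_centralizer_iff.2 fun w hw => ?_
    have hw' : w ∈ ((blockWE p E ⊔ blockZ p E : Subgroup G) : Set G) := by rw [hE.moduleFacts.2.2.2]; exact hw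
    rw [Subgroup.coe_mul_of_left_le_normalizer_right _ _ (hE.moduleFacts.2.1.trans hE.W_le_normalizer_Z)] at hw'
    obtain ⟨v, hv, z, hz, rfl⟩ := hw'
    have e1 : v * f = f * v := commutatorElement_eq_one_iff_mul_comm.1
      (Subgroup.mem_bot.1 (hWE ▸ Subgroup.commutator_mem_commutator hv hf))
    have e2 : z * f = f * z := commutatorElement_eq_one_iff_mul_comm.1
      (Subgroup.mem_bot.1 (hZ ▸ Subgroup.commutator_mem_commutator hz hf))
    rw [mul_assoc, e2, ← mul_assoc, e1, mul_assoc]
  rw [← le_bot_iff]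
  refine commutator_le_of_residual hF.residual hFq ?_ fun f hf hcop v hv => ?_
  · rw [Subgroup.normalizer_eq_top]; exact le_top
  obtain ⟨k, hk⟩ := IsPGroup.iff_card.1 (hqE.to_le blockW_le)
  have hle : Subgroup.zpowers f ≤ F := Subgroup.zpowers_le.2 hf
  have := CoprimeAction.le_centralizer_of_series (blockW_le (p := p) (E := E))
    (by rw [Nat.card_zpowers, hk]; exact hcop.pow_right k) (hle.trans hW) (fun a ha q hq => by
      have := h2 (Subgroup.commutator_mem_commutator (inv_mem hq) (hle ha))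
      simpa [commutatorElement_def, mul_assoc] using this) (Subgroup.mem_zpowers f)
  exact Subgroup.mem_bot.2 (commutatorElement_eq_one_iff_mul_comm.2 (Subgroup.mem_centralizer_iff.1 this v hv))

/-- Two subnormal blocks are equal or commute. -/
theorem eq_or_commute_blocks (hG : Subgroup.centralizer (pCore p G : Set G) ≤ pCore p G) {E F : Subgroup G}
    (hE : Facts p E) (hF : Facts p F) : E = F ∨ ⁅E, F⁆ = ⊥ := by
  rcases quot_dichotomy hG hE hF with h | ⟨h, hsm⟩
  · refine Or.inl ?_
    have h' := congrArg (Subgroup.comap (QuotientGroup.mk' (pCore p G))) h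
    rw [quot, quot, Subgroup.comap_map_eq, Subgroup.comap_map_eq, QuotientGroup.ker_mk'] at h'
    rw [← hE.sup_core, ← hF.sup_core, h']
  refine Or.inr ?_
  have hQ : ⁅E, F⁆ ≤ pCore p G := by
    rw [quot, quot, ← Subgroup.map_commutator, Subgroup.map_eq_bot_iff, QuotientGroup.ker_mk'] at h
    exact h
  have hnorm : ∀ {K L : Subgroup G}, Facts p K → ⁅K, L⁆ ≤ pCore p G → L ≤ Subgroup.normalizer (K : Set G) := by
    intro K L hK hKL l hl
    haveI := Transfer.pResidual_characteristic (p := p) (G := ↥(K ⊔ pCore p G))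
    have hl' : l ∈ Subgroup.normalizer ((K ⊔ pCore p G : Subgroup G) : Set G) :=
      Subgroup.mem_normalizer_fintype fun z hz => by
        have h2 : K ⊔ pCore p G ≤ (K ⊔ pCore p G).comap (MulAut.conj l).toMonoidHom :=
          sup_le (fun k hk => by
            show l * k * l⁻¹ ∈ K ⊔ pCore p G
            rw [show l * k * l⁻¹ = ⁅k, l⁆⁻¹ * k by simp [commutatorElement_def, mul_assoc]]
            exact mul_mem (Subgroup.mem_sup_right (inv_mem (hKL (Subgroup.commutator_mem_commutator hk hl))))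
              (Subgroup.mem_sup_left hk))
            fun q hq => Subgroup.mem_sup_right (Subgroup.Normal.conj_mem inferInstance q hq l)
        exact h2 hz
    have := Cores.normalizer_le_normalizer_map_subtype (K ⊔ pCore p G) (pResidual p _) hl'
    rwa [show (pResidual p ↥(K ⊔ pCore p G)).map (K ⊔ pCore p G).subtype = K from hK.sup_core] at this
  have hFE := hnorm hE hQ
  have hEF := hnorm hF (Subgroup.commutator_comm E F ▸ hQ)
  have hcomm : ⁅E, F⁆ ≤ pCoreOf p E := by
    rw [← inf_pCore_eq hE.subnormal]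
    exact le_inf (CoprimeAction.commutator_le_left hFE) hQ
  have hq := commutator_pCoreOf_eq_bot hE hF hFE hEF hcomm hsm
  rw [← le_bot_iff]
  refine commutator_le_of_residual hF.residual hFE (by rw [Subgroup.normalizer_eq_top]; exact le_top)
    fun f hf hcop v hv => ?_
  obtain ⟨k, hk⟩ : ∃ k : ℕ, Nat.card (pCoreOf p E) = p ^ k :=
    IsPGroup.iff_card.1 ((Cores.isPGroup_pCore p E).map E.subtype)
  have hle : Subgroup.zpowers f ≤ F := Subgroup.zpowers_le.2 hf
  have hcen : F ≤ Subgroup.centralizer (pCoreOf p E : Set G) := by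
    rw [Subgroup.commutator_comm] at hq
    exact Subgroup.commutator_eq_bot_iff_le_centralizer.1 hq
  have := CoprimeAction.le_centralizer_of_series (pCoreOf_le_self (p := p) (E := E))
    (by rw [Nat.card_zpowers, hk]; exact hcop.pow_right k) (hle.trans hcen) (fun a ha q hq => by
      have := hcomm (Subgroup.commutator_mem_commutator (inv_mem hq) (hle ha))
      simpa [commutatorElement_def, mul_assoc] using this) (Subgroup.mem_zpowers f)
  exact Subgroup.mem_bot.2 (commutatorElement_eq_one_iff_mul_comm.2 (Subgroup.mem_centralizer_iff.1 this v hv))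

end CfsgLib.Replacement.Block
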