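import Cfsg.Agent.Lib.Replacement.Block.Facts
import Cfsg.Agent.Lib.Replacement.Block.Tools
import Cfsg.Agent.Lib.NormalPComplement.Replacement

/-!
The action of `G/O_p(G)` on an abelian section centralized by `O_p(G)`, and the planar action of a small block on it.
-/

set_option autoImplicit false
set_option linter.style.haveILetI false

namespace CfsgLib.Replacement.Block

open Cfsg
open scoped commutatorElement

variable {G : Type*} [Group G] [Finite G] {p : ℕ} [Fact p.Prime]

omit [Finite G] in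
theorem card_map_mul_card_inf_ker {H : Type*} [Group H] (f : G →* H) (K : Subgroup G) :
    Nat.card (K.map f) * Nat.card ↥(K ⊓ f.ker) = Nat.card K := by
  have h1 : (f.comp K.subtype).range = K.map f := by
    rw [MonoidHom.range_comp, Subgroup.range_subtype]
  have h2 : (f.comp K.subtype).ker.map K.subtype = K ⊓ f.ker := by
    rw [← MonoidHom.comap_ker, Subgroup.map_comap_eq, Subgroup.range_subtype]
  rw [← h1, ← h2, Subgroup.card_map_of_injective K.subtype_injective, ← Subgroup.index_ker,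
    mul_comm, Subgroup.card_mul_index]

/-- The core of `G/O_p(G)` containing all small blocks: the `3`-core for `p = 2`, the `2`-core for `p = 3`. -/
def smallCore (p : ℕ) (G : Type*) [Group G] : Subgroup (G ⧸ pCore p G) := pCore (5 - p) (G ⧸ pCore p G)

instance (p : ℕ) (G : Type*) [Group G] : (smallCore p G).Normal := inferInstanceAs (pCore (5 - p) (G ⧸ pCore p G)).Normal

theorem smallCore_spec (hp : p = 2 ∨ p = 3) :
    Group.IsNilpotent (smallCore p G) ∧ (Nat.card (smallCore p G)).Coprime p := by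
  haveI : Fact (5 - p).Prime := ⟨by rcases hp with rfl | rfl <;> norm_num⟩
  have h : IsPGroup (5 - p) (smallCore p G) := CfsgLib.Cores.isPGroup_pCore _ _
  refine ⟨h.isNilpotent, ?_⟩
  obtain ⟨k, hk⟩ := IsPGroup.iff_card.1 h
  rw [hk]
  refine Nat.Coprime.pow_left _ ?_
  rcases hp with rfl | rfl <;> decide

theorem IsSmall.two_or_three {E : Subgroup G} (hs : IsSmall p E) : p = 2 ∨ p = 3 := by
  rcases hs with ⟨h, -⟩ | ⟨h, -⟩ <;> simp [h]

theorem quot_isSubnormal {E : Subgroup G} (hEs : E.IsSubnormal) : (quot p E).IsSubnormal :=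
  Subgroup.IsSubnormal.map (QuotientGroup.mk'_surjective _) hEs

theorem quot_le_smallCore {E : Subgroup G} (hEs : E.IsSubnormal) (hs : IsSmall p E) :
    quot p E ≤ smallCore p G := by
  haveI : Fact (5 - p).Prime := ⟨by rcases hs.two_or_three with rfl | rfl <;> norm_num⟩
  refine CfsgLib.Cores.le_pCore_of_subnormal (quot_isSubnormal hEs) ?_
  rcases hs with ⟨rfl, h⟩ | ⟨rfl, h⟩
  · exact IsPGroup.of_card (n := 1) (by rw [h]; norm_num)
  · exact IsPGroup.of_card (n := 3) (by rw [h]; norm_num)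

section act

variable {H : Type*} [Group H] (π : G →* H) (V : Subgroup H) [V.Normal]
  (hc : ∀ q ∈ pCore p G, ∀ v ∈ V, π q * v = v * π q)

/-- `G/O_p(G)` acting on `V` through `π`. -/
noncomputable def act : (G ⧸ pCore p G) →* MulAut V :=
  QuotientGroup.lift (pCore p G) ((MulAut.conjNormal : H →* MulAut V).comp π) fun q hq =>
    MulEquiv.ext fun v => Subtype.ext (by simp [hc q hq v v.2])

omit [Finite G] [Fact p.Prime] in
theorem act_apply (g : G) (v : V) :
    ((act π V hc (QuotientGroup.mk' (pCore p G) g) v : V) : H) = π g * v * (π g)⁻¹ := rfl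

omit [Finite G] [Fact p.Prime] in
theorem act_eq_one_iff (g : G) :
    act π V hc (QuotientGroup.mk' (pCore p G) g) = 1 ↔ ∀ v ∈ V, π g * v = v * π g := by
  refine ⟨fun h v hv => ?_, fun h => MulEquiv.ext fun v => Subtype.ext ?_⟩
  · have := congrArg Subtype.val (MulEquiv.congr_fun h ⟨v, hv⟩)
    rw [act_apply] at this
    exact mul_inv_eq_iff_eq_mul.1 this
  · rw [act_apply]
    exact mul_inv_eq_iff_eq_mul.2 (h v v.2)

omit [Finite G] [Fact p.Prime] in
theorem map_moved_act (E : Subgroup G) :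
    (moved ((quot p E).map (act π V hc))).map V.subtype = ⁅E.map π, V⁆ := by
  rw [moved, MonoidHom.map_closure, Subgroup.commutator_def]
  congr 1
  ext z
  constructor
  · rintro ⟨_, ⟨_, ⟨_, ⟨e, he, rfl⟩, rfl⟩, u, rfl⟩, rfl⟩
    refine ⟨π e, ⟨e, he, rfl⟩, u, u.2, ?_⟩
    simp [commutatorElement_def]
    rfl
  · rintro ⟨_, ⟨e, he, rfl⟩, u, hu, rfl⟩
    exact ⟨_, ⟨_, ⟨_, ⟨e, he, rfl⟩, rfl⟩, ⟨u, hu⟩, rfl⟩, by simp [commutatorElement_def]; rfl⟩

/-- A small block acts as a minimal planar action, faithfully modulo `O_p(G)`. -/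
theorem smallAct_act {E Vs V₀ N : Subgroup G} (hF : Facts p E) (hs : IsSmall p E)
    (hS : Sect p E Vs V₀) (hEN : E ≤ Subgroup.normalizer (N : Set G))
    (hEV₀ : E ≤ Subgroup.normalizer (V₀ : Set G)) (hNV₀ : N ≤ Subgroup.normalizer (V₀ : Set G))
    (hNV : N ≤ Vs) (hsup : Vs ≤ N ⊔ V₀) (hker : N ⊓ V₀ = N ⊓ π.ker)
    (hN : N.map π = ⁅E.map π, V⁆) (hV : IsPGroup p V) :
    SmallAct p ((quot p E).map (act π V hc)) ∧ ∀ x ∈ quot p E, act π V hc x = 1 → x = 1 := by
  have hsec := hS.section_irred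
  have hle : N ⊔ V₀ = Vs := le_antisymm (sup_le hNV hsec.le) hsup
  have hmoved := map_moved_act π V hc E
  rw [← hN] at hmoved
  have hcard : Nat.card (moved ((quot p E).map (act π V hc))) = p ^ 2 := by
    rw [← Subgroup.card_map_of_injective V.subtype_injective, hmoved]
    have h1 := card_map_mul_card_inf_ker π N
    have h2 := CfsgLib.NormalPComplement.card_sup_mul_card_inf hNV₀
    rw [hle, hS.card_small hs, hker, ← h1] at h2
    have hv : 0 < Nat.card ↥(N ⊓ π.ker) * Nat.card V₀ := Nat.mul_pos Nat.card_pos Nat.card_pos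
    refine Nat.eq_of_mul_eq_mul_right hv ?_
    rw [← mul_assoc, ← mul_assoc, ← h2]
    ring
  have hne : moved ((quot p E).map (act π V hc)) ≠ ⊥ := fun h => by
    rw [h, Subgroup.card_bot] at hcard
    have := Nat.one_lt_pow two_ne_zero (Fact.out : p.Prime).one_lt
    omega
  have hinv : p = 3 → ∀ e ∈ E, e ^ 2 ∈ pCore p G → e ∉ pCore p G → ∀ v ∈ N,
      π e * π v * (π e)⁻¹ = (π v)⁻¹ := by
    intro hp e he he2 henot v hv
    have h1 := ((hS.invol hs hp e he he2).resolve_left henot) v (hNV hv)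
    have h2 : e * v * e⁻¹ * v ∈ N ⊓ π.ker :=
      hker ▸ ⟨mul_mem ((Subgroup.mem_normalizer_iff.1 (hEN he) v).1 hv) hv, h1⟩
    have h3 : π (e * v * e⁻¹ * v) = 1 := MonoidHom.mem_ker.1 h2.2
    rw [map_mul, map_mul, map_mul, map_inv] at h3
    exact eq_inv_of_mul_eq_one_left h3
  have hinj : ∀ x ∈ quot p E, act π V hc x = 1 → x = 1 := by
    intro x hx hx1
    by_contra hne1
    refine hne ?_
    rcases hs with ⟨hp, h3⟩ | ⟨hp, h8⟩
    · have htop : Subgroup.zpowers x = quot p E := by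
        haveI := Fact.mk Nat.prime_three
        refine Subgroup.eq_of_le_of_card_ge (Subgroup.zpowers_le.2 hx) ?_
        rw [h3, Nat.card_zpowers]
        have hdvd : orderOf x ∣ 3 := h3 ▸ Subgroup.orderOf_dvd_natCard _ hx
        exact ((Nat.prime_three.eq_one_or_self_of_dvd _ hdvd).resolve_left
          (fun h => hne1 (orderOf_eq_one_iff.1 h))).ge
      rw [← htop, MonoidHom.map_zpowers, hx1, Subgroup.zpowers_one_eq_bot, moved, Subgroup.closure_eq_bot_iff]
      rintro _ ⟨a, ha, u, rfl⟩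
      obtain rfl := Subgroup.mem_bot.1 ha
      simp
    · -- an involution acting trivially would invert and fix the plane
      obtain ⟨e, he, rfl⟩ := hx
      have hs' : IsSmall p E := Or.inr ⟨hp, h8⟩
      obtain ⟨e', he', he'2, he'not, hact'⟩ : ∃ e' ∈ E, e' ^ 2 ∈ pCore p G ∧ e' ∉ pCore p G ∧
          act π V hc (QuotientGroup.mk' (pCore p G) e') = 1 := by
        by_cases h2 : e ^ 2 ∈ pCore p G
        · exact ⟨e, he, h2, fun h => hne1 ((QuotientGroup.eq_one_iff e).2 h), hx1⟩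
        · refine ⟨e ^ 2, pow_mem he 2, ?_, h2, by rw [map_pow, map_pow, hx1, one_pow]⟩
          rw [← pow_mul]
          exact hF.pow_four hs' hp e he
      rw [eq_bot_iff, ← Subgroup.map_le_map_iff_of_injective V.subtype_injective, hmoved, Subgroup.map_bot]
      rintro _ ⟨v, hv, rfl⟩
      have hvV : π v ∈ V := by
        have : π v ∈ ⁅E.map π, V⁆ := hN ▸ Subgroup.mem_map_of_mem π hv
        exact Subgroup.commutator_le_right (E.map π) V this
      have h1 := (act_eq_one_iff π V hc e').1 hact' _ hvV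
      have h2 := hinv hp e' he' he'2 he'not v hv
      rw [h1, mul_inv_cancel_right] at h2
      obtain ⟨k, hk⟩ := hV ⟨π v, hvV⟩
      have h4 : π v ^ p ^ k = 1 := by simpa using congrArg Subtype.val hk
      have h5 : π v ^ 2 = 1 := by rw [pow_two]; exact eq_inv_iff_mul_eq_one.1 h2
      have h6 := pow_gcd_eq_one.mpr ⟨h4, h5⟩
      rw [show Nat.gcd (p ^ k) 2 = 1 from Nat.Coprime.pow_left k (by rw [hp]; decide), pow_one] at h6
      exact Subgroup.mem_bot.2 h6
  have hcA : Nat.card ((quot p E).map (act π V hc)) = Nat.card (quot p E) := by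
    have h1 := card_map_mul_card_inf_ker (act π V hc) (quot p E)
    have h2 : quot p E ⊓ (act π V hc).ker = ⊥ :=
      (Subgroup.eq_bot_iff_forall _).2 fun x hx => hinj x hx.1 hx.2
    rwa [h2, Subgroup.card_bot, mul_one] at h1
  refine ⟨⟨hcard, fun S hS' hSinv => ?_, ?_⟩, hinj⟩
  · set T := (N ⊓ (S.map V.subtype).comap π) ⊔ V₀ with hT
    have hET : E ≤ Subgroup.normalizer (T : Set G) := fun e he => by
      refine inf_normalizer_le_sup _ _ ⟨Subgroup.mem_normalizer_fintype fun x hx => ?_, hEV₀ he⟩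
      obtain ⟨hx1, s, hs1, hs2⟩ := hx
      refine ⟨(Subgroup.mem_normalizer_iff.1 (hEN he) x).1 hx1, _,
        hSinv _ ⟨_, ⟨e, he, rfl⟩, rfl⟩ s hs1, ?_⟩
      rw [Subgroup.coe_subtype, act_apply, map_mul, map_mul, map_inv]
      rw [Subgroup.coe_subtype] at hs2
      rw [hs2]
    rcases hsec.irred T le_sup_right (sup_le (inf_le_left.trans hNV) hsec.le) hET with h | h
    · refine Or.inl ((Subgroup.eq_bot_iff_forall _).2 fun s hs1 => Subtype.ext ?_)
      obtain ⟨n, hn, hns⟩ : (s : H) ∈ N.map π := hmoved ▸ ⟨s, hS' hs1, rfl⟩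
      have hnT : n ∈ N ⊓ π.ker := hker ▸ ⟨hn, h ▸ Subgroup.mem_sup_left ⟨hn, s, hs1, hns.symm⟩⟩
      rw [← hns]
      exact MonoidHom.mem_ker.1 hnT.2
    · refine Or.inr (le_antisymm hS' fun m hm => ?_)
      obtain ⟨n, hn, hnm⟩ : (m : H) ∈ N.map π := hmoved ▸ ⟨m, hm, rfl⟩
      have hn' : n ∈ T := h.symm ▸ hNV hn
      rw [hT, ← SetLike.mem_coe,
        Subgroup.coe_mul_of_left_le_normalizer_right _ _ (inf_le_left.trans hNV₀)] at hn'
      obtain ⟨a, ⟨ha, s, hs1, hs2⟩, v, hv, rfl⟩ := hn'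
      have hvk : v ∈ N ⊓ π.ker := hker ▸ ⟨by simpa using N.mul_mem (N.inv_mem ha) hn, hv⟩
      rw [map_mul, MonoidHom.mem_ker.1 hvk.2, mul_one, ← hs2] at hnm
      exact (Subtype.ext hnm : s = m) ▸ hs1
  · rcases hs with ⟨hp, h3⟩ | ⟨hp, h8⟩
    · exact Or.inl ⟨hp, hcA.trans h3⟩
    · refine Or.inr ⟨hp, hcA.trans h8, ?_⟩
      rintro _ ⟨_, ⟨e, he, rfl⟩, rfl⟩
      have h4 : e ^ 4 ∈ pCore p G := hF.pow_four (Or.inr ⟨hp, h8⟩) hp e he
      refine ⟨?_, fun h2 => ?_⟩
      · rw [← map_pow, ← map_pow, (show QuotientGroup.mk' (pCore p G) (e ^ 4) = 1 from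
          (QuotientGroup.eq_one_iff _).2 h4), map_one]
      rw [← map_pow, ← map_pow] at h2
      have h2' : e ^ 2 ∈ pCore p G :=
        (QuotientGroup.eq_one_iff _).1 (hinj _ ⟨_, pow_mem he 2, rfl⟩ h2)
      by_cases henot : e ∈ pCore p G
      · exact Or.inl (by rw [(show QuotientGroup.mk' (pCore p G) e = 1 from
          (QuotientGroup.eq_one_iff _).2 henot), map_one])
      · refine Or.inr fun w hw => Subtype.ext ?_
        obtain ⟨v, hv, hvw⟩ : (w : H) ∈ N.map π := hmoved ▸ ⟨w, hw, rfl⟩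
        rw [act_apply, Subgroup.coe_inv, ← hvw]
        exact hinv hp e he h2' henot v hv

end act

end CfsgLib.Replacement.Block
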