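import Cfsg.Agent.Lib.TwoGroupTricks.BlockFacts
import Cfsg.Agent.Lib.Signalizer.LinearBlock
import Cfsg.Agent.Lib.Cores.PCore
import Cfsg.Agent.Lib.Cores.Components
import Cfsg.Agent.S2984

/-!
Facts on subnormal Baumann blocks: the image modulo `O_p(G)` is either of order three, a quaternion group, or
quasisimple, and the natural sections have the orders to match.
-/

set_option autoImplicit false

open Matrix
open scoped MatrixGroups commutatorElement

namespace CfsgLib.Replacement.Block

open Cfsg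

/-! ### The two small special linear groups -/

theorem sl_two_mul : ∀ x y : SL(2, ZMod 2), x ^ 3 = 1 → y ^ 3 = 1 → (x * y) ^ 3 = 1 := by decide +kernel

theorem sl_two_comm : ∀ a b : SL(2, ZMod 2), (a * b * a⁻¹ * b⁻¹) ^ 3 = 1 := by decide +kernel

theorem sl_two_exists : ∀ q : SL(2, ZMod 2), q ^ 3 = 1 → ∃ a b : SL(2, ZMod 2), a * b * a⁻¹ * b⁻¹ = q := by
  decide +kernel

theorem sl_two_count : (Finset.univ.filter fun q : SL(2, ZMod 2) => q ^ 3 = 1).card = 3 := by decide +kernel

theorem sl_three_mul : ∀ x y : SL(2, ZMod 3), x ^ 4 = 1 → y ^ 4 = 1 → (x * y) ^ 4 = 1 := by decide +kernel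

theorem sl_three_comm : ∀ a b : SL(2, ZMod 3), (a * b * a⁻¹ * b⁻¹) ^ 4 = 1 := by decide +kernel

theorem sl_three_exists : ∀ q : SL(2, ZMod 3), q ^ 4 = 1 → ∃ a b : SL(2, ZMod 3), a * b * a⁻¹ * b⁻¹ = q := by
  decide +kernel

theorem sl_three_count : (Finset.univ.filter fun q : SL(2, ZMod 3) => q ^ 4 = 1).card = 8 := by decide +kernel

theorem sl_three_sq : ∀ q : SL(2, ZMod 3), q ^ 2 = 1 → q = 1 ∨ (q : Matrix (Fin 2) (Fin 2) (ZMod 3)) = -1 := by
  decide +kernel

/-- The derived group, when it consists of the solutions of `x ^ k = 1`. -/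
theorem mem_commutator_iff_pow {H : Type*} [Group H] {k : ℕ}
    (hmul : ∀ x y : H, x ^ k = 1 → y ^ k = 1 → (x * y) ^ k = 1)
    (hcomm : ∀ a b : H, (a * b * a⁻¹ * b⁻¹) ^ k = 1)
    (hex : ∀ q : H, q ^ k = 1 → ∃ a b : H, a * b * a⁻¹ * b⁻¹ = q) (x : H) :
    x ∈ _root_.commutator H ↔ x ^ k = 1 := by
  refine ⟨fun hx => ?_, fun hx => ?_⟩
  · let K : Subgroup H :=
      { carrier := {g | g ^ k = 1}
        mul_mem' := fun {x y} hx hy => hmul x y hx hy
        one_mem' := one_pow k
        inv_mem' := fun {x} hx => by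
          show x⁻¹ ^ k = 1
          rw [inv_pow, show x ^ k = 1 from hx, inv_one] }
    have : _root_.commutator H ≤ K := by
      rw [commutator_def, Subgroup.commutator_le]
      intro a _ b _
      rw [commutatorElement_def]
      exact hcomm a b
    exact this hx
  · obtain ⟨a, b, h⟩ := hex x hx
    rw [← h, ← commutatorElement_def, commutator_def]
    exact Subgroup.commutator_mem_commutator (Subgroup.mem_top a) (Subgroup.mem_top b)

/-- A ring isomorphism as an isomorphism of special linear groups. -/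
noncomputable def slEquiv {R S : Type*} [CommRing R] [CommRing S] (e : R ≃+* S) :
    Matrix.SpecialLinearGroup (Fin 2) R ≃* Matrix.SpecialLinearGroup (Fin 2) S :=
  MulEquiv.ofBijective (Matrix.SpecialLinearGroup.map e.toRingHom)
    ⟨fun a b h => Subtype.ext (Matrix.ext fun i j => e.injective (by
        simpa using congrFun (congrFun (congrArg Subtype.val h) i) j)),
      fun b => ⟨Matrix.SpecialLinearGroup.map e.symm.toRingHom b,
        Subtype.ext (Matrix.ext fun i j => by simp)⟩⟩

theorem mem_commutator_equiv {H K : Type*} [Group H] [Group K] (e : H ≃* K) (x : H) :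
    e x ∈ _root_.commutator K ↔ x ∈ _root_.commutator H := by
  have h : (_root_.commutator H).map e.toMonoidHom = _root_.commutator K := by
    rw [commutator_def, commutator_def, Subgroup.map_commutator,
      Subgroup.map_top_of_surjective _ e.surjective]
  rw [← h]
  exact ⟨fun ⟨y, hy, hyx⟩ => e.injective hyx ▸ hy, fun hx => ⟨x, hx, rfl⟩⟩

/-- The derived group of `SL₂` over a field with two or three elements. -/
theorem small_sl {F : Type*} [Field F] [Fintype F] (hq : Fintype.card F < 4) :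
    (Fintype.card F = 2 ∧ Nat.card (_root_.commutator SL(2, F)) = 3) ∨
    (Fintype.card F = 3 ∧ Nat.card (_root_.commutator SL(2, F)) = 8 ∧
      (∀ g ∈ _root_.commutator SL(2, F), g ^ 4 = 1) ∧
      ∀ g : SL(2, F), g ^ 2 = 1 → g = 1 ∨ (g : Matrix (Fin 2) (Fin 2) F) = -1) := by
  classical
  have h1 : 1 < Fintype.card F := Fintype.one_lt_card
  obtain h2 | h3 : Fintype.card F = 2 ∨ Fintype.card F = 3 := by omega
  · refine Or.inl ⟨h2, ?_⟩
    set e := slEquiv (ZMod.ringEquivOfPrime F Nat.prime_two h2)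
    rw [← sl_two_count, ← Nat.card_eq_finsetCard]
    refine (Nat.card_congr (Equiv.subtypeEquiv e.toEquiv fun q => ?_)).symm
    rw [Finset.mem_filter, MulEquiv.toEquiv_eq_coe, MulEquiv.coe_toEquiv, mem_commutator_equiv,
      mem_commutator_iff_pow sl_two_mul sl_two_comm sl_two_exists]
    simp
  · set e := slEquiv (ZMod.ringEquivOfPrime F Nat.prime_three h3) with he
    refine Or.inr ⟨h3, ?_, fun g hg => ?_, fun g hg => ?_⟩
    · rw [← sl_three_count, ← Nat.card_eq_finsetCard]
      refine (Nat.card_congr (Equiv.subtypeEquiv e.toEquiv fun q => ?_)).symm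
      rw [Finset.mem_filter, MulEquiv.toEquiv_eq_coe, MulEquiv.coe_toEquiv, mem_commutator_equiv,
        mem_commutator_iff_pow sl_three_mul sl_three_comm sl_three_exists]
      simp
    · obtain ⟨q, rfl⟩ := e.surjective g
      rw [mem_commutator_equiv, mem_commutator_iff_pow sl_three_mul sl_three_comm sl_three_exists] at hg
      rw [← map_pow, hg, map_one]
    · obtain ⟨q, rfl⟩ := e.surjective g
      rw [← map_pow, map_eq_one_iff e e.injective] at hg
      rcases sl_three_sq q hg with rfl | h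
      · exact Or.inl (map_one e)
      · refine Or.inr (Matrix.ext fun i j => ?_)
        have := congrFun (congrFun h i) j
        simp [he, slEquiv, this, Matrix.one_apply]

/-! ### Blocks -/

variable {G : Type*} [Group G] [Finite G] {p : ℕ} [Fact p.Prime]

/-- The image of `E` modulo `O_p(G)`. -/
def quot (p : ℕ) (E : Subgroup G) : Subgroup (G ⧸ pCore p G) := E.map (QuotientGroup.mk' (pCore p G))

/-- The image of the block is a group of order three or a quaternion group. -/
def IsSmall (p : ℕ) (E : Subgroup G) : Prop :=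
  (p = 2 ∧ Nat.card (quot p E) = 3) ∨ (p = 3 ∧ Nat.card (quot p E) = 8)

/-- A natural section of a block. -/
structure Sect (p : ℕ) (E V V₀ : Subgroup G) : Prop where
  section_irred : TwoGroupTricks.IrreducibleSection E V V₀
  card_small : IsSmall p E → Nat.card V = p ^ 2 * Nat.card V₀
  card_big : ¬ IsSmall p E → (p = 2 ∨ p = 3) → p ^ 2 * Nat.card V₀ < Nat.card V
  invol : IsSmall p E → p = 3 → ∀ e ∈ E, e ^ 2 ∈ pCore p G →
    e ∈ pCore p G ∨ ∀ v ∈ V, e * v * e⁻¹ * v ∈ V₀

omit [Fact p.Prime] in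
theorem inf_pCore_eq {E : Subgroup G} (hEs : E.IsSubnormal) : E ⊓ pCore p G = pCoreOf p E := by
  rw [inf_comm]; exact (CfsgLib.Cores.map_subtype_pCore_eq hEs).symm

omit [Fact p.Prime] in
theorem pCore_subgroupOf {E : Subgroup G} (hEs : E.IsSubnormal) :
    (pCore p G).subgroupOf E = pCore p E := by
  refine Subgroup.map_injective E.subtype_injective ?_
  rw [Subgroup.subgroupOf_map_subtype, inf_comm, inf_pCore_eq hEs]
  rfl

theorem quot_ker {E : Subgroup G} :
    ((QuotientGroup.mk' (pCore p G)).comp E.subtype).ker = (pCore p G).subgroupOf E := by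
  ext x
  simp [Subgroup.mem_subgroupOf, QuotientGroup.eq_one_iff]

/-- The image of a subnormal block modulo `O_p(G)` is its quotient by `O_p`. -/
noncomputable def quotEquiv {E : Subgroup G} (hEs : E.IsSubnormal) :
    ↥E ⧸ pCore p ↥E ≃* ↥(quot p E) :=
  ((QuotientGroup.quotientMulEquivOfEq (by rw [quot_ker, pCore_subgroupOf hEs])).trans
    (QuotientGroup.quotientKerEquivRange ((QuotientGroup.mk' (pCore p G)).comp E.subtype))).trans
    (MulEquiv.subgroupCongr (by rw [MonoidHom.range_comp, Subgroup.range_subtype]; rfl))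

theorem card_eq_of_section {A : Type*} [Group A] {V V₀ : Subgroup G} (hle : V₀ ≤ V) (ψ : V →* A)
    (hker : ∀ u : V, ψ u = 1 ↔ (u : G) ∈ V₀) : Nat.card V = Nat.card ψ.range * Nat.card V₀ := by
  rw [← Subgroup.card_mul_index ψ.ker, ← Nat.card_congr (Subgroup.subgroupOfEquivOfLe hle).toEquiv,
    show V₀.subgroupOf V = ψ.ker by ext u; simp [Subgroup.mem_subgroupOf, hker],
    Subgroup.index_ker, mul_comm]

omit [Fact p.Prime] in
theorem coe_pow_mem_iff {E : Subgroup G} (hEs : E.IsSubnormal) (e : E) :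
    (e : G) ∈ pCore p G ↔ e ∈ pCore p E := by
  rw [← pCore_subgroupOf hEs, Subgroup.mem_subgroupOf]

/-- A linear natural section. -/
theorem sect_of_sl {F : Type*} [Field F] [Fintype F] {n : ℕ} (hF : Fintype.card F = p ^ n)
    {E V V₀ : Subgroup G} (hEs : E.IsSubnormal)
    (φ : ↥E ⧸ pCore p ↥E ≃* ↥(_root_.commutator SL(2, F)))
    (hact : ActsAsSL2OnSection F (_root_.commutator SL(2, F)) E V V₀)
    (htriv : ∀ q ∈ pCoreOf p E, ∀ v ∈ V, q * v * q⁻¹ * v⁻¹ ∈ V₀) : Sect p E V V₀ := by
  classical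
  obtain ⟨hEV, hle, ρ, ψ, hR, hsurj, hker, hac⟩ := hact
  have hcardV : Nat.card V = (p ^ n) ^ 2 * Nat.card V₀ := by
    rw [card_eq_of_section hle ψ hker, MonoidHom.range_eq_top.2 hsurj, Subgroup.card_top,
      show Nat.card (Multiplicative (Fin 2 → F)) = Nat.card (Fin 2 → F) from rfl,
      Nat.card_fun, Nat.card_fin, Nat.card_eq_fintype_card, hF]
  have hρq : pCore p E ≤ ρ.ker := by
    intro q hq
    rw [MonoidHom.mem_ker]
    have hfix : ∀ a : Fin 2 → F, ((ρ q : SL(2, F)) : Matrix (Fin 2) (Fin 2) F).mulVec a = a := by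
      intro a
      obtain ⟨u, hu⟩ := hsurj (Multiplicative.ofAdd a)
      obtain ⟨w, hw, hψ⟩ := hac q u
      have h1 : ψ (w * u⁻¹) = 1 :=
        (hker _).2 (by simpa [hw] using htriv q ⟨q, hq, rfl⟩ u u.2)
      rw [map_mul, map_inv, mul_inv_eq_one] at h1
      rw [h1, hu, toAdd_ofAdd] at hψ
      exact hψ.symm
    refine Subtype.ext (Matrix.ext fun i j => ?_)
    have := congrFun (hfix (Pi.single j 1)) i
    simpa [Matrix.mulVec_single, Matrix.one_apply, Pi.single_apply] using this
  have hidx : ρ.ker = pCore p E := by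
    refine (Subgroup.eq_of_le_of_card_ge hρq ?_).symm
    have h1 : ρ.ker.index = (pCore p E).index := by
      rw [Subgroup.index_ker, hR]
      exact (Nat.card_congr φ.toEquiv).symm.trans (Subgroup.index_eq_card _).symm
    have h2 := (Subgroup.card_mul_index ρ.ker).trans (Subgroup.card_mul_index (pCore p E)).symm
    rw [h1] at h2
    exact (Nat.eq_of_mul_eq_mul_right (Nat.pos_of_ne_zero Subgroup.index_ne_zero_of_finite) h2).le
  have hcq : Nat.card (quot p E) = Nat.card (_root_.commutator SL(2, F)) :=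
    Nat.card_congr ((quotEquiv hEs).symm.trans φ).toEquiv
  refine ⟨?_, fun hs => ?_, fun hs hp => ?_, fun hs hp e he he2 => ?_⟩
  · refine TwoGroupTricks.irreducibleSection_of_hom hEV hle ψ hker
      (fun e a => ((ρ e : SL(2, F)) : Matrix (Fin 2) (Fin 2) F).mulVec a) hac (fun S _ hS => ?_) ?_
    · rcases TwoGroupTricks.NaturalModules.eq_bot_or_eq_top (S := S) (fun g hg v hv => by
          rw [← hR] at hg
          obtain ⟨e, rfl⟩ := hg
          exact hS e v hv) with h | h
      · exact Or.inl fun a ha => by simpa [h] using ha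
      · exact Or.inr fun u => h ▸ AddSubgroup.mem_top _
    · obtain ⟨g, hg, hgne⟩ := TwoGroupTricks.NaturalModules.exists_moved (F := F)
      rw [← hR] at hg
      obtain ⟨e, rfl⟩ := hg
      obtain ⟨u, hu⟩ := hsurj (Multiplicative.ofAdd ![1, 0])
      exact ⟨e, u, by rw [hu]; exact hgne⟩
  · rw [hcardV]
    congr 1
    rcases lt_or_ge (Fintype.card F) 4 with hlt | hge
    · congr 1
      rcases small_sl hlt with ⟨h, h'⟩ | ⟨h, h', -⟩ <;> rcases hs with ⟨hp, h''⟩ | ⟨hp, h''⟩ <;>
        first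
          | omega
          | (rw [← hF, h, hp])
    · exfalso
      have hq : IsQuasisimple SL(2, F) := by
        refine CfsgLib.Signalizer.isQuasisimple_sl (Or.inr ?_)
        obtain ⟨a, ha⟩ := CfsgLib.ClassicalLinear.exists_sq_ne_one_of_four_le_card (F := F) (by rwa [Nat.card_eq_fintype_card])
        exact ⟨a, ha⟩
      haveI := hq.1
      haveI := CfsgLib.Cores.nontrivial_of_isQuasisimple hq
      simp only [IsSmall, hcq, Group.IsPerfect.commutator_eq_top, Subgroup.card_top] at hs
      refine CfsgLib.Cores.not_isSolvable_of_isQuasisimple hq ?_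
      rcases hs with ⟨-, h⟩ | ⟨-, h⟩
      · haveI : IsCyclic SL(2, F) := isCyclic_of_prime_card (p := 3) h
        exact Group.isSolvable_of_comm IsCyclic.commGroup.mul_comm
      · haveI := Fact.mk Nat.prime_two
        haveI : Group.IsNilpotent SL(2, F) := (IsPGroup.of_card (p := 2) (n := 3) h).isNilpotent
        infer_instance
  · rw [hcardV]
    refine mul_lt_mul_of_pos_right ?_ Nat.card_pos
    refine Nat.pow_lt_pow_left ?_ two_ne_zero
    rcases lt_or_ge (Fintype.card F) 4 with hlt | hge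
    · exfalso
      apply hs
      have hdvd : p ∣ Fintype.card F := by
        rw [hF]; exact dvd_pow_self p (fun h => by
          rw [h, pow_zero] at hF
          exact Fintype.one_lt_card.ne' hF)
      rcases small_sl hlt with ⟨h, h'⟩ | ⟨h, h', -⟩
      · rw [h] at hdvd
        exact Or.inl ⟨(Nat.prime_dvd_prime_iff_eq Fact.out Nat.prime_two).1 hdvd, hcq.trans h'⟩
      · rw [h] at hdvd
        exact Or.inr ⟨(Nat.prime_dvd_prime_iff_eq Fact.out Nat.prime_three).1 hdvd, hcq.trans h'⟩
    · rw [← hF]; omega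
  · have hlt : Fintype.card F < 4 := by
      by_contra hge
      push Not at hge
      have h1 := hs
      obtain ⟨hp2, h8⟩ : p = 3 ∧ Nat.card (quot p E) = 8 := hs.resolve_left fun h => by omega
      have hq : IsQuasisimple SL(2, F) := by
        refine CfsgLib.Signalizer.isQuasisimple_sl (Or.inr ?_)
        obtain ⟨a, ha⟩ := CfsgLib.ClassicalLinear.exists_sq_ne_one_of_four_le_card (F := F) (by rwa [Nat.card_eq_fintype_card])
        exact ⟨a, ha⟩
      haveI := hq.1
      rw [hcq, Group.IsPerfect.commutator_eq_top, Subgroup.card_top] at h8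
      haveI := Fact.mk Nat.prime_two
      haveI : Group.IsNilpotent SL(2, F) := (IsPGroup.of_card (p := 2) (n := 3) h8).isNilpotent
      exact CfsgLib.Cores.not_isSolvable_of_isQuasisimple hq inferInstance
    rcases small_sl hlt with ⟨h, h'⟩ | ⟨h, -, -, hsq⟩
    · rcases hs with ⟨h1, -⟩ | ⟨-, h1⟩
      · omega
      · rw [hcq, h'] at h1; omega
    have hρ2 : ρ ⟨e, he⟩ ^ 2 = 1 := by
      rw [← map_pow, ← MonoidHom.mem_ker, hidx, ← coe_pow_mem_iff hEs]
      exact he2
    rcases hsq _ hρ2 with h1 | h1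
    · refine Or.inl ((coe_pow_mem_iff hEs ⟨e, he⟩).2 ?_)
      rw [← hidx, MonoidHom.mem_ker, h1]
    · refine Or.inr fun v hv => ?_
      obtain ⟨w, hw, hψ⟩ := hac ⟨e, he⟩ ⟨v, hv⟩
      have h2 : ψ (w * ⟨v, hv⟩) = 1 := by
        refine Multiplicative.toAdd.injective ?_
        rw [map_mul, toAdd_mul, toAdd_one, hψ, h1, Matrix.neg_mulVec, Matrix.one_mulVec, neg_add_cancel]
      simpa [hw] using (hker _).1 h2

/-- Vectors of even weight. -/
def evenEquiv (k : ℕ) : {v : Fin (k + 1) → ZMod 2 // ∑ i, v i = 0} ≃ (Fin k → ZMod 2) where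
  toFun v := fun i => v.1 i.succ
  invFun f := ⟨Fin.cons (∑ i, f i) f, by
    rw [Fin.sum_univ_succ, Fin.cons_zero]
    simp only [Fin.cons_succ]
    exact CharTwo.add_self_eq_zero _⟩
  left_inv v := Subtype.ext (funext fun i => by
    refine Fin.cases ?_ (fun j => ?_) i
    · have h := v.2
      rw [Fin.sum_univ_succ] at h
      change (Fin.cons (∑ j : Fin k, v.1 j.succ) (fun j : Fin k => v.1 j.succ) : Fin (k + 1) → ZMod 2) 0 = v.1 0
      rw [Fin.cons_zero]
      exact (CharTwo.add_eq_zero.1 h).symm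
    · simp)
  right_inv f := funext fun i => by simp

/-- A symmetric natural section. -/
theorem sect_of_perm (hp2 : p = 2) {m : ℕ} {E V V₀ : Subgroup G} (hEs : E.IsSubnormal) (hm : m ≠ 0)
    (φ : ↥E ⧸ pCore p ↥E ≃* ↥(alternatingGroup (Fin (2 * m + 1))))
    (hact : ActsAsOddPermModuleOnSection (2 * m + 1) (alternatingGroup (Fin (2 * m + 1))) E V V₀)
    (hsec : TwoGroupTricks.IrreducibleSection E V V₀) : Sect p E V V₀ := by
  obtain ⟨hEV, hle, ρ, ψ, hR, heven, hsurj, hker, hac⟩ := hact
  have hrange : Nat.card ψ.range = 2 ^ (2 * m) := by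
    have h1 : Nat.card ψ.range = Nat.card {v : Fin (2 * m + 1) → ZMod 2 // ∑ i, v i = 0} := by
      refine Nat.card_congr (Equiv.subtypeEquiv Multiplicative.toAdd fun a => ⟨?_, fun ha => ?_⟩)
      · rintro ⟨u, rfl⟩; exact heven u
      · obtain ⟨u, hu⟩ := hsurj _ ha
        exact ⟨u, Multiplicative.toAdd.injective hu⟩
    rw [h1, Nat.card_congr (evenEquiv (2 * m)), Nat.card_fun, Nat.card_fin, Nat.card_zmod]
  have hcq : Nat.card (quot p E) = Nat.card (alternatingGroup (Fin (2 * m + 1))) :=
    Nat.card_congr ((quotEquiv hEs).symm.trans φ).toEquiv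
  have hiff : IsSmall p E ↔ m = 1 := by
    haveI : Nontrivial (Fin (2 * m + 1)) := Fin.nontrivial_iff_two_le.2 (by omega)
    have h2 : 2 * Nat.card (alternatingGroup (Fin (2 * m + 1))) = (2 * m + 1).factorial := by
      simpa [Nat.card_eq_fintype_card, Fintype.card_perm] using
        two_mul_card_alternatingGroup (α := Fin (2 * m + 1))
    constructor
    · rintro (⟨-, h⟩ | ⟨h, -⟩)
      · rw [hcq] at h
        by_contra hne
        have : Nat.factorial 5 ≤ (2 * m + 1).factorial := Nat.factorial_le (by omega)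
        rw [show Nat.factorial 5 = 120 by decide] at this
        omega
      · omega
    · rintro rfl
      refine Or.inl ⟨hp2, ?_⟩
      rw [hcq]
      rw [show Nat.factorial (2 * 1 + 1) = 6 by decide] at h2
      omega
  refine ⟨hsec, fun hs => ?_, fun hs _ => ?_, fun _ h3 => by omega⟩
  · rw [card_eq_of_section hle ψ hker, hrange, hiff.1 hs, hp2]
  · rw [card_eq_of_section hle ψ hker, hrange, hp2]
    refine mul_lt_mul_of_pos_right ?_ Nat.card_pos
    have : m ≠ 1 := fun h => hs (hiff.2 h)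
    exact Nat.pow_lt_pow_right one_lt_two (by omega)

/-- What is used about a subnormal block. -/
structure Facts (p : ℕ) (E : Subgroup G) : Prop where
  subnormal : E.IsSubnormal
  residual : pResidualOf p E = E
  normal_core : pCore p G ≤ Subgroup.normalizer (E : Set G)
  sup_core : pResidualOf p (E ⊔ pCore p G) = E
  comm_le : ⁅pCore p G, E⁆ ≤ pCoreOf p E
  comm_eq : ⁅pCoreOf p E, E⁆ = pCoreOf p E
  omega_le : ⁅omegaOneCenter p (pCoreOf p E), E⁆ ≤ omegaOneCenter p (pCore p G)
  shape : IsSmall p E ∨ IsQuasisimple ↥(quot p E)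
  pow_four : IsSmall p E → p = 3 → ∀ e ∈ E, e ^ 4 ∈ pCore p G
  moduleFacts : ⁅⁅omegaOneCenter p (pCoreOf p E), E⁆, E⁆ = ⁅omegaOneCenter p (pCoreOf p E), E⁆ ∧
      ⁅omegaOneCenter p (pCoreOf p E), E⁆ ≤ omegaOneCenter p (pCoreOf p E) ∧
      ⁅omegaOneCenter p (pCoreOf p E), E⁆ ≠ ⊥ ∧
      ⁅omegaOneCenter p (pCoreOf p E), E⁆ ⊔ (omegaOneCenter p (pCoreOf p E) ⊓ Subgroup.centralizer (E : Set G)) =
        omegaOneCenter p (pCoreOf p E)
  sectW : Sect p E (omegaOneCenter p (pCoreOf p E))
    (omegaOneCenter p (pCoreOf p E) ⊓ Subgroup.centralizer (E : Set G))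
  dich : pCoreOf p E = omegaOneCenter p (pCoreOf p E) ∨
    (p = 3 ∧ ⁅pCoreOf p E, pCoreOf p E⁆ =
        omegaOneCenter p (pCoreOf p E) ⊓ Subgroup.centralizer (E : Set G) ∧
      Sect p E (pCoreOf p E) (omegaOneCenter p (pCoreOf p E)) ∧
      ∃ b : G, b ∈ Subgroup.normalizer (E : Set G) ∧ (∃ j : ℕ, b ^ p ^ j = 1) ∧
        ¬ ⁅⁅pCoreOf p E, Subgroup.zpowers b⁆, Subgroup.zpowers b⁆ ≤
          omegaOneCenter p (pCoreOf p E) ⊓ Subgroup.centralizer (E : Set G))

theorem facts_of_block (hG : Subgroup.centralizer (pCore p G : Set G) ≤ pCore p G)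
    {E : Subgroup G} (T : Sylow p G) (hE : IsBaumannBlock p (T : Subgroup G) E) (hEs : E.IsSubnormal) :
    Facts p E := by
  classical
  have hN := TwoGroupTricks.pCore_le_normalizer_block T hE
  have hWq : omegaOneCenter p (pCoreOf p E) ≤ pCoreOf p E :=
    (TwoGroupTricks.omegaOneCenter_le _).trans inf_le_left
  have hcW : ∀ q ∈ pCoreOf p E, ∀ v ∈ omegaOneCenter p (pCoreOf p E), q * v = v * q := fun q hq v hv =>
    (TwoGroupTricks.omegaOneCenter_le _ hv).2 q hq
  have hsec := TwoGroupTricks.irreducibleSection_of_block hE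
  have hb : ∃ b : G, b ∈ Subgroup.normalizer (E : Set G) ∧ (∃ j : ℕ, b ^ p ^ j = 1) ∧
      b ∈ baumannSubgroupOf p (T : Subgroup G) ∧
      b ∉ Subgroup.centralizer (omegaOneCenter p (pCoreOf p E) : Set G) := by
    have hne := TwoGroupTricks.commutator_thompson_ne_bot hG T hE
    by_contra! hall
    refine hne ?_
    rw [Subgroup.commutator_eq_bot_iff_le_centralizer]
    intro w hw
    have hw' : w ∈ omegaOneCenter p (pCoreOf p E) := (TwoGroupTricks.block_module_facts hE).2.1 hw
    refine Subgroup.mem_centralizer_iff.2 fun j hj => ?_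
    have hjB := TwoGroupTricks.thompsonSubgroupOf_le_baumann (T : Subgroup G) hj
    obtain ⟨k, hk⟩ := T.2 ⟨j, hjB.1⟩
    exact (hall j (TwoGroupTricks.le_normalizer_of_commutator_eq hE.2.1 hjB)
      ⟨k, congrArg Subtype.val hk⟩ hjB w hw').symm
  have hsup : pResidualOf p (E ⊔ pCore p G) = E := (Cfsg.Agent.S2984.result hG T E hE).1
  have hcomm : ⁅pCore p G, E⁆ ≤ pCoreOf p E := by
    rw [← inf_pCore_eq hEs]
    exact le_inf (by rw [Subgroup.commutator_comm]; exact CfsgLib.CoprimeAction.commutator_le_left hN)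
      (CfsgLib.CoprimeAction.commutator_le_left (by rw [Subgroup.normalizer_eq_top]; exact le_top))
  have hω := TwoGroupTricks.commutator_le_omegaOneCenter_pCore hG T hE
  rcases hE.2.2.2.2 with ⟨F, iF, iFt, n, hF, ⟨φ⟩, hact, hdich⟩ | ⟨hp2, m, ⟨φ⟩, hact, hq⟩
  · have hshape : IsSmall p E ∨ IsQuasisimple ↥(quot p E) := by
      rcases lt_or_ge (Fintype.card F) 4 with hlt | hge
      · refine Or.inl ?_
        have hcq : Nat.card (quot p E) = Nat.card (_root_.commutator SL(2, F)) :=
          Nat.card_congr ((quotEquiv hEs).symm.trans φ).toEquiv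
        have hn : n ≠ 0 := fun h => by
          rw [h, pow_zero] at hF
          exact Fintype.one_lt_card.ne' hF
        rcases small_sl hlt with ⟨h, h'⟩ | ⟨h, h', -⟩
        · rw [hF] at h
          have hdvd : p ∣ 2 := h ▸ dvd_pow_self p hn
          exact Or.inl ⟨(Nat.prime_dvd_prime_iff_eq Fact.out Nat.prime_two).1 hdvd, hcq.trans h'⟩
        · rw [hF] at h
          have hdvd : p ∣ 3 := h ▸ dvd_pow_self p hn
          exact Or.inr ⟨(Nat.prime_dvd_prime_iff_eq Fact.out Nat.prime_three).1 hdvd, hcq.trans h'⟩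
      · refine Or.inr ?_
        have hq : IsQuasisimple SL(2, F) := by
          refine CfsgLib.Signalizer.isQuasisimple_sl (Or.inr ?_)
          obtain ⟨a, ha⟩ := CfsgLib.ClassicalLinear.exists_sq_ne_one_of_four_le_card (F := F) (by rwa [Nat.card_eq_fintype_card])
          exact ⟨a, ha⟩
        haveI := hq.1
        exact (CfsgLib.Cores.isQuasisimple_congr ((quotEquiv hEs).symm.trans (φ.trans
          ((MulEquiv.subgroupCongr Group.IsPerfect.commutator_eq_top).trans Subgroup.topEquiv)))).2 hq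
    have hpow : IsSmall p E → p = 3 → ∀ e ∈ E, e ^ 4 ∈ pCore p G := by
      intro hs hp e he
      rw [show e ^ 4 = ((⟨e, he⟩ : E) ^ 4 : E) by simp, coe_pow_mem_iff hEs, ← QuotientGroup.eq_one_iff,
        QuotientGroup.mk_pow, ← map_eq_one_iff φ φ.injective, map_pow]
      have hcq : Nat.card (quot p E) = Nat.card (_root_.commutator SL(2, F)) :=
        Nat.card_congr ((quotEquiv hEs).symm.trans φ).toEquiv
      have hlt : Fintype.card F < 4 := by
        by_contra hge
        push Not at hge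
        have hq : IsQuasisimple SL(2, F) := by
          refine CfsgLib.Signalizer.isQuasisimple_sl (Or.inr ?_)
          obtain ⟨a, ha⟩ := CfsgLib.ClassicalLinear.exists_sq_ne_one_of_four_le_card (F := F) (by rwa [Nat.card_eq_fintype_card])
          exact ⟨a, ha⟩
        haveI := hq.1
        obtain ⟨-, h8⟩ := hs.resolve_left fun h => by omega
        rw [hcq, Group.IsPerfect.commutator_eq_top, Subgroup.card_top] at h8
        haveI := Fact.mk Nat.prime_two
        haveI : Group.IsNilpotent SL(2, F) := (IsPGroup.of_card (p := 2) (n := 3) h8).isNilpotent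
        exact CfsgLib.Cores.not_isSolvable_of_isQuasisimple hq inferInstance
      rcases small_sl hlt with ⟨-, h'⟩ | ⟨-, -, h4, -⟩
      · obtain ⟨-, h8⟩ := hs.resolve_left fun h => by omega
        rw [hcq, h'] at h8; omega
      · exact Subtype.ext (h4 _ (φ _).2)
    refine ⟨hEs, hE.1, hN, hsup, hcomm, hE.2.2.1, hω, hshape, hpow,
      TwoGroupTricks.block_module_facts hE, sect_of_sl hF hEs φ hact (fun q hq v hv => by simp [hcW q hq v hv]), ?_⟩
    rcases hdich with h | ⟨hp, hact', hQQ, -, hEC, -, hnq⟩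
    · exact Or.inl h
    obtain ⟨b, hb1, hb2, hb3, hb4⟩ := hb
    refine Or.inr ⟨hp, hQQ, sect_of_sl hF hEs φ hact' (fun q hq v hv => ?_), b, hb1, hb2,
      hEC ▸ hnq b hb3 hb4⟩
    have := Subgroup.commutator_mem_commutator hq hv
    rw [hQQ, commutatorElement_def] at this
    exact this.1
  · have hm : m ≠ 0 := by
      rintro rfl
      haveI : Subsingleton (↥(alternatingGroup (Fin (2 * 0 + 1)))) :=
        ⟨fun a b => Subtype.ext (Equiv.ext fun i => Subsingleton.elim (α := Fin 1) _ _)⟩
      haveI : Subsingleton (↥E ⧸ pCore p ↥E) := φ.toEquiv.subsingleton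
      obtain ⟨g, hg, hne⟩ : ∃ g ∈ E, ∃ w ∈ omegaOneCenter p (pCoreOf p E), g * w ≠ w * g := by
        by_contra! h
        refine hsec.nontriv ((le_of_eq ?_).trans bot_le)
        rw [Subgroup.commutator_eq_bot_iff_le_centralizer]
        exact fun w hw => Subgroup.mem_centralizer_iff.2 fun g hg => h g hg w hw
      obtain ⟨w, hw, hne⟩ := hne
      have hgq : (⟨g, hg⟩ : E) ∈ pCore p E := (QuotientGroup.eq_one_iff _).1 (Subsingleton.elim _ _)
      exact hne (hcW g ⟨⟨g, hg⟩, hgq, rfl⟩ w hw)
    refine ⟨hEs, hE.1, hN, hsup, hcomm, hE.2.2.1, hω, ?_, fun hs h3 => by omega,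
      TwoGroupTricks.block_module_facts hE, sect_of_perm hp2 hEs hm φ hact hsec, Or.inl hq⟩
    rcases Nat.lt_or_ge m 2 with h | h
    · refine Or.inl (Or.inl ⟨hp2, ?_⟩)
      obtain rfl : m = 1 := by omega
      rw [Nat.card_congr ((quotEquiv hEs).symm.trans φ).toEquiv, Nat.card_eq_fintype_card]
      rfl
    · refine Or.inr ?_
      haveI := alternatingGroup.isSimpleGroup (α := Fin (2 * m + 1)) (by simp; omega)
      refine (CfsgLib.Cores.isQuasisimple_congr ((quotEquiv hEs).symm.trans φ)).2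
        (CfsgLib.Cores.isQuasisimple_of_isSimpleGroup fun hc => ?_)
      have h3 := alternatingGroup.isMulCommutative_iff_card_le_three.1 hc
      rw [Nat.card_fin] at h3
      omega

end CfsgLib.Replacement.Block
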